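import Mathlib
import Cfsg.Agent.Lib.Helper25.ACStmt
import Cfsg.Agent.Lib.Helper25.ACOddStmt

set_option autoImplicit false

/-!
S3911 / COPCASE (call by helper25): `#M` coprime to `[G : M]` gives (B) for `G ⧸ M`
(Schur–Zassenhaus lift of every abelian subgroup, `LiftCrit` with `f = id`).
-/

namespace Cfsg.Agent.Lib.Helper36.AOCOPCASE

universe u

open Cfsg.Agent.Lib.Helper25.ACStmt Cfsg.Agent.Lib.Helper25.ACOddStmt

theorem main (hS : SZLift.{u}) (hL : LiftCrit.{u}) : CopCase.{u} := by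
  intro G _ _ hB M _ hcop
  refine hL G M hB ⟨id, fun A hA => ?_⟩
  have hdvd : Nat.card ↥A ∣ M.index := by
    rw [Subgroup.index_eq_card]
    exact Subgroup.card_subgroup_dvd_card A
  have hcop' : Nat.Coprime (Nat.card ↥M) (Nat.card ↥A) :=
    Nat.Coprime.coprime_dvd_right hdvd hcop
  obtain ⟨A₀, h1, h2, h3⟩ := hS G M A hA hcop'
  exact ⟨A₀, h1, h2, h3⟩

end Cfsg.Agent.Lib.Helper36.AOCOPCASE
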