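import Mathlib
import Cfsg.Agent.Lib.Helper18.Cent2

set_option autoImplicit false
set_option linter.unusedSimpArgs false
set_option linter.unusedSectionVars false
set_option linter.unusedVariables false

/-!
Columns of products of root elements whose roots pairwise do not add up to roots, and the
comparison of two such products.
-/

namespace Cfsg.Agent.Lib.Helper36.CentA

open Cfsg Cfsg.Lie Cfsg.Agent.Lib.Helper18.Fast Cfsg.Agent.Lib.Helper18.Grade
  Cfsg.Agent.Lib.Helper18.Facts Cfsg.Agent.Lib.Helper18.AllRoots Cfsg.Agent.Lib.Helper18.Loop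
  Cfsg.Agent.Lib.Helper18.Weyl Cfsg.Agent.Lib.Helper18.RootSys Cfsg.Agent.Lib.Helper18.Orbit
  Cfsg.Agent.Lib.Helper18.Units Cfsg.Agent.Lib.Helper18.Sub Cfsg.Agent.Lib.Helper18.Norm
  Cfsg.Agent.Lib.Helper18.HAll Cfsg.Agent.Lib.Helper18.Torus Cfsg.Agent.Lib.Helper18.Pos
  Cfsg.Agent.Lib.Helper18.WGroup Cfsg.Agent.Lib.Helper18.BNChev Cfsg.Agent.Lib.Helper18.Mono
  Cfsg.Agent.Lib.Helper18.BNPairC Cfsg.Agent.Lib.Helper18.UOrd Cfsg.Agent.Lib.Helper18.Cox
  Cfsg.Agent.Lib.Helper18.Long Cfsg.Agent.Lib.Helper18.Core Cfsg.Agent.Lib.Helper18.Conj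
  Cfsg.Agent.Lib.Helper18.RFact Cfsg.Agent.Lib.Helper18.BNCell Cfsg.Agent.Lib.Helper18.Vec
  Cfsg.Agent.Lib.Helper18.XMat Cfsg.Agent.Lib.Helper18.Cells Cfsg.Agent.Lib.Helper18.Cox2
  Cfsg.Agent.Lib.Helper18.Cells2 Cfsg.Agent.Lib.Helper18.Cox3

variable {A : FData} {D : ChevalleyDatum} {F : Type*} [Field F] {X : WD} {m : ℕ → ℕ → ℤ}
  {w : ℕ → ℤ} {N : ℕ} {ord rnk : ℕ → ℕ} {bz : ℕ → ℕ → ℤ} {w' : ℕ → ℤ}

/-- The root element `x_r` fixes the basis vector `e_s`. -/
def cf (A : FData) (r s : ℕ) : Bool :=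
  decide (s = r) || (decide (s ≠ A.neg r) && (A.ch r s).isEmpty)

theorem x_col_e (hA : Agrees A D) {r s : ℕ} (hr : r < A.n) (hs : s < A.n)
    (h : cf A r s = true) (t : F) : (D.x F r t).mulVec (sgl D F s) = sgl D F s := by
  rw [x_mulVec_sgl hA hr]
  funext row
  unfold cf at h
  have hcol : A.xcol r s = [(s, 0, 1)] := by
    unfold FData.xcol
    rw [if_pos hs]
    rw [Bool.or_eq_true, Bool.and_eq_true] at h
    rcases h with h | ⟨h1, h2⟩
    · rw [if_pos (of_decide_eq_true h)]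
    · have h1' := of_decide_eq_true h1
      by_cases hsr : s = r
      · rw [if_pos hsr]
      · rw [if_neg hsr, if_neg h1']
        rw [List.isEmpty_iff] at h2
        rw [h2]
        rfl
  rw [hcol]
  simp only [sgl]
  by_cases he : enc D row = s
  · simp [he]
  · have : ¬ s = enc D row := fun h => he h.symm
    simp [he, this]

theorem x_col_h (hA : Agrees A D) {r i : ℕ} (hr : r < A.n) (hi : i < A.rank) (t : F) :
    (D.x F r t).mulVec (sgl D F (A.n + i)) =
      sgl D F (A.n + i) + (-(((A.car i r : ℤ) : F) * t)) • sgl D F r := by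
  rw [x_mulVec_sgl hA hr]
  funext row
  have hcol : A.xcol r (A.n + i) = [(A.n + i, 0, 1), (r, 1, - A.car i r)] := by
    unfold FData.xcol
    rw [if_neg (by omega), if_pos (by omega)]
    simp
  rw [hcol]
  simp only [sgl, Pi.add_apply, Pi.smul_apply, smul_eq_mul]
  have hne : ¬ r = A.n + i := by omega
  have hne' : ¬ A.n + i = r := by omega
  by_cases h1 : enc D row = A.n + i
  · rw [h1]
    simp [hne, hne']
  · have h1' : ¬ A.n + i = enc D row := fun h => h1 h.symm
    by_cases h2 : enc D row = r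
    · rw [h2]
      simp [hne, hne']
    · have h3 : ¬ r = enc D row := fun h => h2 h.symm
      simp [h1, h1', h2, h3]

/-- Product of root elements along a list. -/
noncomputable def prodL (hF : AFacts A D) (F : Type*) [Field F] (L : List (ℕ × F)) :
    GL D.Idx F := (L.map (fun p => xg hF F p.1 p.2)).prod

theorem prodL_nil (hF : AFacts A D) : prodL hF F [] = 1 := rfl

theorem prodL_cons (hF : AFacts A D) (p : ℕ × F) (L : List (ℕ × F)) :
    prodL hF F (p :: L) = xg hF F p.1 p.2 * prodL hF F L := by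
  simp [prodL]

theorem prodL_append (hF : AFacts A D) (L L' : List (ℕ × F)) :
    prodL hF F (L ++ L') = prodL hF F L * prodL hF F L' := by
  simp [prodL]

theorem prodL_col_e (hF : AFacts A D) {L : List (ℕ × F)} {s : ℕ} (hs : s < A.n)
    (hL : ∀ p ∈ L, p.1 < A.n ∧ cf A p.1 s = true) :
    ((prodL hF F L : GL D.Idx F) : Matrix D.Idx D.Idx F).mulVec (sgl D F s) = sgl D F s := by
  induction L with
  | nil => simp [prodL]
  | cons p L ih =>
    have hp := hL p List.mem_cons_self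
    rw [prodL_cons, Units.val_mul, ← Matrix.mulVec_mulVec,
      ih (fun q hq => hL q (List.mem_cons_of_mem _ hq)), coe_xg hF (lt_nroots hF hp.1)]
    exact x_col_e hF.agrees hp.1 hs hp.2 _

theorem mulVec_sum_fixed (M : Matrix D.Idx D.Idx F) (a : ℕ × F → F) (L : List (ℕ × F))
    (h : ∀ q ∈ L, M.mulVec (sgl D F q.1) = sgl D F q.1) :
    M.mulVec (L.map (fun q => a q • sgl D F q.1)).sum =
      (L.map (fun q => a q • sgl D F q.1)).sum := by
  induction L with
  | nil => simp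
  | cons q L ih =>
    rw [List.map_cons, List.sum_cons, Matrix.mulVec_add, Matrix.mulVec_smul,
      h q List.mem_cons_self, ih (fun q' hq' => h q' (List.mem_cons_of_mem _ hq'))]

theorem prodL_col_h (hF : AFacts A D) {L : List (ℕ × F)} {i : ℕ} (hi : i < A.rank)
    (hL : ∀ p ∈ L, p.1 < A.n) (hcf : ∀ p ∈ L, ∀ q ∈ L, cf A p.1 q.1 = true) :
    ((prodL hF F L : GL D.Idx F) : Matrix D.Idx D.Idx F).mulVec (sgl D F (A.n + i)) =
      sgl D F (A.n + i) +
        (L.map (fun p => (-(((A.car i p.1 : ℤ) : F) * p.2)) • sgl D F p.1)).sum := by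
  induction L with
  | nil => simp [prodL]
  | cons p L ih =>
    have hp := hL p List.mem_cons_self
    have hL' : ∀ q ∈ L, q.1 < A.n := fun q hq => hL q (List.mem_cons_of_mem _ hq)
    rw [prodL_cons, Units.val_mul, ← Matrix.mulVec_mulVec,
      ih hL' (fun a ha b hb => hcf a (List.mem_cons_of_mem _ ha) b (List.mem_cons_of_mem _ hb)),
      coe_xg hF (lt_nroots hF hp), Matrix.mulVec_add, x_col_h hF.agrees hp hi,
      mulVec_sum_fixed (D.x F p.1 p.2) (fun q => -(((A.car i q.1 : ℤ) : F) * q.2)) L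
        (fun q hq => x_col_e hF.agrees hp (hL' q hq)
          (hcf p List.mem_cons_self q (List.mem_cons_of_mem _ hq)) _),
      List.map_cons, List.sum_cons, add_assoc]

theorem list_sum_apply (L : List (ℕ × F)) (f : ℕ × F → D.Idx → F) (b : D.Idx) :
    (L.map f).sum b = (L.map (fun p => f p b)).sum := by
  induction L with
  | nil => simp
  | cons q L ih => simp [ih]

/-- The entry of a product of root elements in the row of `e_δ` and the column of `h_i`. -/
theorem prodL_coef (hF : AFacts A D) {L : List (ℕ × F)} {i : ℕ} (hi : i < A.rank)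
    (hL : ∀ p ∈ L, p.1 < A.n) (hcf : ∀ p ∈ L, ∀ q ∈ L, cf A p.1 q.1 = true) {δ : ℕ}
    (hδ : δ < A.n) (b : D.Idx) (hb : enc D b = δ) :
    (((prodL hF F L : GL D.Idx F) : Matrix D.Idx D.Idx F).mulVec (sgl D F (A.n + i))) b =
      (L.map (fun p => if p.1 = δ then -(((A.car i δ : ℤ) : F) * p.2) else 0)).sum := by
  rw [prodL_col_h hF hi hL hcf, Pi.add_apply, list_sum_apply]
  have h0 : sgl D F (A.n + i) b = 0 := by
    simp only [sgl]
    rw [if_neg (by omega)]
  rw [h0, zero_add]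
  congr 1
  apply List.map_congr_left
  intro p _
  simp only [Pi.smul_apply, smul_eq_mul, sgl, hb]
  by_cases h : p.1 = δ
  · have h' : δ = p.1 := h.symm
    simp [h]
  · have h' : ¬ δ = p.1 := fun e => h e.symm
    simp [h, h']

theorem sum_notin (L : List (ℕ × F)) (δ : ℕ) (f : F → F) (h : δ ∉ L.map Prod.fst) :
    (L.map (fun p => if p.1 = δ then f p.2 else 0)).sum = 0 := by
  induction L with
  | nil => simp
  | cons q L ih =>
    rw [List.map_cons, List.mem_cons, not_or] at h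
    rw [List.map_cons, List.sum_cons, ih h.2, if_neg (fun e => h.1 e.symm), add_zero]

theorem sum_nodup (L : List (ℕ × F)) (δ : ℕ) (c : F) (f : F → F)
    (hnd : (L.map Prod.fst).Nodup) (hmem : (δ, c) ∈ L) :
    (L.map (fun p => if p.1 = δ then f p.2 else 0)).sum = f c := by
  induction L with
  | nil => simp at hmem
  | cons q L ih =>
    rw [List.map_cons, List.nodup_cons] at hnd
    rw [List.map_cons, List.sum_cons]
    rcases List.mem_cons.mp hmem with h | h
    · subst h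
      rw [if_pos rfl, sum_notin L _ f hnd.1, add_zero]
    · have hne : q.1 ≠ δ := by
        intro e
        apply hnd.1
        rw [e]
        exact List.mem_map.mpr ⟨(δ, c), h, rfl⟩
      rw [if_neg hne, ih hnd.2 h, zero_add]

/-- A root occurring with a nonzero coefficient in one product occurs in the other one. -/
theorem mem_of_prodL_eq (hF : AFacts A D) {L L' : List (ℕ × F)}
    (hL : ∀ p ∈ L, p.1 < A.n) (hcf : ∀ p ∈ L, ∀ q ∈ L, cf A p.1 q.1 = true)
    (hL' : ∀ p ∈ L', p.1 < A.n) (hcf' : ∀ p ∈ L', ∀ q ∈ L', cf A p.1 q.1 = true)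
    (hnd : (L.map Prod.fst).Nodup) (heq : prodL hF F L = prodL hF F L') {δ : ℕ} {c : F}
    (hmem : (δ, c) ∈ L) (hc : c ≠ 0)
    (hodd : ∃ i < A.rank, ((A.car i δ : ℤ) : F) ≠ 0) : δ ∈ L'.map Prod.fst := by
  by_contra hcon
  obtain ⟨i, hi, hcar⟩ := hodd
  have hδ : δ < A.n := hL _ hmem
  have h1 := prodL_coef hF hi hL hcf hδ (Sum.inr ⟨δ, lt_nroots hF hδ⟩) rfl
  have h2 := prodL_coef hF hi hL' hcf' hδ (Sum.inr ⟨δ, lt_nroots hF hδ⟩) rfl
  rw [sum_nodup L δ c (fun x => -(((A.car i δ : ℤ) : F) * x)) hnd hmem] at h1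
  rw [sum_notin L' δ (fun x => -(((A.car i δ : ℤ) : F) * x)) hcon] at h2
  rw [heq, h2] at h1
  have h3 : ((A.car i δ : ℤ) : F) * c = 0 := by
    rw [← neg_eq_zero]
    exact h1.symm
  rcases mul_eq_zero.mp h3 with h | h
  · exact hcar h
  · exact hc h

/-- The coefficients of a root in two equal products agree. -/
theorem coef_eq_of_prodL_eq (hF : AFacts A D) {L L' : List (ℕ × F)}
    (hL : ∀ p ∈ L, p.1 < A.n) (hcf : ∀ p ∈ L, ∀ q ∈ L, cf A p.1 q.1 = true)
    (hL' : ∀ p ∈ L', p.1 < A.n) (hcf' : ∀ p ∈ L', ∀ q ∈ L', cf A p.1 q.1 = true)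
    (hnd : (L.map Prod.fst).Nodup) (hnd' : (L'.map Prod.fst).Nodup)
    (heq : prodL hF F L = prodL hF F L') {δ : ℕ} {c c' : F}
    (hmem : (δ, c) ∈ L) (hmem' : (δ, c') ∈ L')
    (hodd : ∃ i < A.rank, ((A.car i δ : ℤ) : F) ≠ 0) : c = c' := by
  obtain ⟨i, hi, hcar⟩ := hodd
  have hδ : δ < A.n := hL _ hmem
  have h1 := prodL_coef hF hi hL hcf hδ (Sum.inr ⟨δ, lt_nroots hF hδ⟩) rfl
  have h2 := prodL_coef hF hi hL' hcf' hδ (Sum.inr ⟨δ, lt_nroots hF hδ⟩) rfl
  rw [sum_nodup L δ c (fun x => -(((A.car i δ : ℤ) : F) * x)) hnd hmem] at h1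
  rw [sum_nodup L' δ c' (fun x => -(((A.car i δ : ℤ) : F) * x)) hnd' hmem'] at h2
  rw [heq, h2] at h1
  have h3 : ((A.car i δ : ℤ) : F) * c' = ((A.car i δ : ℤ) : F) * c := neg_injective h1
  exact (mul_left_cancel₀ hcar h3).symm

end Cfsg.Agent.Lib.Helper36.CentA
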