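import Mathlib
import Cfsg.Agent.Lib.Helper36.CentA

set_option autoImplicit false
set_option linter.unusedSimpArgs false
set_option linter.unusedSectionVars false
set_option linter.unusedVariables false

/-!
Tools for centralizers of products of root involutions: stabilizers of two roots in the Weyl
group, invariants along Weyl words, conjugation of products of root elements by monomial and
diagonal elements, and the torus elements of a Levi subgroup.
-/

namespace Cfsg.Agent.Lib.Helper36.CentB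

open Cfsg Cfsg.Lie Cfsg.Agent.Lib.Helper18.Fast Cfsg.Agent.Lib.Helper18.Grade
  Cfsg.Agent.Lib.Helper18.Facts Cfsg.Agent.Lib.Helper18.AllRoots Cfsg.Agent.Lib.Helper18.Loop
  Cfsg.Agent.Lib.Helper18.Weyl Cfsg.Agent.Lib.Helper18.RootSys Cfsg.Agent.Lib.Helper18.Orbit
  Cfsg.Agent.Lib.Helper18.Units Cfsg.Agent.Lib.Helper18.Sub Cfsg.Agent.Lib.Helper18.Norm
  Cfsg.Agent.Lib.Helper18.HAll Cfsg.Agent.Lib.Helper18.Torus Cfsg.Agent.Lib.Helper18.Pos
  Cfsg.Agent.Lib.Helper18.WGroup Cfsg.Agent.Lib.Helper18.BNChev Cfsg.Agent.Lib.Helper18.Mono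
  Cfsg.Agent.Lib.Helper18.BNPairC Cfsg.Agent.Lib.Helper18.UOrd Cfsg.Agent.Lib.Helper18.Cox
  Cfsg.Agent.Lib.Helper18.Long Cfsg.Agent.Lib.Helper18.Core Cfsg.Agent.Lib.Helper18.Conj
  Cfsg.Agent.Lib.Helper18.RFact Cfsg.Agent.Lib.Helper18.BNCell Cfsg.Agent.Lib.Helper18.Vec
  Cfsg.Agent.Lib.Helper18.XMat Cfsg.Agent.Lib.Helper18.Cells Cfsg.Agent.Lib.Helper18.Cox2
  Cfsg.Agent.Lib.Helper18.Cells2 Cfsg.Agent.Lib.Helper18.Cox3 Cfsg.Agent.Lib.Helper18.HOrder
  Cfsg.Agent.Lib.Helper18.HOrderTab Cfsg.Agent.Lib.Helper18.Tri Cfsg.Agent.Lib.Helper18.Par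
  Cfsg.Agent.Lib.Helper18.Par2 Cfsg.Agent.Lib.Helper18.CommT Cfsg.Agent.Lib.Helper18.Poly2
  Cfsg.Agent.Lib.Helper18.Cent Cfsg.Agent.Lib.Helper36.CentA

/-! ### The stabilizer of two roots -/

section cox

open Finset

variable {R : Type} [Fintype R] [DecidableEq R] {l : ℕ} (P : RS R l)

/-- An element of `W_J` fixing two roots, a positive combination of which is dominant, lies in
the parabolic subgroup of the simple reflections fixing both. -/
theorem stab2 (hT : P.Triv) {J J'' : Set ℕ} {lam1 lam2 : R} (m1 m2 : ℤ)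
    (hdom : ∀ j ∈ J, j < l → 0 ≤ m1 * P.a j lam1 + m2 * P.a j lam2)
    (hJ'' : ∀ j ∈ J, j < l → m1 * P.a j lam1 + m2 * P.a j lam2 = 0 →
      j ∈ J'' ∧ P.a j lam1 = 0 ∧ P.a j lam2 = 0)
    {σ : Equiv.Perm R} (hσ : σ ∈ P.W J) (h1 : σ lam1 = lam1) (h2 : σ lam2 = lam2) :
    σ ∈ P.W J'' := by
  have key : ∀ n : ℕ, ∀ σ ∈ P.W J, σ lam1 = lam1 → σ lam2 = lam2 → P.ell' σ = n →
      σ ∈ P.W J'' := by
    intro n
    induction n with
    | zero =>
      intro σ hσ _ _ h0
      rw [P.ell'_eq_zero_iff] at h0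
      rw [hT σ (P.W_le_univ J hσ) h0]
      exact Subgroup.one_mem _
    | succ n ih =>
      intro σ hσ hf1 hf2 hn
      have hex : ∃ j ∈ J, j < l ∧ ¬ P.pos (σ (P.α j)) := by
        by_contra hc
        push Not at hc
        have h0 : P.ell' σ = 0 := by
          rw [P.ell'_eq_zero_iff]
          intro r hr
          by_cases hrJ : P.inJ J r
          · exact P.pos_lin hσ hc hr hrJ
          · exact P.pos_of_not_inJ hσ hr hrJ
        omega
      obtain ⟨j, hjJ, hj, hneg⟩ := hex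
      have e1 : P.p (σ (P.α j)) lam1 = P.a j lam1 := by
        have := P.p_inv hσ (P.α j) lam1
        rw [hf1, P.p_α hj] at this
        exact this
      have e2 : P.p (σ (P.α j)) lam2 = P.a j lam2 := by
        have := P.p_inv hσ (P.α j) lam2
        rw [hf2, P.p_α hj] at this
        exact this
      have hin : P.inJ J (σ (P.α j)) := by
        rw [P.inJ_apply hσ]
        intro k hk hkJ
        rw [P.c_α j hj k hk, if_neg (by rintro rfl; exact hkJ hjJ)]
      have hnp := P.nonpos_of_not_pos hneg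
      have hle : m1 * P.p (σ (P.α j)) lam1 + m2 * P.p (σ (P.α j)) lam2 ≤ 0 := by
        unfold RS.p
        rw [Finset.mul_sum, Finset.mul_sum, ← Finset.sum_add_distrib]
        apply Finset.sum_nonpos
        intro k hk
        rw [mem_range] at hk
        have e : m1 * (P.c (σ (P.α j)) k * P.a k lam1) + m2 * (P.c (σ (P.α j)) k * P.a k lam2) =
            P.c (σ (P.α j)) k * (m1 * P.a k lam1 + m2 * P.a k lam2) := by ring
        rw [e]
        by_cases hkJ : k ∈ J
        · exact mul_nonpos_of_nonpos_of_nonneg (hnp k hk) (hdom k hkJ hk)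
        · rw [hin k hk hkJ, zero_mul]
      rw [e1, e2] at hle
      have hz : m1 * P.a j lam1 + m2 * P.a j lam2 = 0 := le_antisymm hle (hdom j hjJ hj)
      obtain ⟨hjJ'', ha1, ha2⟩ := hJ'' j hjJ hj hz
      have h4 := P.ell'_of_neg hσ hj hjJ hneg
      have h5 : (σ * P.s j) lam1 = lam1 := by
        rw [Equiv.Perm.mul_apply, P.fix j hj lam1 ha1, hf1]
      have h5' : (σ * P.s j) lam2 = lam2 := by
        rw [Equiv.Perm.mul_apply, P.fix j hj lam2 ha2, hf2]
      have h6 := ih (σ * P.s j) (Subgroup.mul_mem _ hσ (P.s_mem hjJ hj)) h5 h5' (by omega)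
      have h7 : σ = σ * P.s j * P.s j := by
        rw [mul_assoc, P.s_mul_s hj, mul_one]
      rw [h7]
      exact Subgroup.mul_mem _ h6 (P.s_mem hjJ'' hj)
  exact key _ σ hσ h1 h2 rfl

end cox

variable {A : FData} {D : ChevalleyDatum} {F : Type*} [Field F] {X : WD} {m : ℕ → ℕ → ℤ}
  {w : ℕ → ℤ} {N : ℕ} {ord rnk : ℕ → ℕ} {bz : ℕ → ℕ → ℤ} {w' : ℕ → ℤ}

/-! ### Invariants along Weyl words -/

theorem wperm_inv1 (hW : WFacts A X) (f : ℕ → ℕ)
    (h : ∀ i < A.rank, ∀ r < A.n, f (X.W i r) = f r) {wd : List ℕ}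
    (hwd : ∀ i ∈ wd, i < A.rank) {r : ℕ} (hr : r < A.n) : f (wperm X wd r) = f r := by
  induction wd with
  | nil => rfl
  | cons i l ih =>
    have hl : ∀ j ∈ l, j < A.rank := fun j hj => hwd j (List.mem_cons_of_mem _ hj)
    show f (X.W i (wperm X l r)) = f r
    rw [h i (hwd i List.mem_cons_self) _ (wperm_lt hW hl hr), ih hl]

theorem wperm_inv2 (hW : WFacts A X) (g : ℕ → ℕ → Bool)
    (h : ∀ i < A.rank, ∀ r < A.n, ∀ s < A.n, g r s = true → g (X.W i r) (X.W i s) = true)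
    {wd : List ℕ} (hwd : ∀ i ∈ wd, i < A.rank) {r s : ℕ} (hr : r < A.n) (hs : s < A.n)
    (hg : g r s = true) : g (wperm X wd r) (wperm X wd s) = true := by
  induction wd with
  | nil => exact hg
  | cons i l ih =>
    have hl : ∀ j ∈ l, j < A.rank := fun j hj => hwd j (List.mem_cons_of_mem _ hj)
    exact h i (hwd i List.mem_cons_self) _ (wperm_lt hW hl hr) _ (wperm_lt hW hl hs) (ih hl)

theorem W_inj (hW : WFacts A X) {i : ℕ} (hi : i < A.rank) {r s : ℕ} (hr : r < A.n) (hs : s < A.n)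
    (h : X.W i r = X.W i s) : r = s := by
  rw [← hW.invol i hi r hr, ← hW.invol i hi s hs, h]

theorem wperm_inj (hW : WFacts A X) {wd : List ℕ} (hwd : ∀ i ∈ wd, i < A.rank) {r s : ℕ}
    (hr : r < A.n) (hs : s < A.n) (h : wperm X wd r = wperm X wd s) : r = s := by
  rw [← wperm_reverse hW hwd hr, ← wperm_reverse hW hwd hs, h]

/-- Reflections preserve the relation `cf`. -/
theorem cf_W (hF : AFacts A D) (hW : WFacts A X) {i : ℕ} (hi : i < A.rank) {r s : ℕ}
    (hr : r < A.n) (hs : s < A.n) (h : cf A r s = true) : cf A (X.W i r) (X.W i s) = true := by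
  unfold cf at h ⊢
  rw [Bool.or_eq_true, Bool.and_eq_true] at h ⊢
  rcases h with h | ⟨h1, h2⟩
  · left
    rw [of_decide_eq_true h]
    exact decide_eq_true rfl
  · right
    have h1' := of_decide_eq_true h1
    refine ⟨decide_eq_true ?_, ?_⟩
    · intro e
      rw [← (hW.negc i hi r hr).1] at e
      exact h1' (W_inj hW hi hs (hF.agrees.neg_lt r hr) e)
    · rw [List.isEmpty_iff] at h2 ⊢
      rw [hW.chain i hi r hr s hs, h2]
      rfl

theorem cf_wperm (hF : AFacts A D) (hW : WFacts A X) {wd : List ℕ} (hwd : ∀ i ∈ wd, i < A.rank)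
    {r s : ℕ} (hr : r < A.n) (hs : s < A.n) (h : cf A r s = true) :
    cf A (wperm X wd r) (wperm X wd s) = true :=
  wperm_inv2 hW (cf A) (fun i hi r hr s hs h => cf_W hF hW hi hr hs h) hwd hr hs h

/-! ### Conjugation of products of root elements -/

section conj

variable (hC : CFacts A D X m w)

include hC in
/-- Conjugation by a monomial element permutes the factors of a product of root elements. -/
theorem nw_conj_prodL {wd : List ℕ} (hwd : ∀ i ∈ wd, i < A.rank) :
    ∃ ε : ℕ → F, (∀ ρ, ε ρ ≠ 0) ∧ ∀ (S : List ℕ) (c : ℕ → F), (∀ ρ ∈ S, ρ < A.n) →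
      nw hC.af F (plain wd) * prodL hC.af F (S.map (fun ρ => (ρ, c ρ))) *
        (nw hC.af F (plain wd))⁻¹ =
          prodL hC.af F (S.map (fun ρ => (wperm X wd ρ, ε ρ * c ρ))) := by
  have h0 : ∀ ρ, ∃ ε : F, ε ≠ 0 ∧ (ρ < A.n → ∀ t : F,
      nw hC.af F (plain wd) * xg hC.af F ρ t * (nw hC.af F (plain wd))⁻¹ =
        xg hC.af F (wperm X wd ρ) (ε * t)) := by
    intro ρ
    by_cases hρ : ρ < A.n
    · obtain ⟨ε, hε, h⟩ := nw_conj (F := F) hC.af hC.wf (plain wd) (plain_lt hwd) hρ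
      refine ⟨ε, hε, fun _ t => ?_⟩
      rw [h t, plain_fst]
    · exact ⟨1, one_ne_zero, fun h => absurd h hρ⟩
  choose ε hε hconj using h0
  refine ⟨ε, hε, ?_⟩
  intro S c hS
  induction S with
  | nil => simp [prodL]
  | cons ρ S ih =>
    have hρ := hS ρ List.mem_cons_self
    have ih' := ih (fun q hq => hS q (List.mem_cons_of_mem _ hq))
    rw [List.map_cons, List.map_cons, prodL_cons, prodL_cons, ← ih', ← hconj ρ hρ (c ρ)]
    group

/-- Conjugation by a diagonal element scales the factors of a product of root elements. -/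
theorem tor_conj_prodL (hF : AFacts A D) {h : GL D.Idx F} {cc : ℕ → F} (hcc : ∀ i, cc i ≠ 0)
    (hh : (h : Matrix D.Idx D.Idx F) = tor D A cc) (S : List ℕ) (c : ℕ → F)
    (hS : ∀ ρ ∈ S, ρ < A.n) :
    h * prodL hF F (S.map (fun ρ => (ρ, c ρ))) * h⁻¹ =
      prodL hF F (S.map (fun ρ => (ρ, chi A cc ρ * c ρ))) := by
  induction S with
  | nil => simp [prodL]
  | cons ρ S ih =>
    have hρ := hS ρ List.mem_cons_self
    have ih' := ih (fun q hq => hS q (List.mem_cons_of_mem _ hq))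
    have h1 := tor_conj_xU hF hcc hh ρ (lt_nroots hF hρ) (c ρ)
    rw [← xg_eq hF, ← xg_eq hF] at h1
    rw [List.map_cons, List.map_cons, prodL_cons, prodL_cons, ← ih', ← h1]
    group

end conj

/-! ### The subgroup generated by the root subgroups of `±α_j`, `j ∈ J` -/

/-- The subgroup generated by the `X_{α_j}` and `X_{-α_j}`, `j ∈ J`. -/
def MJ (hF : AFacts A D) (F : Type*) [Field F] (J : Set ℕ) : Subgroup (GL D.Idx F) :=
  Subgroup.closure {g : GL D.Idx F | ∃ j ∈ J, j < A.rank ∧ ∃ c : F,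
    g = xg hF F (A.simple j) c ∨ g = xg hF F (A.neg (A.simple j)) c}

theorem xpos_mem_MJ (hF : AFacts A D) {J : Set ℕ} {j : ℕ} (hj : j ∈ J) (hjl : j < A.rank)
    (c : F) : xg hF F (A.simple j) c ∈ MJ hF F J :=
  Subgroup.subset_closure ⟨j, hj, hjl, c, Or.inl rfl⟩

theorem xneg_mem_MJ (hF : AFacts A D) {J : Set ℕ} {j : ℕ} (hj : j ∈ J) (hjl : j < A.rank)
    (c : F) : xg hF F (A.neg (A.simple j)) c ∈ MJ hF F J :=
  Subgroup.subset_closure ⟨j, hj, hjl, c, Or.inr rfl⟩

theorem nU_mem_MJ (hF : AFacts A D) {J : Set ℕ} {j : ℕ} (hj : j ∈ J) (hjl : j < A.rank)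
    (τ : F) : nU hF F (A.simple j) (simple_lt' hF hjl) τ ∈ MJ hF F J := by
  rw [Cfsg.Agent.Lib.Helper18.Cent.nU_eq_xg hF hjl]
  exact Subgroup.mul_mem _ (Subgroup.mul_mem _ (xpos_mem_MJ hF hj hjl _)
    (xneg_mem_MJ hF hj hjl _)) (xpos_mem_MJ hF hj hjl _)

theorem ng_mem_MJ (hF : AFacts A D) {J : Set ℕ} {j : ℕ} (hj : j ∈ J) (hjl : j < A.rank) :
    ng hF F j ∈ MJ hF F J := by
  rw [ng_eq hF hjl]
  exact nU_mem_MJ hF hj hjl 1

theorem nw_mem_MJ (hF : AFacts A D) {J : Set ℕ} {wd : List ℕ}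
    (hwd : ∀ i ∈ wd, i < A.rank ∧ i ∈ J) : nw hF F (plain wd) ∈ MJ hF F J := by
  induction wd with
  | nil => simp [nw, plain]
  | cons i l ih =>
    have hi := hwd i List.mem_cons_self
    rw [nw_plain_cons]
    exact Subgroup.mul_mem _ (ng_mem_MJ hF hi.2 hi.1)
      (ih (fun j hj => hwd j (List.mem_cons_of_mem _ hj)))

theorem nU_congr' (hF : AFacts A D) {r r' : ℕ} (h : r = r') (hr : r < D.nroots)
    (hr' : r' < D.nroots) (t : F) : nU hF F r hr t = nU hF F r' hr' t := by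
  subst h
  rfl

/-- Torus elements whose coordinates outside `J` are trivial lie in `MJ`. -/
theorem torN_mem_MJ (hF : AFacts A D) {J : Set ℕ} {c : ℕ → F} (hc : ∀ i, c i ≠ 0)
    (hc1 : ∀ i < A.rank, i ∉ J → c i = 1) :
    ∀ k ≤ D.rank, ∃ g ∈ MJ hF F J, (g : Matrix D.Idx D.Idx F) = torN D A k c := by
  intro k
  induction k with
  | zero =>
    intro _
    refine ⟨1, Subgroup.one_mem _, ?_⟩
    rw [← prod_dmat_eq_torN]
    simp
  | succ k ih =>
    intro hk
    obtain ⟨g, hg, e⟩ := ih (by omega)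
    have hk' : k < D.rank := by omega
    have hkA : k < A.rank := by rw [← hF.agrees.rank_eq]; exact hk'
    have hstep : torN D A (k + 1) c = torN D A k c * dmat D F (carE A k) (c k) := by
      rw [← prod_dmat_eq_torN, ← prod_dmat_eq_torN, List.range_succ, List.map_append,
        List.prod_append]
      simp
    by_cases hki : k ∈ J
    · have hs : D.simple k < D.nroots := Cfsg.Agent.Lib.Helper18.Torus.simple_lt hF hk'
      refine ⟨g * hU hF F (D.simple k) hs (c k), Subgroup.mul_mem _ hg ?_, ?_⟩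
      · have e1 : hU hF F (D.simple k) hs (c k) =
            nU hF F (D.simple k) hs (c k) * nU hF F (D.simple k) hs (-1) := by
          apply Units.ext
          rw [Units.val_mul, coe_hU, coe_nU, coe_nU, Cfsg.Agent.Lib.Helper18.HDiag.hMat_eq]
        have e2 : D.simple k = A.simple k := simple_eq_fast hF hk'
        rw [e1, nU_congr' hF e2 hs (simple_lt' hF hkA), nU_congr' hF e2 hs (simple_lt' hF hkA)]
        exact Subgroup.mul_mem _ (nU_mem_MJ hF hki hkA _) (nU_mem_MJ hF hki hkA _)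
      · rw [Units.val_mul, e, coe_hU, hstep, hMat_simple hF.agrees hF.sfacts hk' (hc k),
          Cfsg.Agent.Lib.Helper18.HSimple.diagonal_cartan_eq_dmat hF.agrees hk']
    · refine ⟨g, hg, ?_⟩
      rw [hstep, e, hc1 k hkA hki]
      have : dmat D F (carE A k) (1 : F) = 1 := by
        unfold dmat
        simp
      rw [this, mul_one]

theorem tor_mem_MJ (hF : AFacts A D) {J : Set ℕ} {c : ℕ → F} (hc : ∀ i, c i ≠ 0)
    (hc1 : ∀ i < A.rank, i ∉ J → c i = 1) {h : GL D.Idx F}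
    (hh : (h : Matrix D.Idx D.Idx F) = tor D A c) : h ∈ MJ hF F J := by
  obtain ⟨g, hg, e⟩ := torN_mem_MJ hF hc hc1 D.rank le_rfl
  have : h = g := by
    apply Units.ext
    rw [hh, e, tor_eq_torN]
    exact congrArg (fun k => torN D A k c) hF.agrees.rank_eq.symm
  rw [this]
  exact hg

end Cfsg.Agent.Lib.Helper36.CentB
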