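import Mathlib
import Cfsg.Agent.Lib.Helper36.CentB
import Cfsg.Agent.Lib.Helper18.Par3

set_option autoImplicit false
set_option linter.unusedSimpArgs false
set_option linter.unusedSectionVars false
set_option linter.unusedVariables false

/-!
The centralizer of a product of root involutions `∏_{ρ ∈ V0} x_ρ(1)` in a Chevalley group, from
table facts: it is generated by the root subgroups `X_{±α_j}`, `j ∈ J`, and the root subgroups of
the positive roots which are not "bad".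
-/

namespace Cfsg.Agent.Lib.Helper36.CentC

open Cfsg Cfsg.Lie Cfsg.Agent.Lib.Helper18.Fast Cfsg.Agent.Lib.Helper18.Grade
  Cfsg.Agent.Lib.Helper18.Facts Cfsg.Agent.Lib.Helper18.AllRoots Cfsg.Agent.Lib.Helper18.Loop
  Cfsg.Agent.Lib.Helper18.Weyl Cfsg.Agent.Lib.Helper18.RootSys Cfsg.Agent.Lib.Helper18.Orbit
  Cfsg.Agent.Lib.Helper18.Units Cfsg.Agent.Lib.Helper18.Sub Cfsg.Agent.Lib.Helper18.Norm
  Cfsg.Agent.Lib.Helper18.HAll Cfsg.Agent.Lib.Helper18.Torus Cfsg.Agent.Lib.Helper18.Pos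
  Cfsg.Agent.Lib.Helper18.WGroup Cfsg.Agent.Lib.Helper18.BNChev Cfsg.Agent.Lib.Helper18.Mono
  Cfsg.Agent.Lib.Helper18.BNPairC Cfsg.Agent.Lib.Helper18.UOrd Cfsg.Agent.Lib.Helper18.Cox
  Cfsg.Agent.Lib.Helper18.Long Cfsg.Agent.Lib.Helper18.Core Cfsg.Agent.Lib.Helper18.Conj
  Cfsg.Agent.Lib.Helper18.RFact Cfsg.Agent.Lib.Helper18.BNCell Cfsg.Agent.Lib.Helper18.Vec
  Cfsg.Agent.Lib.Helper18.XMat Cfsg.Agent.Lib.Helper18.Cells Cfsg.Agent.Lib.Helper18.Cox2
  Cfsg.Agent.Lib.Helper18.Cells2 Cfsg.Agent.Lib.Helper18.Cox3 Cfsg.Agent.Lib.Helper18.HOrder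
  Cfsg.Agent.Lib.Helper18.HOrderTab Cfsg.Agent.Lib.Helper18.Tri Cfsg.Agent.Lib.Helper18.Par
  Cfsg.Agent.Lib.Helper18.Par2 Cfsg.Agent.Lib.Helper18.Par3 Cfsg.Agent.Lib.Helper18.CommT
  Cfsg.Agent.Lib.Helper18.Poly2 Cfsg.Agent.Lib.Helper18.Cent Cfsg.Agent.Lib.Helper36.CentA
  Cfsg.Agent.Lib.Helper36.CentB

variable {A : FData} {D : ChevalleyDatum} {F : Type*} [Field F] {X : WD} {m : ℕ → ℕ → ℤ}
  {w : ℕ → ℤ} {N : ℕ} {ord rnk : ℕ → ℕ} {bz : ℕ → ℕ → ℤ} {w' : ℕ → ℤ}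

/-- The product of the root elements `x_ρ(c ρ)`, `ρ ∈ S`. -/
noncomputable def yS (hF : AFacts A D) (F : Type*) [Field F] (S : List ℕ) (c : ℕ → F) :
    GL D.Idx F := prodL hF F (S.map (fun ρ => (ρ, c ρ)))

/-- The coefficients of the product of the `x_ρ(1)`, `ρ ∈ V0`. -/
def c0 (F : Type*) [Field F] (V0 : List ℕ) : ℕ → F := fun ρ => if ρ ∈ V0 then 1 else 0

/-- The subgroup generated by the root subgroups of the positive roots which are not bad. -/
def Ugood (hF : AFacts A D) (F : Type*) [Field F] (Bad : ℕ → Prop) : Subgroup (GL D.Idx F) :=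
  Subgroup.closure {g : GL D.Idx F | ∃ r < A.n, PosA A r ∧ ¬ Bad r ∧ ∃ c : F, g = xg hF F r c}

/-- The subgroup generated by the root subgroups of the positive roots of the subsystem `J`. -/
def UL (hF : AFacts A D) (F : Type*) [Field F] (J : Set ℕ) : Subgroup (GL D.Idx F) :=
  Subgroup.closure {g : GL D.Idx F | ∃ r < A.n, PosA A r ∧ InJ A J r ∧ ∃ c : F, g = xg hF F r c}

theorem yS_congr (hF : AFacts A D) (S : List ℕ) {c c' : ℕ → F} (h : ∀ ρ ∈ S, c ρ = c' ρ) :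
    yS hF F S c = yS hF F S c' := by
  unfold yS
  congr 1
  apply List.map_congr_left
  intro ρ hρ
  rw [h ρ hρ]

theorem yS_lt {S : List ℕ} (hS : ∀ ρ ∈ S, ρ < A.n) (f : ℕ → ℕ × F) (hf : ∀ ρ, (f ρ).1 = ρ) :
    ∀ p ∈ S.map f, p.1 < A.n := by
  intro p hp
  obtain ⟨ρ, hρ, rfl⟩ := List.mem_map.mp hp
  rw [hf]
  exact hS ρ hρ

theorem yS_cf {S : List ℕ} (hcf : ∀ ρ ∈ S, ∀ ρ' ∈ S, cf A ρ ρ' = true) (f : ℕ → ℕ × F)
    (hf : ∀ ρ, (f ρ).1 = ρ) : ∀ p ∈ S.map f, ∀ q ∈ S.map f, cf A p.1 q.1 = true := by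
  intro p hp q hq
  obtain ⟨ρ, hρ, rfl⟩ := List.mem_map.mp hp
  obtain ⟨ρ', hρ', rfl⟩ := List.mem_map.mp hq
  rw [hf, hf]
  exact hcf ρ hρ ρ' hρ'

/-- An element commuting with every factor commutes with the product. -/
theorem commute_yS (hF : AFacts A D) {g : GL D.Idx F} (S : List ℕ) (c : ℕ → F)
    (h : ∀ ρ ∈ S, Commute g (xg hF F ρ (c ρ))) : Commute g (yS hF F S c) := by
  unfold yS
  induction S with
  | nil => simp [prodL]
  | cons ρ S ih =>
    rw [List.map_cons, prodL_cons]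
    exact (h ρ List.mem_cons_self).mul_right (ih (fun q hq => h q (List.mem_cons_of_mem _ hq)))

section

variable (hC : CFacts A D X m w) (hR : RFacts A X) (hU : UFacts A w' N ord rnk bz) (hn : 0 < A.n)
  (hadd : ∀ r < D.nroots, ∀ t u : F, D.x F r t * D.x F r u = D.x F r (t + u))
  (hinj : ∀ r < D.nroots, ∀ t : F, D.x F r t = 1 → t = 0)

/-- The table facts and relations from which the centralizer is computed. -/
structure Setup (F : Type*) [Field F] (S V0 : List ℕ) (J : Set ℕ) (Bad : ℕ → Prop)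
    (act : ℕ → F → (ℕ → F) → (ℕ → F)) : Prop where
  hS : ∀ ρ ∈ S, ρ < A.n
  hV0 : ∀ ρ ∈ V0, ρ ∈ S
  nd : S.Nodup
  cfS : ∀ ρ ∈ S, ∀ ρ' ∈ S, cf A ρ ρ' = true
  odd : ∀ δ < A.n, ∃ i < A.rank, ((A.car i δ : ℤ) : F) ≠ 0
  weyl : ∀ wd : List ℕ, (∀ i ∈ wd, i < A.rank) → (∀ ρ ∈ V0, wperm X wd ρ ∈ S) →
    ∃ wd' : List ℕ, (∀ i ∈ wd', i < A.rank ∧ i ∈ J) ∧
      (rs hC hR hU hn).wprod wd' = (rs hC hR hU hn).wprod wd
  actU : ∀ r < A.n, PosA A r → ∀ (s : F) (c : ℕ → F),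
    xg hC.af F r s * yS hC.af F S c * (xg hC.af F r s)⁻¹ = yS hC.af F S (act r s c)
  actV0 : ∀ (r : ℕ) (s : F) (c : ℕ → F), ∀ ρ ∈ V0, act r s c ρ = c ρ
  commJ : ∀ j ∈ J, j < A.rank → ∀ ρ ∈ V0, ∀ a b : F,
    Commute (xg hC.af F (A.simple j) a) (xg hC.af F ρ b) ∧
      Commute (xg hC.af F (A.neg (A.simple j)) a) (xg hC.af F ρ b)
  commGood : ∀ r < A.n, PosA A r → ¬ Bad r → ∀ ρ ∈ V0, ∀ a b : F,
    Commute (xg hC.af F r a) (xg hC.af F ρ b)
  goodJ : ∀ r < A.n, PosA A r → InJ A J r → ¬ Bad r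
  centU : ∀ u ∈ D.posUnipotent F, Commute u (yS hC.af F S (c0 F V0)) → u ∈ Ugood hC.af F Bad
  tor : ∀ cc : ℕ → F, (∀ i, cc i ≠ 0) → (∀ ρ ∈ V0, chi A cc ρ = 1) →
    ∀ i < A.rank, i ∉ J → cc i = 1

variable {S V0 : List ℕ} {J : Set ℕ} {Bad : ℕ → Prop} {act : ℕ → F → (ℕ → F) → (ℕ → F)}
  (T : Setup hC hR hU hn F S V0 J Bad act)

include hC hadd in
theorem borel_decomp' {b : GL D.Idx F} (hb : b ∈ D.borelSubgroup F) :
    ∃ u ∈ D.posUnipotent F, ∃ h ∈ D.diagonalSubgroup F, b = u * h := by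
  have hHU : D.diagonalSubgroup F ≤ Subgroup.normalizer (D.posUnipotent F : Set (GL D.Idx F)) := by
    have := (hC.rd hadd).H_le_normalizer_U
    rwa [rd_U] at this
  exact Cfsg.Agent.Lib.Helper18.BNAbs.RD.exists_mul_of_mem_sup' hHU hb

include hadd in
/-- An element commuting with the root elements of `V0` commutes with `∏_{ρ ∈ V0} x_ρ(1)`. -/
theorem commute_t {g : GL D.Idx F} (S V0 : List ℕ)
    (h : ∀ ρ ∈ V0, ∀ b : F, Commute g (xg hC.af F ρ b)) :
    Commute g (yS hC.af F S (c0 F V0)) := by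
  apply commute_yS
  intro ρ _
  unfold c0
  by_cases hρ : ρ ∈ V0
  · rw [if_pos hρ]
    exact h ρ hρ 1
  · rw [if_neg hρ, xg_zero hadd]
    exact Commute.one_right g

include hadd T in
/-- The orbit of a product over `S` under `U`. -/
theorem orbitU {u : GL D.Idx F} (hu : u ∈ D.posUnipotent F) :
    (∀ c : ℕ → F, ∃ c' : ℕ → F, u * yS hC.af F S c * u⁻¹ = yS hC.af F S c' ∧
      ∀ ρ ∈ V0, c' ρ = c ρ) ∧
    (∀ c : ℕ → F, ∃ c' : ℕ → F, u⁻¹ * yS hC.af F S c * u = yS hC.af F S c' ∧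
      ∀ ρ ∈ V0, c' ρ = c ρ) := by
  have hF := hC.af
  unfold ChevalleyDatum.posUnipotent at hu
  induction hu using Subgroup.closure_induction with
  | mem g hg =>
    obtain ⟨r, t, hr, e⟩ := hg
    have hr' : r < A.n := lt_n hF hr.1
    have hpos : PosA A r := (posA_iff hF hr').mpr hr
    have hgx : g = xg hF F r t := Units.ext (by rw [e, coe_xg hF hr.1])
    constructor
    · intro c
      exact ⟨act r t c, by rw [hgx]; exact T.actU r hr' hpos t c, fun ρ hρ => T.actV0 r t c ρ hρ⟩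
    · intro c
      refine ⟨act r (-t) c, ?_, fun ρ hρ => T.actV0 r (-t) c ρ hρ⟩
      have := T.actU r hr' hpos (-t) c
      rw [xg_neg hadd, inv_inv] at this
      rw [hgx]
      exact this
  | one =>
    constructor
    · intro c
      exact ⟨c, by group, fun _ _ => rfl⟩
    · intro c
      exact ⟨c, by group, fun _ _ => rfl⟩
  | mul x y _ _ hx hy =>
    constructor
    · intro c
      obtain ⟨c1, e1, h1⟩ := hy.1 c
      obtain ⟨c2, e2, h2⟩ := hx.1 c1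
      refine ⟨c2, ?_, fun ρ hρ => by rw [h2 ρ hρ, h1 ρ hρ]⟩
      rw [← e2, ← e1]
      group
    · intro c
      obtain ⟨c1, e1, h1⟩ := hx.2 c
      obtain ⟨c2, e2, h2⟩ := hy.2 c1
      refine ⟨c2, ?_, fun ρ hρ => by rw [h2 ρ hρ, h1 ρ hρ]⟩
      rw [← e2, ← e1]
      group
  | inv x _ hx =>
    constructor
    · intro c
      obtain ⟨c1, e1, h1⟩ := hx.2 c
      exact ⟨c1, by rw [← e1]; group, h1⟩
    · intro c
      obtain ⟨c1, e1, h1⟩ := hx.1 c
      exact ⟨c1, by rw [← e1]; group, h1⟩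

include hadd T in
/-- The orbit of `∏_{ρ ∈ V0} x_ρ(1)` under `B`. -/
theorem orbitB {b : GL D.Idx F} (hb : b ∈ D.borelSubgroup F) :
    ∃ c : ℕ → F, b * yS hC.af F S (c0 F V0) * b⁻¹ = yS hC.af F S c ∧ ∀ ρ ∈ V0, c ρ ≠ 0 := by
  have hF := hC.af
  obtain ⟨u, hu, h, hh, rfl⟩ := borel_decomp' hC hadd hb
  obtain ⟨cc, hcc, e⟩ := exists_tor_of_mem hF h hh
  have h1 := tor_conj_prodL hF hcc e S (c0 F V0) T.hS
  obtain ⟨c', e', hc'⟩ := (orbitU hC hR hU hn hadd T hu).1 (fun ρ => chi A cc ρ * c0 F V0 ρ)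
  refine ⟨c', ?_, ?_⟩
  · rw [← e']
    unfold yS
    rw [← h1]
    group
  · intro ρ hρ
    rw [hc' ρ hρ]
    unfold c0
    rw [if_pos hρ, mul_one]
    exact chi_ne_zero hcc ρ

include hC hR hU hn hadd T in
/-- The Weyl group element of the cell of an element commuting with `∏_{ρ ∈ V0} x_ρ(1)` maps
`V0` into `S`. -/
theorem weyl_word {g : GL D.Idx F} {wd : List ℕ} (hwd : ∀ i ∈ wd, i < A.rank)
    (hgc : g ∈ cell hC F wd) (hz : Commute g (yS hC.af F S (c0 F V0))) :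
    ∀ ρ ∈ V0, wperm X wd ρ ∈ S := by
  have hF := hC.af
  unfold cell at hgc
  rw [DoubleCoset.mem_doubleCoset] at hgc
  obtain ⟨b₁, hb₁, b₂, hb₂, hgeq⟩ := hgc
  obtain ⟨c₂, e₂, hc₂⟩ := orbitB hC hR hU hn hadd T hb₂
  obtain ⟨c₁, e₁, hc₁⟩ := orbitB hC hR hU hn hadd T (Subgroup.inv_mem _ hb₁)
  have key : nw hF F (plain wd) * yS hF F S c₂ * (nw hF F (plain wd))⁻¹ = yS hF F S c₁ := by
    rw [← e₂, ← e₁]
    have h1 : g * yS hF F S (c0 F V0) * g⁻¹ = yS hF F S (c0 F V0) := by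
      rw [hz.eq]
      group
    calc nw hF F (plain wd) * (b₂ * yS hF F S (c0 F V0) * b₂⁻¹) * (nw hF F (plain wd))⁻¹
        = b₁⁻¹ * (g * yS hF F S (c0 F V0) * g⁻¹) * b₁⁻¹⁻¹ := by
          rw [hgeq]
          group
      _ = _ := by rw [h1]
  obtain ⟨ε, hε, hconj⟩ := nw_conj_prodL (F := F) hC hwd
  unfold yS at key
  rw [hconj S c₂ T.hS] at key
  intro ρ hρ
  have hρS := T.hV0 ρ hρ
  have hmem : (wperm X wd ρ, ε ρ * c₂ ρ) ∈ S.map (fun ρ => (wperm X wd ρ, ε ρ * c₂ ρ)) :=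
    List.mem_map.mpr ⟨ρ, hρS, rfl⟩
  have h2 := mem_of_prodL_eq hF (L := S.map (fun ρ => (wperm X wd ρ, ε ρ * c₂ ρ)))
    (L' := S.map (fun ρ => (ρ, c₁ ρ))) ?_ ?_ (yS_lt T.hS _ (fun _ => rfl))
    (yS_cf T.cfS _ (fun _ => rfl)) ?_ key hmem
    (mul_ne_zero (hε ρ) (hc₂ ρ hρ)) (T.odd _ (wperm_lt hC.wf hwd (T.hS ρ hρS)))
  · rw [List.map_map] at h2
    have : (Prod.fst ∘ fun ρ => (ρ, c₁ ρ)) = id := rfl
    rw [this, List.map_id] at h2
    exact h2
  · intro p hp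
    obtain ⟨ρ', hρ', rfl⟩ := List.mem_map.mp hp
    exact wperm_lt hC.wf hwd (T.hS ρ' hρ')
  · intro p hp q hq
    obtain ⟨ρ1, hρ1, rfl⟩ := List.mem_map.mp hp
    obtain ⟨ρ2, hρ2, rfl⟩ := List.mem_map.mp hq
    exact cf_wperm hF hC.wf hwd (T.hS ρ1 hρ1) (T.hS ρ2 hρ2) (T.cfS ρ1 hρ1 ρ2 hρ2)
  · rw [List.map_map]
    have : (Prod.fst ∘ fun ρ => (wperm X wd ρ, ε ρ * c₂ ρ)) = wperm X wd := rfl
    rw [this]
    exact T.nd.map_on (fun a ha b hb h => wperm_inj hC.wf hwd (T.hS a ha) (T.hS b hb) h)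

include hadd T in
theorem MJ_commute {g : GL D.Idx F} (hg : g ∈ MJ hC.af F J) :
    Commute g (yS hC.af F S (c0 F V0)) := by
  have hle : MJ hC.af F J ≤ Subgroup.centralizer {yS hC.af F S (c0 F V0)} := by
    unfold MJ
    rw [Subgroup.closure_le]
    rintro g ⟨j, hj, hjl, c, rfl | rfl⟩
    · rw [SetLike.mem_coe, Subgroup.mem_centralizer_iff]
      intro z hz
      rw [Set.mem_singleton_iff] at hz
      rw [hz]
      exact (commute_t hC hadd S V0 (fun ρ hρ b => (T.commJ j hj hjl ρ hρ c b).1)).eq.symm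
    · rw [SetLike.mem_coe, Subgroup.mem_centralizer_iff]
      intro z hz
      rw [Set.mem_singleton_iff] at hz
      rw [hz]
      exact (commute_t hC hadd S V0 (fun ρ hρ b => (T.commJ j hj hjl ρ hρ c b).2)).eq.symm
  have := hle hg
  rw [Subgroup.mem_centralizer_iff] at this
  exact (this _ rfl).symm

include hadd T in
theorem Ugood_commute {g : GL D.Idx F} (hg : g ∈ Ugood hC.af F Bad) :
    Commute g (yS hC.af F S (c0 F V0)) := by
  have hle : Ugood hC.af F Bad ≤ Subgroup.centralizer {yS hC.af F S (c0 F V0)} := by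
    unfold Ugood
    rw [Subgroup.closure_le]
    rintro g ⟨r, hr, hpos, hbad, c, rfl⟩
    rw [SetLike.mem_coe, Subgroup.mem_centralizer_iff]
    intro z hz
    rw [Set.mem_singleton_iff] at hz
    rw [hz]
    exact (commute_t hC hadd S V0 (fun ρ hρ b => T.commGood r hr hpos hbad ρ hρ c b)).eq.symm
  have := hle hg
  rw [Subgroup.mem_centralizer_iff] at this
  exact (this _ rfl).symm

include T in
theorem UL_le_Ugood : UL hC.af F J ≤ Ugood hC.af F Bad := by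
  unfold UL Ugood
  apply Subgroup.closure_mono
  rintro g ⟨r, hr, hpos, hJ, c, rfl⟩
  exact ⟨r, hr, hpos, T.goodJ r hr hpos hJ, c, rfl⟩

theorem U_le_rad_sup_UL (hF : AFacts A D) (J : Set ℕ) :
    D.posUnipotent F ≤ D.unipotentRadical F J ⊔ UL hF F J := by
  unfold ChevalleyDatum.posUnipotent
  rw [Subgroup.closure_le]
  rintro g ⟨r, t, hr, e⟩
  have hr' : r < A.n := lt_n hF hr.1
  have hpos : PosA A r := (posA_iff hF hr').mpr hr
  have hgx : g = xg hF F r t := Units.ext (by rw [e, coe_xg hF hr.1])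
  by_cases hJ : InJ A J r
  · exact Subgroup.mem_sup_right (Subgroup.subset_closure ⟨r, hr', hpos, hJ, t, hgx⟩)
  · rw [hgx]
    exact Subgroup.mem_sup_left (xg_mem_rad hF hr' hpos hJ t)

theorem rad_le_U (J : Set ℕ) : D.unipotentRadical F J ≤ D.posUnipotent F := by
  unfold ChevalleyDatum.unipotentRadical ChevalleyDatum.posUnipotent
  apply Subgroup.closure_mono
  rintro g ⟨r, t, hr, _, e⟩
  exact ⟨r, t, hr, e⟩

include hC hR hU hn hadd in
theorem UL_le_normalizer (J : Set ℕ) :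
    UL hC.af F J ≤ Subgroup.normalizer (D.unipotentRadical F J : Set (GL D.Idx F)) := by
  unfold UL
  rw [Subgroup.closure_le]
  rintro g ⟨r, hr, hpos, _, c, rfl⟩
  rw [SetLike.mem_coe, Subgroup.mem_set_normalizer_iff]
  intro y
  constructor
  · intro hy
    exact xg_conj_rad hC hR hU hn hadd hr hpos c hy
  · intro hy
    have := xg_conj_rad hC hR hU hn hadd hr hpos (-c) hy
    rw [xg_neg hadd, inv_inv] at this
    have e : (xg hC.af F r c)⁻¹ * (xg hC.af F r c * y * (xg hC.af F r c)⁻¹) * xg hC.af F r c = y := by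
      group
    rwa [e] at this

include hC hR hU hn in
theorem nw_conj_rad {J : Set ℕ} {wd : List ℕ} (hwd : ∀ i ∈ wd, i < A.rank ∧ i ∈ J)
    {y : GL D.Idx F} (hy : y ∈ D.unipotentRadical F J) :
    nw hC.af F (plain wd) * y * (nw hC.af F (plain wd))⁻¹ ∈ D.unipotentRadical F J := by
  induction wd with
  | nil => simpa [nw, plain] using hy
  | cons i l ih =>
    have hi := hwd i List.mem_cons_self
    have h1 := ih (fun j hj => hwd j (List.mem_cons_of_mem _ hj))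
    have h2 := (ng_conj_rad hC hR hU hn hi.2 hi.1 h1).1
    rw [nw_plain_cons]
    have e : ng hC.af F i * nw hC.af F (plain l) * y * (ng hC.af F i * nw hC.af F (plain l))⁻¹ =
        ng hC.af F i * (nw hC.af F (plain l) * y * (nw hC.af F (plain l))⁻¹) * (ng hC.af F i)⁻¹ := by
      group
    rw [e]
    exact h2

include hC hR hU hn hadd hinj T in
/-- An element of the group commuting with `∏_{ρ ∈ V0} x_ρ(1)` lies in `⟨M_J, U_good⟩`. -/
theorem cent_le {g : GL D.Idx F} (hg : g ∈ D.group F)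
    (hz : Commute g (yS hC.af F S (c0 F V0))) : g ∈ MJ hC.af F J ⊔ Ugood hC.af F Bad := by
  have hF := hC.af
  obtain ⟨wd, hwd, hgc⟩ := exists_cell hC hadd hinj hg
  have hA := weyl_word hC hR hU hn hadd T hwd hgc hz
  obtain ⟨wd', hwd', hprod⟩ := T.weyl wd hwd hA
  have hwd'' : ∀ i ∈ wd', i < A.rank := fun i hi => (hwd' i hi).1
  have hcell : cell hC F wd' = cell hC F wd :=
    cell_eq_of_wprod hC hR hU hn hadd hinj hwd hwd'' hprod.symm
  rw [← hcell] at hgc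
  unfold cell at hgc
  rw [DoubleCoset.mem_doubleCoset] at hgc
  obtain ⟨b₁, hb₁, b₂, hb₂, hgeq⟩ := hgc
  obtain ⟨u₁, hu₁, h₁, hh₁, rfl⟩ := borel_decomp' hC hadd hb₁
  obtain ⟨u₂, hu₂, h₂, hh₂, rfl⟩ := borel_decomp' hC hadd hb₂
  obtain ⟨n, hn_def⟩ : ∃ n, n = nw hF F (plain wd') := ⟨_, rfl⟩
  rw [← hn_def] at hgeq
  have hnM : n ∈ MJ hF F J := hn_def ▸ nw_mem_MJ hF hwd'
  have hnN : n ∈ D.monomialSubgroup F := hn_def ▸ nw_mem_monomial hC (plain_lt hwd'')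
  have hnc : Commute n (yS hF F S (c0 F V0)) := MJ_commute hC hR hU hn hadd T hnM
  have hu₂' : h₂⁻¹ * u₂ * h₂ ∈ D.posUnipotent F := by
    have := (hC.rd hadd).H_conj_U (h := h₂⁻¹) (Subgroup.inv_mem _ hh₂) (g := u₂)
      (by rw [rd_U]; exact hu₂)
    rw [rd_U, inv_inv] at this
    exact this
  obtain ⟨y, hy, l, hl, hyl⟩ := exists_mul_of_mem_sup (UL_le_normalizer hC hR hU hn hadd J)
    (U_le_rad_sup_UL hF J hu₂')
  have hy' : n * y * n⁻¹ ∈ D.unipotentRadical F J := hn_def ▸ nw_conj_rad hC hR hU hn hwd' hy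
  have hh₂' : n * h₂ * n⁻¹ ∈ D.diagonalSubgroup F :=
    (hC.rd hadd).N_conj_H (n := n) (by rw [rd_N]; exact hnN) h₂ hh₂
  obtain ⟨h, hh_def⟩ : ∃ h, h = h₁ * (n * h₂ * n⁻¹) := ⟨_, rfl⟩
  have hhH : h ∈ D.diagonalSubgroup F := hh_def ▸ Subgroup.mul_mem _ hh₁ hh₂'
  have hyU : h * (n * y * n⁻¹) * h⁻¹ ∈ D.posUnipotent F := by
    have := (hC.rd hadd).H_conj_U (h := h) hhH (g := n * y * n⁻¹)
      (by rw [rd_U]; exact rad_le_U J hy')
    rw [rd_U] at this
    exact this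
  obtain ⟨u, hu_def⟩ : ∃ u, u = u₁ * (h * (n * y * n⁻¹) * h⁻¹) := ⟨_, rfl⟩
  have huU : u ∈ D.posUnipotent F := hu_def ▸ Subgroup.mul_mem _ hu₁ hyU
  have hgeq' : g = u * h * n * l := by
    have e : u₂ = h₂ * (y * l) * h₂⁻¹ := by
      rw [← hyl]
      group
    rw [hgeq, e, hu_def, hh_def]
    group
  have hlG : l ∈ Ugood hF F Bad := UL_le_Ugood hC hR hU hn T hl
  have hlc : Commute l (yS hF F S (c0 F V0)) := Ugood_commute hC hR hU hn hadd T hlG
  have huh : Commute (u * h) (yS hF F S (c0 F V0)) := by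
    have e : u * h = g * l⁻¹ * n⁻¹ := by
      rw [hgeq']
      group
    rw [e]
    exact (hz.mul_left hlc.inv_left).mul_left hnc.inv_left
  -- the torus part
  obtain ⟨cc, hcc, e⟩ := exists_tor_of_mem hF h hhH
  have h1 : h * yS hF F S (c0 F V0) * h⁻¹ = yS hF F S (fun ρ => chi A cc ρ * c0 F V0 ρ) :=
    tor_conj_prodL hF hcc e S (c0 F V0) T.hS
  obtain ⟨c', e', hc'⟩ := (orbitU hC hR hU hn hadd T huU).1 (fun ρ => chi A cc ρ * c0 F V0 ρ)
  have e3 : yS hF F S c' = yS hF F S (c0 F V0) := by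
    rw [← e', ← h1]
    have : u * (h * yS hF F S (c0 F V0) * h⁻¹) * u⁻¹ =
        (u * h) * yS hF F S (c0 F V0) * (u * h)⁻¹ := by group
    rw [this, huh.eq]
    group
  have hchi : ∀ ρ ∈ V0, chi A cc ρ = 1 := by
    intro ρ hρ
    have hρS := T.hV0 ρ hρ
    have h3 := coef_eq_of_prodL_eq hF (L := S.map (fun ρ => (ρ, c' ρ)))
      (L' := S.map (fun ρ => (ρ, c0 F V0 ρ))) (yS_lt T.hS _ (fun _ => rfl))
      (yS_cf T.cfS _ (fun _ => rfl)) (yS_lt T.hS _ (fun _ => rfl)) (yS_cf T.cfS _ (fun _ => rfl))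
      (by rw [List.map_map]; exact (List.map_id S).symm ▸ T.nd)
      (by rw [List.map_map]; exact (List.map_id S).symm ▸ T.nd) e3
      (List.mem_map.mpr ⟨ρ, hρS, rfl⟩) (List.mem_map.mpr ⟨ρ, hρS, rfl⟩) (T.odd ρ (T.hS ρ hρS))
    rw [hc' ρ hρ] at h3
    unfold c0 at h3
    rw [if_pos hρ, mul_one] at h3
    exact h3
  have hhM : h ∈ MJ hF F J := tor_mem_MJ hF hcc (T.tor cc hcc hchi) e
  have hht : Commute h (yS hF F S (c0 F V0)) := MJ_commute hC hR hU hn hadd T hhM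
  have hut : Commute u (yS hF F S (c0 F V0)) := by
    have e4 : u = u * h * h⁻¹ := by group
    rw [e4]
    exact huh.mul_left hht.inv_left
  have huG : u ∈ Ugood hF F Bad := T.centU u huU hut
  rw [hgeq']
  exact Subgroup.mul_mem _ (Subgroup.mul_mem _ (Subgroup.mul_mem _ (Subgroup.mem_sup_right huG)
    (Subgroup.mem_sup_left hhM)) (Subgroup.mem_sup_left hnM)) (Subgroup.mem_sup_right hlG)

include hC hR hU hn hadd hinj T in
/-- The centralizer of `∏_{ρ ∈ V0} x_ρ(1)` in the Chevalley group. -/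
theorem cent_eq :
    D.group F ⊓ Subgroup.centralizer {yS hC.af F S (c0 F V0)} =
      MJ hC.af F J ⊔ Ugood hC.af F Bad := by
  have hF := hC.af
  apply le_antisymm
  · intro g hgg
    obtain ⟨hg, hgc⟩ := Subgroup.mem_inf.mp hgg
    rw [Subgroup.mem_centralizer_iff] at hgc
    exact cent_le hC hR hU hn hadd hinj T hg (hgc _ rfl).symm
  · have hx : ∀ r < A.n, ∀ c : F, xg hF F r c ∈ D.group F := by
      intro r hr c
      rw [xg_eq hF (lt_nroots hF hr)]
      exact xU_mem_group hF _ _ _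
    have hle : MJ hF F J ⊔ Ugood hF F Bad ≤ D.group F := by
      apply sup_le
      · unfold MJ
        rw [Subgroup.closure_le]
        rintro g ⟨j, hj, hjl, c, rfl | rfl⟩
        · exact hx _ (hF.sfacts.simple_lt j hjl) c
        · exact hx _ (hF.agrees.neg_lt _ (hF.sfacts.simple_lt j hjl)) c
      · unfold Ugood
        rw [Subgroup.closure_le]
        rintro g ⟨r, hr, _, _, c, rfl⟩
        exact hx r hr c
    intro g hg
    refine Subgroup.mem_inf.mpr ⟨hle hg, ?_⟩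
    rw [Subgroup.mem_centralizer_iff]
    intro z hz
    rw [Set.mem_singleton_iff] at hz
    rw [hz]
    have hc : Commute g (yS hF F S (c0 F V0)) := by
      have hle2 : MJ hF F J ⊔ Ugood hF F Bad ≤ Subgroup.centralizer {yS hF F S (c0 F V0)} := by
        apply sup_le
        · intro x hx'
          rw [Subgroup.mem_centralizer_iff]
          intro z hz
          rw [Set.mem_singleton_iff] at hz
          rw [hz]
          exact (MJ_commute hC hR hU hn hadd T hx').eq.symm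
        · intro x hx'
          rw [Subgroup.mem_centralizer_iff]
          intro z hz
          rw [Set.mem_singleton_iff] at hz
          rw [hz]
          exact (Ugood_commute hC hR hU hn hadd T hx').eq.symm
      have := hle2 hg
      rw [Subgroup.mem_centralizer_iff] at this
      exact (this _ rfl).symm
    exact hc.eq.symm

end

end Cfsg.Agent.Lib.Helper36.CentC
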