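import Mathlib
import Cfsg.Agent.Lib.Helper36.CentC

set_option autoImplicit false
set_option linter.unusedSimpArgs false
set_option linter.unusedSectionVars false
set_option linter.unusedVariables false

/-!
Helpers for the table facts of `CentC.Setup`: the action of a root element moving one factor of
a product of commuting root elements, the Weyl words fixing two roots, and products of root
elements along a word.
-/

namespace Cfsg.Agent.Lib.Helper36.CentD

open Cfsg Cfsg.Lie Cfsg.Agent.Lib.Helper18.Fast Cfsg.Agent.Lib.Helper18.Grade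
  Cfsg.Agent.Lib.Helper18.Facts Cfsg.Agent.Lib.Helper18.AllRoots Cfsg.Agent.Lib.Helper18.Loop
  Cfsg.Agent.Lib.Helper18.Weyl Cfsg.Agent.Lib.Helper18.RootSys Cfsg.Agent.Lib.Helper18.Orbit
  Cfsg.Agent.Lib.Helper18.Units Cfsg.Agent.Lib.Helper18.Sub Cfsg.Agent.Lib.Helper18.Norm
  Cfsg.Agent.Lib.Helper18.HAll Cfsg.Agent.Lib.Helper18.Torus Cfsg.Agent.Lib.Helper18.Pos
  Cfsg.Agent.Lib.Helper18.WGroup Cfsg.Agent.Lib.Helper18.BNChev Cfsg.Agent.Lib.Helper18.Mono
  Cfsg.Agent.Lib.Helper18.BNPairC Cfsg.Agent.Lib.Helper18.UOrd Cfsg.Agent.Lib.Helper18.Cox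
  Cfsg.Agent.Lib.Helper18.Long Cfsg.Agent.Lib.Helper18.Core Cfsg.Agent.Lib.Helper18.Conj
  Cfsg.Agent.Lib.Helper18.RFact Cfsg.Agent.Lib.Helper18.BNCell Cfsg.Agent.Lib.Helper18.Vec
  Cfsg.Agent.Lib.Helper18.XMat Cfsg.Agent.Lib.Helper18.Cells Cfsg.Agent.Lib.Helper18.Cox2
  Cfsg.Agent.Lib.Helper18.Cells2 Cfsg.Agent.Lib.Helper18.Cox3 Cfsg.Agent.Lib.Helper18.HOrder
  Cfsg.Agent.Lib.Helper18.HOrderTab Cfsg.Agent.Lib.Helper18.Tri Cfsg.Agent.Lib.Helper18.Par
  Cfsg.Agent.Lib.Helper18.Par2 Cfsg.Agent.Lib.Helper18.Par3 Cfsg.Agent.Lib.Helper18.CommT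
  Cfsg.Agent.Lib.Helper18.Poly2 Cfsg.Agent.Lib.Helper18.Cent Cfsg.Agent.Lib.Helper36.CentA
  Cfsg.Agent.Lib.Helper36.CentB Cfsg.Agent.Lib.Helper36.CentC

variable {A : FData} {D : ChevalleyDatum} {F : Type*} [Field F] {X : WD} {m : ℕ → ℕ → ℤ}
  {w : ℕ → ℤ} {N : ℕ} {ord rnk : ℕ → ℕ} {bz : ℕ → ℕ → ℤ} {w' : ℕ → ℤ}

theorem cast_ne_zero_of_odd [CharP F 2] {z : ℤ} (h : z % 2 = 1) : ((z : ℤ) : F) ≠ 0 := by
  have e : z = 2 * (z / 2) + 1 := by omega
  rw [e]
  push_cast
  rw [CharTwo.two_eq_zero, zero_mul, zero_add]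
  exact one_ne_zero

theorem yS_cons (hF : AFacts A D) (ρ : ℕ) (S : List ℕ) (c : ℕ → F) :
    yS hF F (ρ :: S) c = xg hF F ρ (c ρ) * yS hF F S c := by
  unfold yS
  rw [List.map_cons, prodL_cons]

theorem yS_nil (hF : AFacts A D) (c : ℕ → F) : yS hF F [] c = 1 := rfl

section

variable (hF : AFacts A D)
  (hadd : ∀ r < D.nroots, ∀ t u : F, D.x F r t * D.x F r u = D.x F r (t + u))

include hadd in
/-- Conjugation by an element moving exactly the factor of `ρ`. -/
theorem conj_mod (x z : GL D.Idx F) (c : ℕ → F) (ρ : ℕ)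
    (hmove : x * xg hF F ρ (c ρ) * x⁻¹ = xg hF F ρ (c ρ) * z) :
    ∀ L : List ℕ, L.Nodup → (∀ σ ∈ L, σ ≠ ρ → Commute x (xg hF F σ (c σ))) →
      (∀ σ ∈ L, Commute z (xg hF F σ (c σ))) →
      x * yS hF F L c * x⁻¹ = if ρ ∈ L then yS hF F L c * z else yS hF F L c := by
  intro L
  induction L with
  | nil =>
    intro _ _ _
    rw [yS_nil]
    simp
  | cons σ L ih =>
    intro hnd hfix hz
    rw [List.nodup_cons] at hnd
    have ih' := ih hnd.2 (fun τ hτ hne => hfix τ (List.mem_cons_of_mem _ hτ) hne)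
      (fun τ hτ => hz τ (List.mem_cons_of_mem _ hτ))
    have e : x * yS hF F (σ :: L) c * x⁻¹ =
        (x * xg hF F σ (c σ) * x⁻¹) * (x * yS hF F L c * x⁻¹) := by
      rw [yS_cons]
      group
    rw [e, ih']
    by_cases hσ : σ = ρ
    · subst hσ
      rw [if_neg hnd.1, if_pos List.mem_cons_self, hmove, yS_cons]
      have hc : Commute z (yS hF F L c) :=
        commute_yS hF L c (fun τ hτ => hz τ (List.mem_cons_of_mem _ hτ))
      rw [mul_assoc, hc.eq, mul_assoc]
    · have h1 : x * xg hF F σ (c σ) * x⁻¹ = xg hF F σ (c σ) := by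
        rw [(hfix σ List.mem_cons_self hσ).eq]
        group
      rw [h1, yS_cons]
      by_cases hρ : ρ ∈ L
      · rw [if_pos hρ, if_pos (List.mem_cons_of_mem _ hρ), mul_assoc]
      · rw [if_neg hρ, if_neg (by
          rw [List.mem_cons, not_or]
          exact ⟨fun h => hσ h.symm, hρ⟩)]

include hadd in
/-- Changing one coefficient of a product of commuting root elements. -/
theorem yS_update (c : ℕ → F) (ρ' : ℕ) (b : F) :
    ∀ L : List ℕ, L.Nodup → (∀ σ ∈ L, Commute (xg hF F ρ' b) (xg hF F σ (c σ))) →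
      yS hF F L (Function.update c ρ' (c ρ' + b)) =
        if ρ' ∈ L then yS hF F L c * xg hF F ρ' b else yS hF F L c := by
  intro L
  induction L with
  | nil =>
    intro _ _
    rw [yS_nil, yS_nil]
    simp
  | cons σ L ih =>
    intro hnd hz
    rw [List.nodup_cons] at hnd
    have ih' := ih hnd.2 (fun τ hτ => hz τ (List.mem_cons_of_mem _ hτ))
    rw [yS_cons, ih']
    by_cases hσ : σ = ρ'
    · subst hσ
      rw [if_neg hnd.1, if_pos List.mem_cons_self, Function.update_self, xg_add hadd, yS_cons]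
      have hc : Commute (xg hF F σ b) (yS hF F L c) :=
        commute_yS hF L c (fun τ hτ => hz τ (List.mem_cons_of_mem _ hτ))
      rw [mul_assoc, hc.eq, mul_assoc]
    · rw [Function.update_of_ne hσ, yS_cons]
      by_cases hρ : ρ' ∈ L
      · rw [if_pos hρ, if_pos (List.mem_cons_of_mem _ hρ), mul_assoc]
      · rw [if_neg hρ, if_neg (by
          rw [List.mem_cons, not_or]
          exact ⟨fun h => hσ h.symm, hρ⟩)]

include hadd in
/-- The action on the products over `S` of a root element `x_r(s)` moving the factor of `ρ` into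
the factor of `ρ'` and commuting with the other factors. -/
theorem act_single {S : List ℕ} (hnd : S.Nodup)
    (hcomm : ∀ ρ ∈ S, ∀ ρ' ∈ S, ∀ a b : F, Commute (xg hF F ρ a) (xg hF F ρ' b))
    {r ρ ρ' : ℕ} (hρ : ρ ∈ S) (hρ' : ρ' ∈ S)
    (hmove : ∀ s a : F, xg hF F r s * xg hF F ρ a * (xg hF F r s)⁻¹ =
      xg hF F ρ a * xg hF F ρ' (s * a))
    (hfix : ∀ σ ∈ S, σ ≠ ρ → ∀ s a : F, Commute (xg hF F r s) (xg hF F σ a)) (s : F)
    (c : ℕ → F) :
    xg hF F r s * yS hF F S c * (xg hF F r s)⁻¹ =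
      yS hF F S (Function.update c ρ' (c ρ' + s * c ρ)) := by
  rw [conj_mod hF hadd (xg hF F r s) (xg hF F ρ' (s * c ρ)) c ρ (hmove s (c ρ)) S hnd
    (fun σ hσ hne => hfix σ hσ hne s (c σ)) (fun σ hσ => hcomm ρ' hρ' σ hσ _ _),
    yS_update hF hadd c ρ' (s * c ρ) S hnd (fun σ hσ => hcomm ρ' hρ' σ hσ _ _),
    if_pos hρ, if_pos hρ']

/-- The action of a root element commuting with all factors. -/
theorem act_inert {S : List ℕ} {r : ℕ}
    (hfix : ∀ σ ∈ S, ∀ s a : F, Commute (xg hF F r s) (xg hF F σ a)) (s : F) (c : ℕ → F) :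
    xg hF F r s * yS hF F S c * (xg hF F r s)⁻¹ = yS hF F S c := by
  have hc : Commute (xg hF F r s) (yS hF F S c) :=
    commute_yS hF S c (fun σ hσ => hfix σ hσ s (c σ))
  rw [hc.eq]
  group

/-- Conjugation of a product over `S` by a product of root elements along a word. -/
theorem conj_prodL_yS {S : List ℕ} {act : ℕ → F → (ℕ → F) → (ℕ → F)} (L : List (ℕ × F))
    (hact : ∀ p ∈ L, ∀ c : ℕ → F, xg hF F p.1 p.2 * yS hF F S c * (xg hF F p.1 p.2)⁻¹ =
      yS hF F S (act p.1 p.2 c)) (c : ℕ → F) :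
    prodL hF F L * yS hF F S c * (prodL hF F L)⁻¹ =
      yS hF F S (L.foldr (fun p c => act p.1 p.2 c) c) := by
  induction L with
  | nil =>
    rw [prodL_nil]
    simp
  | cons p L ih =>
    have ih' := ih (fun q hq => hact q (List.mem_cons_of_mem _ hq))
    have e : prodL hF F (p :: L) * yS hF F S c * (prodL hF F (p :: L))⁻¹ =
        xg hF F p.1 p.2 * (prodL hF F L * yS hF F S c * (prodL hF F L)⁻¹) *
          (xg hF F p.1 p.2)⁻¹ := by
      rw [prodL_cons]
      group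
    rw [e, ih', hact p List.mem_cons_self, List.foldr_cons]

/-- The matrix of a product of root elements along a word. -/
theorem coe_prodL (L : List (ℕ × F)) (hL : ∀ p ∈ L, p.1 < A.n) :
    ((prodL hF F L : GL D.Idx F) : Matrix D.Idx D.Idx F) = D.wordMat F L := by
  induction L with
  | nil => simp [prodL, ChevalleyDatum.wordMat]
  | cons p L ih =>
    rw [prodL_cons, Units.val_mul, ih (fun q hq => hL q (List.mem_cons_of_mem _ hq)),
      coe_xg hF (lt_nroots hF (hL p List.mem_cons_self))]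
    simp [ChevalleyDatum.wordMat]

end

section

variable (hC : CFacts A D X m w) (hR : RFacts A X) (hU : UFacts A w' N ord rnk bz) (hn : 0 < A.n)

include hC hR hU hn in
/-- A Weyl word fixing two roots, a positive combination of which is dominant, has the same
permutation as a word in the simple reflections fixing both roots. -/
theorem weyl_of_fix (hT : (rs hC hR hU hn).Triv) {lam1 lam2 : ℕ} (h1 : lam1 < A.n)
    (h2 : lam2 < A.n) (m1 m2 : ℤ) (J : Set ℕ)
    (hdom : ∀ j < A.rank, 0 ≤ m1 * A.car j lam1 + m2 * A.car j lam2)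
    (hJ : ∀ j < A.rank, m1 * A.car j lam1 + m2 * A.car j lam2 = 0 →
      j ∈ J ∧ A.car j lam1 = 0 ∧ A.car j lam2 = 0)
    {wd : List ℕ} (hwd : ∀ i ∈ wd, i < A.rank) (hf1 : wperm X wd lam1 = lam1)
    (hf2 : wperm X wd lam2 = lam2) :
    ∃ wd' : List ℕ, (∀ i ∈ wd', i < A.rank ∧ i ∈ J) ∧
      (rs hC hR hU hn).wprod wd' = (rs hC hR hU hn).wprod wd := by
  have hσ : (rs hC hR hU hn).wprod wd ∈ (rs hC hR hU hn).W Set.univ :=
    (rs hC hR hU hn).wprod_mem hwd
  have hfix1 : (rs hC hR hU hn).wprod wd ⟨lam1, h1⟩ = ⟨lam1, h1⟩ := by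
    apply Fin.ext
    rw [wprod_val hC hR hU hn hwd]
    exact hf1
  have hfix2 : (rs hC hR hU hn).wprod wd ⟨lam2, h2⟩ = ⟨lam2, h2⟩ := by
    apply Fin.ext
    rw [wprod_val hC hR hU hn hwd]
    exact hf2
  have hst := stab2 (rs hC hR hU hn) hT (J := Set.univ) (J'' := J) (lam1 := ⟨lam1, h1⟩)
    (lam2 := ⟨lam2, h2⟩) m1 m2
    (fun j _ hj => hdom j hj) (fun j _ hj h => hJ j hj h) hσ hfix1 hfix2
  exact exists_word (rs hC hR hU hn) hst

end

end Cfsg.Agent.Lib.Helper36.CentD
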