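import Mathlib
import Cfsg.Agent.Lib.Helper36.CentD

set_option autoImplicit false
set_option linter.unusedSimpArgs false
set_option linter.unusedSectionVars false
set_option linter.unusedVariables false

/-!
Commutation of root elements in characteristic two, in the form used for `CentC.Setup`.
-/

namespace Cfsg.Agent.Lib.Helper36.CentE

open Cfsg Cfsg.Lie Cfsg.Agent.Lib.Helper18.Fast Cfsg.Agent.Lib.Helper18.Grade
  Cfsg.Agent.Lib.Helper18.Facts Cfsg.Agent.Lib.Helper18.AllRoots Cfsg.Agent.Lib.Helper18.Loop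
  Cfsg.Agent.Lib.Helper18.Weyl Cfsg.Agent.Lib.Helper18.RootSys Cfsg.Agent.Lib.Helper18.Orbit
  Cfsg.Agent.Lib.Helper18.Units Cfsg.Agent.Lib.Helper18.Sub Cfsg.Agent.Lib.Helper18.Norm
  Cfsg.Agent.Lib.Helper18.HAll Cfsg.Agent.Lib.Helper18.Torus Cfsg.Agent.Lib.Helper18.Pos
  Cfsg.Agent.Lib.Helper18.WGroup Cfsg.Agent.Lib.Helper18.BNChev Cfsg.Agent.Lib.Helper18.Mono
  Cfsg.Agent.Lib.Helper18.BNPairC Cfsg.Agent.Lib.Helper18.UOrd Cfsg.Agent.Lib.Helper18.Cox
  Cfsg.Agent.Lib.Helper18.Long Cfsg.Agent.Lib.Helper18.Core Cfsg.Agent.Lib.Helper18.Conj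
  Cfsg.Agent.Lib.Helper18.RFact Cfsg.Agent.Lib.Helper18.BNCell Cfsg.Agent.Lib.Helper18.Vec
  Cfsg.Agent.Lib.Helper18.XMat Cfsg.Agent.Lib.Helper18.Cells Cfsg.Agent.Lib.Helper18.Cox2
  Cfsg.Agent.Lib.Helper18.Cells2 Cfsg.Agent.Lib.Helper18.Cox3 Cfsg.Agent.Lib.Helper18.HOrder
  Cfsg.Agent.Lib.Helper18.HOrderTab Cfsg.Agent.Lib.Helper18.Tri Cfsg.Agent.Lib.Helper18.Par
  Cfsg.Agent.Lib.Helper18.Par2 Cfsg.Agent.Lib.Helper18.Par3 Cfsg.Agent.Lib.Helper18.CommT
  Cfsg.Agent.Lib.Helper18.Poly2 Cfsg.Agent.Lib.Helper18.Cent Cfsg.Agent.Lib.Helper36.CentA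
  Cfsg.Agent.Lib.Helper36.CentB Cfsg.Agent.Lib.Helper36.CentC Cfsg.Agent.Lib.Helper36.CentD

variable {A : FData} {D : ChevalleyDatum} {F : Type*} [Field F] {X : WD} {m : ℕ → ℕ → ℤ}
  {w : ℕ → ℤ} {N : ℕ} {ord rnk : ℕ → ℕ} {bz : ℕ → ℕ → ℤ} {w' : ℕ → ℤ}

theorem cast_odd_eq_one [CharP F 2] {z : ℤ} (h : z % 2 = 1) : ((z : ℤ) : F) = 1 := by
  have e : z = 2 * (z / 2) + 1 := by omega
  rw [e]
  push_cast
  rw [CharTwo.two_eq_zero, zero_mul, zero_add]

/-- Root elements commuting by the table check. -/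
theorem comm_of_chk [CharP F 2] (hF : AFacts A D) {r s : ℕ} (hr : r < A.n) (hs : s < A.n)
    (h : chkC2 A r s = true) (a b : F) : Commute (xg hF F r a) (xg hF F s b) :=
  (xg_comm_of_chkC2 hF hr hs h a b).symm

theorem comm_self (hF : AFacts A D)
    (hadd : ∀ r < D.nroots, ∀ t u : F, D.x F r t * D.x F r u = D.x F r (t + u)) (r : ℕ)
    (a b : F) : Commute (xg hF F r a) (xg hF F r b) := by
  show xg hF F r a * xg hF F r b = xg hF F r b * xg hF F r a
  rw [← xg_add hadd, ← xg_add hadd, add_comm]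

/-- The commutator relation of a pair with a single odd term, in characteristic two. -/
theorem hcw_of_terms [CharP F 2] (D : ChevalleyDatum) {r ρ ρ' : ℕ} {C : ℤ} (hC : C % 2 = 1)
    (hterms : D.commTerms ρ r = [(ρ', C, 1, 1)])
    (hcomm : ∀ a s : F, D.x F r s * D.x F ρ a =
      D.x F ρ a * D.x F r s * D.wordMat F (D.commWord F ρ r a s)) (a s : F) :
    D.x F r s * D.x F ρ a = D.x F ρ a * D.x F r s * D.x F ρ' (s * a) := by
  rw [hcomm a s]
  congr 1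
  unfold ChevalleyDatum.commWord ChevalleyDatum.wordMat
  rw [hterms]
  simp only [List.map_cons, List.map_nil, List.prod_cons, List.prod_nil, mul_one, pow_one]
  rw [cast_odd_eq_one hC, CharTwo.neg_eq, one_mul, mul_comm]

/-- A root element moving the factor of `ρ` into the factor of `ρ'`. -/
theorem move_rel [CharP F 2] (hF : AFacts A D) {r ρ ρ' : ℕ} (hr : r < A.n) (hρ : ρ < A.n)
    (hρ' : ρ' < A.n)
    (hcw : ∀ a s : F, D.x F r s * D.x F ρ a = D.x F ρ a * D.x F r s * D.x F ρ' (s * a))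
    (hc : chkC2 A ρ' r = true) (s a : F) :
    xg hF F r s * xg hF F ρ a * (xg hF F r s)⁻¹ = xg hF F ρ a * xg hF F ρ' (s * a) := by
  have e : xg hF F r s * xg hF F ρ a = xg hF F ρ a * xg hF F r s * xg hF F ρ' (s * a) := by
    apply Units.ext
    rw [Units.val_mul, Units.val_mul, Units.val_mul, coe_xg hF (lt_nroots hF hr),
      coe_xg hF (lt_nroots hF hρ), coe_xg hF (lt_nroots hF hρ')]
    exact hcw a s
  have hc' : Commute (xg hF F r s) (xg hF F ρ' (s * a)) :=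
    (comm_of_chk hF hρ' hr hc (s * a) s).symm
  rw [e, mul_assoc (xg hF F ρ a), hc'.eq]
  group

theorem xg_mem_rootSubgroup (hF : AFacts A D) {r : ℕ} (hr : r < A.n) (c : F) :
    xg hF F r c ∈ D.rootSubgroup F r :=
  Subgroup.subset_closure ⟨c, coe_xg hF (lt_nroots hF hr) c⟩

theorem rootSubgroup_le (hF : AFacts A D) {r : ℕ} (hr : r < A.n) {K : Subgroup (GL D.Idx F)}
    (h : ∀ c : F, xg hF F r c ∈ K) : D.rootSubgroup F r ≤ K := by
  unfold ChevalleyDatum.rootSubgroup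
  rw [Subgroup.closure_le]
  rintro g ⟨t, e⟩
  have : g = xg hF F r t := Units.ext (by rw [e, coe_xg hF (lt_nroots hF hr)])
  rw [this]
  exact h t

end Cfsg.Agent.Lib.Helper36.CentE
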