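import Mathlib
import Cfsg.Agent.Lib.Helper36.CentE
import Cfsg.Agent.Lib.Helper36.ChevUAll
import Cfsg.Agent.Lib.Helper36.ChevCommAll
import Cfsg.Agent.Lib.Helper18.ParAll
import Cfsg.Agent.Lib.Helper18.Cent2

set_option autoImplicit false
set_option linter.unusedSimpArgs false
set_option linter.unusedSectionVars false
set_option linter.unusedVariables false

/-!
The centralizer of the short root involution `x_{2a+b}(1)` in `G₂(q)`, `q` even.
-/

namespace Cfsg.Agent.Lib.Helper36.CentG2

open Cfsg Cfsg.Lie Cfsg.Agent.Lib.Helper18.Fast Cfsg.Agent.Lib.Helper18.Grade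
  Cfsg.Agent.Lib.Helper18.Facts Cfsg.Agent.Lib.Helper18.AllRoots Cfsg.Agent.Lib.Helper18.Loop
  Cfsg.Agent.Lib.Helper18.Weyl Cfsg.Agent.Lib.Helper18.RootSys Cfsg.Agent.Lib.Helper18.Orbit
  Cfsg.Agent.Lib.Helper18.Units Cfsg.Agent.Lib.Helper18.Sub Cfsg.Agent.Lib.Helper18.Norm
  Cfsg.Agent.Lib.Helper18.HAll Cfsg.Agent.Lib.Helper18.Torus Cfsg.Agent.Lib.Helper18.Pos
  Cfsg.Agent.Lib.Helper18.WGroup Cfsg.Agent.Lib.Helper18.BNChev Cfsg.Agent.Lib.Helper18.Mono
  Cfsg.Agent.Lib.Helper18.BNPairC Cfsg.Agent.Lib.Helper18.UOrd Cfsg.Agent.Lib.Helper18.Cox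
  Cfsg.Agent.Lib.Helper18.Long Cfsg.Agent.Lib.Helper18.Core Cfsg.Agent.Lib.Helper18.Conj
  Cfsg.Agent.Lib.Helper18.RFact Cfsg.Agent.Lib.Helper18.BNCell Cfsg.Agent.Lib.Helper18.Vec
  Cfsg.Agent.Lib.Helper18.XMat Cfsg.Agent.Lib.Helper18.Cells Cfsg.Agent.Lib.Helper18.Cox2
  Cfsg.Agent.Lib.Helper18.Cells2 Cfsg.Agent.Lib.Helper18.Cox3 Cfsg.Agent.Lib.Helper18.HOrder
  Cfsg.Agent.Lib.Helper18.HOrderTab Cfsg.Agent.Lib.Helper18.Tri Cfsg.Agent.Lib.Helper18.Par
  Cfsg.Agent.Lib.Helper18.Par2 Cfsg.Agent.Lib.Helper18.Par3 Cfsg.Agent.Lib.Helper18.CommT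
  Cfsg.Agent.Lib.Helper18.Poly2 Cfsg.Agent.Lib.Helper18.Cent Cfsg.Agent.Lib.Helper36.CentA
  Cfsg.Agent.Lib.Helper36.CentB Cfsg.Agent.Lib.Helper36.CentC Cfsg.Agent.Lib.Helper36.CentD
  Cfsg.Agent.Lib.Helper36.CentE Cfsg.Agent.Lib.Helper18

/-- The short roots of `G₂`. -/
def lenG2 (r : ℕ) : ℕ := if r ∈ [2, 3, 4, 7, 8, 9] then 1 else 0

/-- The action of the positive root elements on the products `x_9 x_10 x_11`. -/
def actG2 {F : Type*} [Field F] (r : ℕ) (s : F) (c : ℕ → F) : ℕ → F :=
  if r = 7 then Function.update c 10 (c 10 + s * c 9)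
  else if r = 8 then Function.update c 11 (c 11 + s * c 9)
  else if r = 6 then Function.update c 11 (c 11 + s * c 10)
  else c

set_option maxRecDepth 100000 in
theorem cf_ok : [9, 10, 11].all (fun ρ => [9, 10, 11].all (fun ρ' => cf FTabG2.fd ρ ρ')) = true := by
  decide +kernel

set_option maxRecDepth 100000 in
theorem odd_ok : allB 12 (fun δ => (List.range 2).any
    (fun i => decide (FTabG2.fd.car i δ % 2 = 1))) = true := by decide +kernel

set_option maxRecDepth 100000 in
theorem len_ok : allB 2 (fun i => allB 12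
    (fun r => decide (lenG2 (WTabG2.X.W i r) = lenG2 r))) = true := by decide +kernel

set_option maxRecDepth 100000 in
theorem pos_ok : allB 12 (fun r => !(posC FTabG2.fd r) || decide (6 ≤ r)) = true := by
  decide +kernel

set_option maxRecDepth 100000 in
theorem posv_ok : [6, 7, 8, 9, 10, 11].all (fun r => posC FTabG2.fd r) = true := by
  decide +kernel

/-- The pairs of roots with commuting root subgroups which are used. -/
def commPairs : List (ℕ × ℕ) :=
  [(9, 10), (9, 11), (10, 9), (10, 11), (11, 9), (11, 10), (7, 10), (7, 11), (10, 7), (8, 10),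
    (8, 11), (11, 8), (6, 9), (6, 11), (11, 6), (5, 9)]

set_option maxRecDepth 100000 in
theorem comm_ok : commPairs.all (fun p => chkC2 FTabG2.fd p.1 p.2) = true := by decide +kernel

theorem cc {r s : ℕ} (h : (r, s) ∈ commPairs) : chkC2 FTabG2.fd r s = true :=
  List.all_eq_true.mp comm_ok (r, s) h

theorem hn12 : FTabG2.fd.n = 12 := rfl

theorem hrk2 : FTabG2.fd.rank = 2 := rfl

section

variable {F : Type*} [Field F] [CharP F 2]
  (hadd : ∀ r < chevG2.nroots, ∀ t u : F, chevG2.x F r t * chevG2.x F r u = chevG2.x F r (t + u))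
  (hinj : ∀ r < chevG2.nroots, ∀ t : F, chevG2.x F r t = 1 → t = 0)

theorem hDG2 : chevG2 ∈ [chevG2, chevB2, chevD4, chevF4, chevE6, chevE7, chevE8] := by simp

theorem t97 : chevG2.commTerms 9 7 = [(10, -3, 1, 1)] := by decide +kernel

theorem t98 : chevG2.commTerms 9 8 = [(11, -3, 1, 1)] := by decide +kernel

theorem t106 : chevG2.commTerms 10 6 = [(11, -1, 1, 1)] := by decide +kernel

theorem mv7 (s a : F) :
    xg CAll.cfG2.af F 7 s * xg CAll.cfG2.af F 9 a * (xg CAll.cfG2.af F 7 s)⁻¹ =
      xg CAll.cfG2.af F 9 a * xg CAll.cfG2.af F 10 (s * a) :=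
  move_rel CAll.cfG2.af (by decide) (by decide) (by decide)
    (hcw_of_terms chevG2 (by decide) t97 (fun a s =>
      Cfsg.Agent.Lib.Helper36.ChevCommAll.comm chevG2 hDG2 9 7 (by decide) (by decide)
        (by decide) (by decide) a s)) (cc (by decide)) s a

theorem mv8 (s a : F) :
    xg CAll.cfG2.af F 8 s * xg CAll.cfG2.af F 9 a * (xg CAll.cfG2.af F 8 s)⁻¹ =
      xg CAll.cfG2.af F 9 a * xg CAll.cfG2.af F 11 (s * a) :=
  move_rel CAll.cfG2.af (by decide) (by decide) (by decide)
    (hcw_of_terms chevG2 (by decide) t98 (fun a s =>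
      Cfsg.Agent.Lib.Helper36.ChevCommAll.comm chevG2 hDG2 9 8 (by decide) (by decide)
        (by decide) (by decide) a s)) (cc (by decide)) s a

theorem mv6 (s a : F) :
    xg CAll.cfG2.af F 6 s * xg CAll.cfG2.af F 10 a * (xg CAll.cfG2.af F 6 s)⁻¹ =
      xg CAll.cfG2.af F 10 a * xg CAll.cfG2.af F 11 (s * a) :=
  move_rel CAll.cfG2.af (by decide) (by decide) (by decide)
    (hcw_of_terms chevG2 (by decide) t106 (fun a s =>
      Cfsg.Agent.Lib.Helper36.ChevCommAll.comm chevG2 hDG2 10 6 (by decide) (by decide)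
        (by decide) (by decide) a s)) (cc (by decide)) s a

include hadd in
/-- The root elements of the roots `9, 10, 11` commute. -/
theorem scomm : ∀ ρ ∈ [9, 10, 11], ∀ ρ' ∈ [9, 10, 11], ∀ a b : F,
    Commute (xg CAll.cfG2.af F ρ a) (xg CAll.cfG2.af F ρ' b) := by
  intro ρ hρ ρ' hρ' a b
  simp only [List.mem_cons, List.not_mem_nil, or_false] at hρ hρ'
  rcases hρ with rfl | rfl | rfl <;> rcases hρ' with rfl | rfl | rfl
  · exact comm_self _ hadd _ a b
  · exact comm_of_chk _ (by decide) (by decide) (cc (by decide)) a b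
  · exact comm_of_chk _ (by decide) (by decide) (cc (by decide)) a b
  · exact comm_of_chk _ (by decide) (by decide) (cc (by decide)) a b
  · exact comm_self _ hadd _ a b
  · exact comm_of_chk _ (by decide) (by decide) (cc (by decide)) a b
  · exact comm_of_chk _ (by decide) (by decide) (cc (by decide)) a b
  · exact comm_of_chk _ (by decide) (by decide) (cc (by decide)) a b
  · exact comm_self _ hadd _ a b

theorem pos_ge {r : ℕ} (hr : r < 12) (hpos : PosA FTabG2.fd r) : 6 ≤ r := by
  have h := allB_imp pos_ok r hr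
  rw [Bool.or_eq_true] at h
  rcases h with h | h
  · rw [(posC_iff r).mpr hpos] at h
    exact absurd h (by decide)
  · exact of_decide_eq_true h

include hadd in
/-- The action of the positive root elements on the products over `[9, 10, 11]`. -/
theorem actU_G2 : ∀ r < FTabG2.fd.n, PosA FTabG2.fd r → ∀ (s : F) (c : ℕ → F),
    xg CAll.cfG2.af F r s * yS CAll.cfG2.af F [9, 10, 11] c * (xg CAll.cfG2.af F r s)⁻¹ =
      yS CAll.cfG2.af F [9, 10, 11] (actG2 r s c) := by
  intro r hr hpos s c
  have hr12 : r < 12 := hr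
  have h6 := pos_ge hr12 hpos
  have hnd : ([9, 10, 11] : List ℕ).Nodup := by decide
  interval_cases r
  · -- r = 6
    have e : actG2 6 s c = Function.update c 11 (c 11 + s * c 10) := rfl
    rw [e]
    refine act_single _ hadd hnd (scomm hadd) (ρ := 10) (ρ' := 11) (by simp) (by simp) mv6 ?_ s c
    intro σ hσ hne s a
    simp only [List.mem_cons, List.not_mem_nil, or_false] at hσ
    rcases hσ with rfl | rfl | rfl
    · exact comm_of_chk _ (by decide) (by decide) (cc (by decide)) s a
    · exact absurd rfl hne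
    · exact comm_of_chk _ (by decide) (by decide) (cc (by decide)) s a
  · -- r = 7
    have e : actG2 7 s c = Function.update c 10 (c 10 + s * c 9) := rfl
    rw [e]
    refine act_single _ hadd hnd (scomm hadd) (ρ := 9) (ρ' := 10) (by simp) (by simp) mv7 ?_ s c
    intro σ hσ hne s a
    simp only [List.mem_cons, List.not_mem_nil, or_false] at hσ
    rcases hσ with rfl | rfl | rfl
    · exact absurd rfl hne
    · exact comm_of_chk _ (by decide) (by decide) (cc (by decide)) s a
    · exact comm_of_chk _ (by decide) (by decide) (cc (by decide)) s a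
  · -- r = 8
    have e : actG2 8 s c = Function.update c 11 (c 11 + s * c 9) := rfl
    rw [e]
    refine act_single _ hadd hnd (scomm hadd) (ρ := 9) (ρ' := 11) (by simp) (by simp) mv8 ?_ s c
    intro σ hσ hne s a
    simp only [List.mem_cons, List.not_mem_nil, or_false] at hσ
    rcases hσ with rfl | rfl | rfl
    · exact absurd rfl hne
    · exact comm_of_chk _ (by decide) (by decide) (cc (by decide)) s a
    · exact comm_of_chk _ (by decide) (by decide) (cc (by decide)) s a
  · exact act_inert _ (fun σ hσ s a => scomm hadd 9 (by simp) σ hσ s a) s c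
  · exact act_inert _ (fun σ hσ s a => scomm hadd 10 (by simp) σ hσ s a) s c
  · exact act_inert _ (fun σ hσ s a => scomm hadd 11 (by simp) σ hσ s a) s c

theorem car09 : FTabG2.fd.car 0 9 = 1 := by decide +kernel

theorem car19 : FTabG2.fd.car 1 9 = 0 := by decide +kernel

theorem cor70 : FTabG2.fd.cor 7 0 ≠ 0 := by decide +kernel

theorem cor80 : FTabG2.fd.cor 8 0 ≠ 0 := by decide +kernel

theorem simple1 : FTabG2.fd.simple 1 = 6 := by decide +kernel

theorem neg6 : FTabG2.fd.neg 6 = 5 := by decide +kernel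

theorem posRootsG2 : chevG2.posRoots = [6, 7, 8, 9, 10, 11] := by decide +kernel

theorem prodL_mem {A : FData} {D : ChevalleyDatum} (hF : AFacts A D) {K : Subgroup (GL D.Idx F)}
    (L : List (ℕ × F)) (h : ∀ p ∈ L, xg hF F p.1 p.2 ∈ K) : prodL hF F L ∈ K := by
  induction L with
  | nil => exact Subgroup.one_mem _
  | cons p L ih =>
    rw [prodL_cons]
    exact Subgroup.mul_mem _ (h p List.mem_cons_self)
      (ih (fun q hq => h q (List.mem_cons_of_mem _ hq)))

include hadd hinj in
/-- The table facts for the centralizer of `x_{2a+b}(1)`. -/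
theorem setupG2 : Setup CAll.cfG2 ChainAll.rG2 UAll.uG2 (by decide) F [9, 10, 11] [9]
    ({1} : Set ℕ) (fun r => r = 7 ∨ r = 8) actG2 := by
  have hF := CAll.cfG2.af
  have hS : ∀ ρ ∈ [9, 10, 11], ρ < FTabG2.fd.n := by
    intro ρ hρ
    simp only [List.mem_cons, List.not_mem_nil, or_false] at hρ
    rcases hρ with rfl | rfl | rfl <;> decide
  have hcfS : ∀ ρ ∈ [9, 10, 11], ∀ ρ' ∈ [9, 10, 11], cf FTabG2.fd ρ ρ' = true := by
    intro ρ hρ ρ' hρ'
    exact List.all_eq_true.mp (List.all_eq_true.mp cf_ok ρ hρ) ρ' hρ'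
  have hodd : ∀ δ < FTabG2.fd.n, ∃ i < FTabG2.fd.rank, ((FTabG2.fd.car i δ : ℤ) : F) ≠ 0 := by
    intro δ hδ
    have h := allB_imp odd_ok δ hδ
    rw [List.any_eq_true] at h
    obtain ⟨i, hi, h⟩ := h
    exact ⟨i, List.mem_range.mp hi, cast_ne_zero_of_odd (of_decide_eq_true h)⟩
  refine ⟨hS, by simp, by decide, hcfS, hodd, ?_, actU_G2 hadd, ?_, ?_, ?_, ?_, ?_, ?_⟩
  · -- weyl
    intro wd hwd hV
    have h9 := hV 9 (by simp)
    have hl := wperm_inv1 CAll.cfG2.wf lenG2
      (fun i hi r hr => of_decide_eq_true (allB_imp (allB_imp len_ok i hi) r hr)) hwd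
      (r := 9) (by decide)
    have hfix : wperm WTabG2.X wd 9 = 9 := by
      simp only [List.mem_cons, List.not_mem_nil, or_false] at h9
      rcases h9 with h | h | h
      · exact h
      · rw [h] at hl
        exact absurd hl (by decide)
      · rw [h] at hl
        exact absurd hl (by decide)
    refine weyl_of_fix CAll.cfG2 ChainAll.rG2 UAll.uG2 (by decide)
      (triv CAll.cfG2 ChainAll.rG2 UAll.uG2 (by decide) hadd hinj) (lam1 := 9) (lam2 := 9)
      (by decide) (by decide) 1 0 ({1} : Set ℕ) ?_ ?_ hwd hfix hfix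
    · intro j hj
      have hj2 : j < 2 := hj
      interval_cases j
      · rw [car09]; decide
      · rw [car19]; decide
    · intro j hj h
      have hj2 : j < 2 := hj
      interval_cases j
      · rw [car09] at h
        exact absurd h (by decide)
      · exact ⟨rfl, car19, car19⟩
  · -- actV0
    intro r s c ρ hρ
    simp only [List.mem_cons, List.not_mem_nil, or_false] at hρ
    subst hρ
    unfold actG2
    split_ifs <;> simp [Function.update]
  · -- commJ
    intro j hj hjl ρ hρ a b
    simp only [List.mem_cons, List.not_mem_nil, or_false] at hρ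
    rw [Set.mem_singleton_iff] at hj
    subst hj hρ
    rw [simple1, neg6]
    exact ⟨comm_of_chk _ (by decide) (by decide) (cc (by decide)) a b,
      comm_of_chk _ (by decide) (by decide) (cc (by decide)) a b⟩
  · -- commGood
    intro r hr hpos hbad ρ hρ a b
    simp only [List.mem_cons, List.not_mem_nil, or_false] at hρ
    subst hρ
    have hr12 : r < 12 := hr
    have h6 := pos_ge hr12 hpos
    interval_cases r
    · exact comm_of_chk _ (by decide) (by decide) (cc (by decide)) a b
    · exact absurd (Or.inl rfl) hbad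
    · exact absurd (Or.inr rfl) hbad
    · exact comm_self _ hadd _ a b
    · exact comm_of_chk _ (by decide) (by decide) (cc (by decide)) a b
    · exact comm_of_chk _ (by decide) (by decide) (cc (by decide)) a b
  · -- goodJ
    intro r hr hpos hJ hbad
    have h0 := hJ 0 (by decide) (by simp)
    rcases hbad with rfl | rfl
    · exact cor70 h0
    · exact cor80 h0
  · -- centU
    intro u hu hcomm
    have hUF := Cfsg.Agent.Lib.Helper36.ChevUAll.facts (F := F) chevG2 hDG2
    obtain ⟨t, ht⟩ := Cfsg.Agent.Lib.Helper36.ChevU.exists_prod chevG2 hUF u hu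
    rw [posRootsG2] at ht
    have hlt : ∀ r ∈ [6, 7, 8, 9, 10, 11], r < FTabG2.fd.n := by decide
    have hL : ∀ p ∈ [6, 7, 8, 9, 10, 11].map (fun r => (r, t r)), p.1 < FTabG2.fd.n := by
      intro p hp
      obtain ⟨r, hr, rfl⟩ := List.mem_map.mp hp
      exact hlt r hr
    have hLpos : ∀ p ∈ [6, 7, 8, 9, 10, 11].map (fun r => (r, t r)), PosA FTabG2.fd p.1 := by
      intro p hp
      obtain ⟨r, hr, rfl⟩ := List.mem_map.mp hp
      exact (posC_iff _).mp (List.all_eq_true.mp posv_ok r hr)
    have hu_eq : u = prodL hF F ([6, 7, 8, 9, 10, 11].map (fun r => (r, t r))) :=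
      Units.ext (by rw [ht, coe_prodL hF _ hL])
    have hconj := conj_prodL_yS hF (S := [9, 10, 11]) (act := actG2)
      ([6, 7, 8, 9, 10, 11].map (fun r => (r, t r)))
      (fun p hp c => actU_G2 hadd p.1 (hL p hp) (hLpos p hp) p.2 c) (c0 F [9])
    rw [← hu_eq, hcomm.eq, mul_inv_cancel_right] at hconj
    have hnd : (([9, 10, 11] : List ℕ).map (fun ρ => ρ)).Nodup := by decide
    have key : ∀ ρ ∈ [9, 10, 11], c0 F [9] ρ =
        (List.foldr (fun (p : ℕ × F) c => actG2 p.1 p.2 c) (c0 F [9])
          ([6, 7, 8, 9, 10, 11].map (fun r => (r, t r)))) ρ := by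
      intro ρ hρ
      exact coef_eq_of_prodL_eq hF (yS_lt hS _ (fun _ => rfl)) (yS_cf hcfS _ (fun _ => rfl))
        (yS_lt hS _ (fun _ => rfl)) (yS_cf hcfS _ (fun _ => rfl))
        (by rw [List.map_map]; exact hnd) (by rw [List.map_map]; exact hnd) hconj
        (List.mem_map.mpr ⟨ρ, hρ, rfl⟩) (List.mem_map.mpr ⟨ρ, hρ, rfl⟩) (hodd ρ (hS ρ hρ))
    have h10 := key 10 (by simp)
    have h11 := key 11 (by simp)
    simp [List.foldr, actG2, c0, Function.update] at h10 h11
    have h7 : t 7 = 0 := by
      first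
        | exact h10
        | exact h10.symm
    have h8 : t 8 = 0 := by
      rw [h7] at h11
      have h11' : (0 : F) = t 8 := by simpa using h11
      exact h11'.symm
    rw [hu_eq]
    apply prodL_mem
    intro p hp
    obtain ⟨r, hr, rfl⟩ := List.mem_map.mp hp
    have hpos : PosA FTabG2.fd r := (posC_iff _).mp (List.all_eq_true.mp posv_ok r hr)
    by_cases hbad : r = 7 ∨ r = 8
    · rcases hbad with rfl | rfl
      · show xg hF F 7 (t 7) ∈ _
        rw [h7, xg_zero hadd]
        exact Subgroup.one_mem _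
      · show xg hF F 8 (t 8) ∈ _
        rw [h8, xg_zero hadd]
        exact Subgroup.one_mem _
    · exact Subgroup.subset_closure ⟨r, hlt r hr, hpos, hbad, t r, rfl⟩
  · -- tor
    intro cc hcc hchi i hi hiJ
    have hi2 : i < 2 := hi
    have hcar : ∀ i < FTabG2.fd.rank, FTabG2.fd.car i 9 = if i = 0 then 1 else 0 := by
      intro i hi
      have hi2 : i < 2 := hi
      interval_cases i
      · exact car09
      · exact car19
    interval_cases i
    · have h := hchi 9 (by simp)
      rw [Cfsg.Agent.Lib.Helper18.Cent.chi_beta (A := FTabG2.fd) (β := 9) (i₀ := 0) (by decide)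
        hcar (by decide) cc] at h
      exact h
    · exact absurd (Set.mem_singleton 1) hiJ

include hadd hinj in
/-- The centralizer of the short root involution `x_{2a+b}(1)` in `G₂(q)`, `q` even. -/
theorem cent9 (t : GL chevG2.Idx F)
    (ht : (t : Matrix chevG2.Idx chevG2.Idx F) = chevG2.x F 9 1) :
    chevG2.group F ⊓ Subgroup.centralizer {t} =
      chevG2.rootSubgroup F 9 ⊔ chevG2.rootSubgroup F 10 ⊔ chevG2.rootSubgroup F 11 ⊔
        chevG2.rootSubgroup F 6 ⊔ chevG2.rootSubgroup F 5 := by
  have hF := CAll.cfG2.af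
  have e : t = yS hF F [9, 10, 11] (c0 F [9]) := by
    have e1 : yS hF F [9, 10, 11] (c0 F [9]) = xg hF F 9 1 := by
      simp [yS, prodL, c0, xg_zero hadd hF]
    rw [e1]
    exact Units.ext (by rw [ht, coe_xg hF (by decide)])
  have hposv : ∀ r ∈ [6, 7, 8, 9, 10, 11], PosA FTabG2.fd r := fun r hr =>
    (posC_iff _).mp (List.all_eq_true.mp posv_ok r hr)
  rw [e, cent_eq CAll.cfG2 ChainAll.rG2 UAll.uG2 (by decide) hadd hinj (setupG2 hadd hinj)]
  apply le_antisymm
  · apply sup_le
    · unfold MJ
      rw [Subgroup.closure_le]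
      rintro g ⟨j, hj, hjl, c, rfl | rfl⟩
      · rw [Set.mem_singleton_iff] at hj
        subst hj
        rw [simple1]
        exact Subgroup.mem_sup_left (Subgroup.mem_sup_right
          (xg_mem_rootSubgroup hF (by decide) c))
      · rw [Set.mem_singleton_iff] at hj
        subst hj
        rw [simple1, neg6]
        exact Subgroup.mem_sup_right (xg_mem_rootSubgroup hF (by decide) c)
    · unfold Ugood
      rw [Subgroup.closure_le]
      rintro g ⟨r, hr, hpos, hbad, c, rfl⟩
      have hr12 : r < 12 := hr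
      have h6 := pos_ge hr12 hpos
      interval_cases r
      · exact Subgroup.mem_sup_left (Subgroup.mem_sup_right
          (xg_mem_rootSubgroup hF (by decide) c))
      · exact absurd (Or.inl rfl) hbad
      · exact absurd (Or.inr rfl) hbad
      · exact Subgroup.mem_sup_left (Subgroup.mem_sup_left (Subgroup.mem_sup_left
          (Subgroup.mem_sup_left (xg_mem_rootSubgroup hF (by decide) c))))
      · exact Subgroup.mem_sup_left (Subgroup.mem_sup_left (Subgroup.mem_sup_left
          (Subgroup.mem_sup_right (xg_mem_rootSubgroup hF (by decide) c))))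
      · exact Subgroup.mem_sup_left (Subgroup.mem_sup_left (Subgroup.mem_sup_right
          (xg_mem_rootSubgroup hF (by decide) c)))
  · have hg : ∀ r ∈ [6, 9, 10, 11], ∀ c : F,
        xg hF F r c ∈ MJ hF F ({1} : Set ℕ) ⊔ Ugood hF F (fun r => r = 7 ∨ r = 8) := by
      intro r hr c
      refine Subgroup.mem_sup_right (Subgroup.subset_closure ⟨r, ?_, ?_, ?_, c, rfl⟩)
      · simp only [List.mem_cons, List.not_mem_nil, or_false] at hr
        rcases hr with rfl | rfl | rfl | rfl <;> decide
      · apply hposv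
        simp only [List.mem_cons, List.not_mem_nil, or_false] at hr ⊢
        rcases hr with rfl | rfl | rfl | rfl <;> simp
      · simp only [List.mem_cons, List.not_mem_nil, or_false] at hr
        rcases hr with rfl | rfl | rfl | rfl <;> decide
    refine sup_le (sup_le (sup_le (sup_le ?_ ?_) ?_) ?_) ?_
    · exact rootSubgroup_le hF (by decide) (hg 9 (by simp))
    · exact rootSubgroup_le hF (by decide) (hg 10 (by simp))
    · exact rootSubgroup_le hF (by decide) (hg 11 (by simp))
    · exact rootSubgroup_le hF (by decide) (hg 6 (by simp))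
    · refine rootSubgroup_le hF (by decide) (fun c => ?_)
      refine Subgroup.mem_sup_left (Subgroup.subset_closure ⟨1, rfl, by decide, c, Or.inr ?_⟩)
      rw [simple1, neg6]

/-! ### The long root involution -/

set_option maxRecDepth 100000 in
theorem z1G2 : allB 12 (CentTab.chkZ1 FTabG2.fd 11) = true := by decide +kernel

set_option maxRecDepth 100000 in
theorem z2G2 : allB 2 (CentTab.chkZ2 FTabG2.fd 11 1) = true := by decide +kernel

set_option maxRecDepth 100000 in
theorem z3G2 : allB 2 (CentTab.chkZ3 FTabG2.fd 11 1) = true := by decide +kernel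

theorem zG2 : CentTab.ZFacts FTabG2.fd 11 1 :=
  CentTab.ZFacts.of_checks (by decide) (by decide) z1G2 z2G2 z3G2

theorem simple0 : FTabG2.fd.simple 0 = 7 := by decide +kernel

theorem neg7 : FTabG2.fd.neg 7 = 4 := by decide +kernel

include hadd hinj in
/-- The centralizer of the long root involution `x_{3a+2b}(1)` in `G₂(q)`, `q` even. -/
theorem cent11 (z : GL chevG2.Idx F)
    (hz : (z : Matrix chevG2.Idx chevG2.Idx F) = chevG2.x F 11 1) :
    chevG2.group F ⊓ Subgroup.centralizer {z} =
      chevG2.posUnipotent F ⊔ chevG2.rootSubgroup F 4 := by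
  rw [Cent2.cent_result CAll.cfG2 ChainAll.rG2 UAll.uG2 (by decide) hadd hinj zG2 [4] ?_ ?_ z hz]
  · congr 1
    unfold ChevalleyDatum.rootSubgroup
    congr 1
    ext g
    simp
  · intro s hs
    simp only [List.mem_cons, List.not_mem_nil, or_false] at hs
    subst hs
    exact ⟨0, by decide, by decide, by rw [simple0, neg7]⟩
  · intro j hj hne
    have hj2 : j < 2 := hj
    interval_cases j
    · rw [simple0, neg7]
      simp
    · exact absurd rfl hne

end

end Cfsg.Agent.Lib.Helper36.CentG2
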