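import Mathlib
import Cfsg.Agent.Lib.Helper36.CentG2
import Cfsg.Agent.Lib.Helper18.CentTab

set_option autoImplicit false
set_option linter.unusedSimpArgs false
set_option linter.unusedSectionVars false
set_option linter.unusedVariables false

/-!
The centralizers of the involutions `x_47(1) x_44(1)` and `x_39(1) x_45(1)` in `F₄(q)`, `q` even.
-/

namespace Cfsg.Agent.Lib.Helper36.CentF4

open Cfsg Cfsg.Lie Cfsg.Agent.Lib.Helper18.Fast Cfsg.Agent.Lib.Helper18.Grade
  Cfsg.Agent.Lib.Helper18.Facts Cfsg.Agent.Lib.Helper18.AllRoots Cfsg.Agent.Lib.Helper18.Loop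
  Cfsg.Agent.Lib.Helper18.Weyl Cfsg.Agent.Lib.Helper18.RootSys Cfsg.Agent.Lib.Helper18.Orbit
  Cfsg.Agent.Lib.Helper18.Units Cfsg.Agent.Lib.Helper18.Sub Cfsg.Agent.Lib.Helper18.Norm
  Cfsg.Agent.Lib.Helper18.HAll Cfsg.Agent.Lib.Helper18.Torus Cfsg.Agent.Lib.Helper18.Pos
  Cfsg.Agent.Lib.Helper18.WGroup Cfsg.Agent.Lib.Helper18.BNChev Cfsg.Agent.Lib.Helper18.Mono
  Cfsg.Agent.Lib.Helper18.BNPairC Cfsg.Agent.Lib.Helper18.UOrd Cfsg.Agent.Lib.Helper18.Cox
  Cfsg.Agent.Lib.Helper18.Long Cfsg.Agent.Lib.Helper18.Core Cfsg.Agent.Lib.Helper18.Conj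
  Cfsg.Agent.Lib.Helper18.RFact Cfsg.Agent.Lib.Helper18.BNCell Cfsg.Agent.Lib.Helper18.Vec
  Cfsg.Agent.Lib.Helper18.XMat Cfsg.Agent.Lib.Helper18.Cells Cfsg.Agent.Lib.Helper18.Cox2
  Cfsg.Agent.Lib.Helper18.Cells2 Cfsg.Agent.Lib.Helper18.Cox3 Cfsg.Agent.Lib.Helper18.HOrder
  Cfsg.Agent.Lib.Helper18.HOrderTab Cfsg.Agent.Lib.Helper18.Tri Cfsg.Agent.Lib.Helper18.Par
  Cfsg.Agent.Lib.Helper18.Par2 Cfsg.Agent.Lib.Helper18.Par3 Cfsg.Agent.Lib.Helper18.CommT
  Cfsg.Agent.Lib.Helper18.Poly2 Cfsg.Agent.Lib.Helper18.Cent Cfsg.Agent.Lib.Helper36.CentA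
  Cfsg.Agent.Lib.Helper36.CentB Cfsg.Agent.Lib.Helper36.CentC Cfsg.Agent.Lib.Helper36.CentD
  Cfsg.Agent.Lib.Helper36.CentE Cfsg.Agent.Lib.Helper18

/-- The short roots of `F₄`. -/
def lenF4 (r : ℕ) : ℕ :=
  if r ∈ [3, 7, 8, 9, 10, 11, 12, 13, 14, 18, 19, 20, 27, 28, 29, 33, 34, 35, 36, 37, 38, 39, 40,
    44] then 1 else 0

/-- The roots of the second orbit. -/
def S2 : List ℕ := [39, 45, 40, 44, 46, 47]

/-- The root of `S2` moved by the positive root `r` (`48` if there is none). -/
def mvF4 (r : ℕ) : ℕ :=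
  if r = 27 ∨ r = 34 then 39 else if r = 25 ∨ r = 26 then 45 else if r = 33 then 40
  else if r = 24 then 46 else 48

/-- The action of the positive root elements on the products over `S2`. -/
def actF4 {F : Type*} [Field F] (r : ℕ) (s : F) (c : ℕ → F) : ℕ → F :=
  if r = 27 then Function.update c 40 (c 40 + s * c 39)
  else if r = 34 then Function.update c 44 (c 44 + s * c 39)
  else if r = 25 then Function.update c 46 (c 46 + s * c 45)
  else if r = 26 then Function.update c 47 (c 47 + s * c 45)
  else if r = 33 then Function.update c 44 (c 44 + s * c 40)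
  else if r = 24 then Function.update c 47 (c 47 + s * c 46)
  else c

set_option maxRecDepth 100000 in
theorem odd_ok : allB 48 (fun δ => (List.range 4).any
    (fun i => decide (FTabF4.fd.car i δ % 2 = 1))) = true := by decide +kernel

set_option maxRecDepth 100000 in
theorem len_ok : allB 4 (fun i => allB 48
    (fun r => decide (lenF4 (WTabF4.X.W i r) = lenF4 r))) = true := by decide +kernel

set_option maxRecDepth 100000 in
theorem pos_ok : allB 48 (fun r => !(posC FTabF4.fd r) || decide (24 ≤ r)) = true := by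
  decide +kernel

set_option maxRecDepth 100000 in
theorem posv_ok : (List.range' 24 24).all (fun r => posC FTabF4.fd r) = true := by
  decide +kernel

set_option maxRecDepth 100000 in
theorem cf1_ok : [47, 44].all (fun ρ => [47, 44].all (fun ρ' => cf FTabF4.fd ρ ρ')) = true := by
  decide +kernel

set_option maxRecDepth 100000 in
theorem cf2_ok : S2.all (fun ρ => S2.all (fun ρ' => cf FTabF4.fd ρ ρ')) = true := by
  decide +kernel

set_option maxRecDepth 100000 in
theorem inert1_ok : allB 48 (fun r => !(posC FTabF4.fd r) ||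
    [47, 44].all (fun σ => decide (r = σ) || chkC2 FTabF4.fd r σ)) = true := by decide +kernel

set_option maxRecDepth 100000 in
theorem neg1_ok : [20, 22].all (fun r => [47, 44].all (fun σ => chkC2 FTabF4.fd r σ)) = true := by
  decide +kernel

set_option maxRecDepth 100000 in
theorem inert2_ok : allB 48 (fun r => !(posC FTabF4.fd r) ||
    S2.all (fun σ => decide (σ = mvF4 r) || decide (r = σ) || chkC2 FTabF4.fd r σ)) = true := by
  decide +kernel

set_option maxRecDepth 100000 in
theorem neg2_ok : [14, 23].all (fun r => [39, 45].all (fun σ => chkC2 FTabF4.fd r σ)) = true := by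
  decide +kernel

set_option maxRecDepth 100000 in
theorem mvc_ok : [(40, 27), (44, 34), (46, 25), (47, 26), (44, 33), (47, 24)].all
    (fun p => chkC2 FTabF4.fd p.1 p.2) = true := by decide +kernel

set_option maxRecDepth 100000 in
theorem orth_ok : [(40, 45), (44, 45), (39, 46), (40, 46), (44, 46), (39, 47), (40, 47),
    (44, 47)].all (fun p => !(cf FTabF4.fd (FTabF4.fd.neg p.1) p.2)) = true := by decide +kernel

set_option maxRecDepth 100000 in
theorem orth39 : cf FTabF4.fd 39 45 = true ∧ cf FTabF4.fd (FTabF4.fd.neg 39) 45 = true := by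
  decide +kernel

theorem hn48 : FTabF4.fd.n = 48 := rfl

theorem hrk4 : FTabF4.fd.rank = 4 := rfl

theorem hDF4 : chevF4 ∈ [chevG2, chevB2, chevD4, chevF4, chevE6, chevE7, chevE8] := by simp

theorem t3927 : chevF4.commTerms 39 27 = [(40, -1, 1, 1)] := by decide +kernel

theorem t3934 : chevF4.commTerms 39 34 = [(44, -1, 1, 1)] := by decide +kernel

theorem t4525 : chevF4.commTerms 45 25 = [(46, -1, 1, 1)] := by decide +kernel

theorem t4526 : chevF4.commTerms 45 26 = [(47, -1, 1, 1)] := by decide +kernel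

theorem t4033 : chevF4.commTerms 40 33 = [(44, -1, 1, 1)] := by decide +kernel

theorem t4624 : chevF4.commTerms 46 24 = [(47, -1, 1, 1)] := by decide +kernel

theorem posRootsF4 : chevF4.posRoots = [24, 25, 26, 27, 28, 29, 30, 31, 32, 33, 34, 35, 36, 37,
    38, 39, 40, 41, 42, 43, 44, 45, 46, 47] := by decide +kernel

theorem car_0_47 : FTabF4.fd.car 0 47 = 0 := by decide +kernel

theorem car_1_47 : FTabF4.fd.car 1 47 = 0 := by decide +kernel

theorem car_2_47 : FTabF4.fd.car 2 47 = 0 := by decide +kernel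

theorem car_3_47 : FTabF4.fd.car 3 47 = 1 := by decide +kernel

theorem car_0_44 : FTabF4.fd.car 0 44 = 1 := by decide +kernel

theorem car_1_44 : FTabF4.fd.car 1 44 = 0 := by decide +kernel

theorem car_2_44 : FTabF4.fd.car 2 44 = 0 := by decide +kernel

theorem car_3_44 : FTabF4.fd.car 3 44 = 0 := by decide +kernel

theorem car_0_39 : FTabF4.fd.car 0 39 = 0 := by decide +kernel

theorem car_1_39 : FTabF4.fd.car 1 39 = -1 := by decide +kernel

theorem car_2_39 : FTabF4.fd.car 2 39 = 1 := by decide +kernel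

theorem car_3_39 : FTabF4.fd.car 3 39 = 0 := by decide +kernel

theorem car_0_45 : FTabF4.fd.car 0 45 = 0 := by decide +kernel

theorem car_1_45 : FTabF4.fd.car 1 45 = 2 := by decide +kernel

theorem car_2_45 : FTabF4.fd.car 2 45 = -1 := by decide +kernel

theorem car_3_45 : FTabF4.fd.car 3 45 = 0 := by decide +kernel


theorem simple_0 : FTabF4.fd.simple 0 = 33 := by decide +kernel


theorem simple_1 : FTabF4.fd.simple 1 = 27 := by decide +kernel


theorem simple_2 : FTabF4.fd.simple 2 = 25 := by decide +kernel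


theorem simple_3 : FTabF4.fd.simple 3 = 24 := by decide +kernel


theorem neg_33 : FTabF4.fd.neg 33 = 14 := by decide +kernel


theorem neg_27 : FTabF4.fd.neg 27 = 20 := by decide +kernel


theorem neg_25 : FTabF4.fd.neg 25 = 22 := by decide +kernel


theorem neg_24 : FTabF4.fd.neg 24 = 23 := by decide +kernel

theorem mvc {ρ' r : ℕ}
    (h : (ρ', r) ∈ [(40, 27), (44, 34), (46, 25), (47, 26), (44, 33), (47, 24)]) :
    chkC2 FTabF4.fd ρ' r = true :=
  List.all_eq_true.mp mvc_ok (ρ', r) h

theorem S2_lt : ∀ σ ∈ S2, σ < 48 := by decide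

theorem S2_pos : ∀ σ ∈ S2, σ ∈ List.range' 24 24 := by decide

theorem mv_S2 : ∀ ρ ∈ S2, mvF4 ρ = 48 := by decide

theorem pos_ge {r : ℕ} (hr : r < 48) (hpos : PosA FTabF4.fd r) : 24 ≤ r := by
  have h := allB_imp pos_ok r hr
  rw [Bool.or_eq_true] at h
  rcases h with h | h
  · rw [(posC_iff r).mpr hpos] at h
    exact absurd h (by decide)
  · exact of_decide_eq_true h

theorem posA_of_mem {r : ℕ} (hr : r ∈ List.range' 24 24) : PosA FTabF4.fd r :=
  (posC_iff _).mp (List.all_eq_true.mp posv_ok r hr)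

theorem posA_of_ge {r : ℕ} (h1 : 24 ≤ r) (h2 : r < 48) : PosA FTabF4.fd r :=
  posA_of_mem (List.mem_range'_1.mpr ⟨h1, by omega⟩)

theorem hoddF4 {F : Type*} [Field F] [CharP F 2] :
    ∀ δ < FTabF4.fd.n, ∃ i < FTabF4.fd.rank, ((FTabF4.fd.car i δ : ℤ) : F) ≠ 0 := by
  intro δ hδ
  have h := allB_imp odd_ok δ hδ
  rw [List.any_eq_true] at h
  obtain ⟨i, hi, h⟩ := h
  exact ⟨i, List.mem_range.mp hi, cast_ne_zero_of_odd (of_decide_eq_true h)⟩

section

variable {F : Type*} [Field F] [CharP F 2]
  (hadd : ∀ r < chevF4.nroots, ∀ t u : F, chevF4.x F r t * chevF4.x F r u = chevF4.x F r (t + u))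
  (hinj : ∀ r < chevF4.nroots, ∀ t : F, chevF4.x F r t = 1 → t = 0)

include hadd in
theorem comm_or {r σ : ℕ} (hr : r < 48) (hσ : σ < 48)
    (h : (decide (r = σ) || chkC2 FTabF4.fd r σ) = true) (a b : F) :
    Commute (xg CAll.cfF4.af F r a) (xg CAll.cfF4.af F σ b) := by
  rw [Bool.or_eq_true] at h
  rcases h with h | h
  · have e : r = σ := of_decide_eq_true h
    subst e
    exact comm_self _ hadd _ a b
  · exact comm_of_chk _ hr hσ h a b

include hadd in
/-- The positive root elements commute with `x_47` and `x_44`. -/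
theorem inert1 {r : ℕ} (hr : r < 48) (hpos : PosA FTabF4.fd r) {σ : ℕ} (hσ : σ ∈ [47, 44])
    (a b : F) : Commute (xg CAll.cfF4.af F r a) (xg CAll.cfF4.af F σ b) := by
  have h := allB_imp inert1_ok r hr
  rw [Bool.or_eq_true] at h
  rcases h with h | h
  · rw [(posC_iff r).mpr hpos] at h
    exact absurd h (by decide)
  · have hσ48 : σ < 48 := by
      simp only [List.mem_cons, List.not_mem_nil, or_false] at hσ
      rcases hσ with rfl | rfl <;> decide
    exact comm_or hadd hr hσ48 (List.all_eq_true.mp h σ hσ) a b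

/-- The negative root elements of the Levi factor commute with `x_47` and `x_44`. -/
theorem neg1 {r : ℕ} (hr : r ∈ [20, 22]) {σ : ℕ} (hσ : σ ∈ [47, 44])
    (a b : F) : Commute (xg CAll.cfF4.af F r a) (xg CAll.cfF4.af F σ b) := by
  have h := List.all_eq_true.mp (List.all_eq_true.mp neg1_ok r hr) σ hσ
  have hσ48 : σ < 48 := by
    simp only [List.mem_cons, List.not_mem_nil, or_false] at hσ
    rcases hσ with rfl | rfl <;> decide
  have hr48 : r < 48 := by
    simp only [List.mem_cons, List.not_mem_nil, or_false] at hr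
    rcases hr with rfl | rfl <;> decide
  exact comm_of_chk _ hr48 hσ48 h a b

theorem posU_le_Ugood :
    chevF4.posUnipotent F ≤ Ugood CAll.cfF4.af F (fun _ => False) := by
  have hF := CAll.cfF4.af
  unfold ChevalleyDatum.posUnipotent Ugood
  rw [Subgroup.closure_le]
  rintro g ⟨r, t, hr, e⟩
  have hr' : r < FTabF4.fd.n := lt_n hF hr.1
  have hpos : PosA FTabF4.fd r := (posA_iff hF hr').mpr hr
  have hgx : g = xg hF F r t := Units.ext (by rw [e, coe_xg hF hr.1])
  exact Subgroup.subset_closure ⟨r, hr', hpos, fun h => h, t, hgx⟩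

theorem xg_mem_posU {r : ℕ} (hr : r < 48) (hpos : PosA FTabF4.fd r) (c : F) :
    xg CAll.cfF4.af F r c ∈ chevF4.posUnipotent F := by
  have hF := CAll.cfF4.af
  have hr' : r < FTabF4.fd.n := hr
  exact Subgroup.subset_closure ⟨r, c, (posA_iff hF hr').mp hpos, coe_xg hF (lt_nroots hF hr') c⟩

theorem Ugood_le_posU (Bad : ℕ → Prop) :
    Ugood CAll.cfF4.af F Bad ≤ chevF4.posUnipotent F := by
  unfold Ugood
  rw [Subgroup.closure_le]
  rintro g ⟨r, hr, hpos, -, c, rfl⟩
  exact xg_mem_posU hr hpos c

include hadd hinj in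
/-- The table facts for the centralizer of `x_47(1) x_44(1)`. -/
theorem setup1 : Setup CAll.cfF4 ChainAll.rF4 UAll.uF4 (by decide) F [47, 44] [47, 44]
    ({1, 2} : Set ℕ) (fun _ => False) (fun _ _ c => c) := by
  have hF := CAll.cfF4.af
  have hS : ∀ ρ ∈ [47, 44], ρ < FTabF4.fd.n := by
    intro ρ hρ
    simp only [List.mem_cons, List.not_mem_nil, or_false] at hρ
    rcases hρ with rfl | rfl <;> decide
  have hcfS : ∀ ρ ∈ [47, 44], ∀ ρ' ∈ [47, 44], cf FTabF4.fd ρ ρ' = true := by
    intro ρ hρ ρ' hρ'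
    exact List.all_eq_true.mp (List.all_eq_true.mp cf1_ok ρ hρ) ρ' hρ'
  refine ⟨hS, fun ρ h => h, by decide, hcfS, hoddF4, ?_, ?_, fun _ _ _ _ _ => rfl, ?_, ?_,
    fun _ _ _ _ h => h, fun u hu _ => posU_le_Ugood hu, ?_⟩
  · -- weyl
    intro wd hwd hV
    have h47 := hV 47 (by simp)
    have h44 := hV 44 (by simp)
    have hl47 := wperm_inv1 CAll.cfF4.wf lenF4
      (fun i hi r hr => of_decide_eq_true (allB_imp (allB_imp len_ok i hi) r hr)) hwd
      (r := 47) (by decide)
    have hl44 := wperm_inv1 CAll.cfF4.wf lenF4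
      (fun i hi r hr => of_decide_eq_true (allB_imp (allB_imp len_ok i hi) r hr)) hwd
      (r := 44) (by decide)
    have hfix47 : wperm WTabF4.X wd 47 = 47 := by
      simp only [List.mem_cons, List.not_mem_nil, or_false] at h47
      rcases h47 with h | h
      · exact h
      · rw [h] at hl47
        exact absurd hl47 (by decide)
    have hfix44 : wperm WTabF4.X wd 44 = 44 := by
      simp only [List.mem_cons, List.not_mem_nil, or_false] at h44
      rcases h44 with h | h
      · rw [h] at hl44
        exact absurd hl44 (by decide)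
      · exact h
    refine weyl_of_fix CAll.cfF4 ChainAll.rF4 UAll.uF4 (by decide)
      (triv CAll.cfF4 ChainAll.rF4 UAll.uF4 (by decide) hadd hinj) (lam1 := 47) (lam2 := 44)
      (by decide) (by decide) 1 1 ({1, 2} : Set ℕ) ?_ ?_ hwd hfix47 hfix44
    · intro j hj
      have hj4 : j < 4 := hj
      interval_cases j
      · rw [car_0_47, car_0_44]; decide
      · rw [car_1_47, car_1_44]; decide
      · rw [car_2_47, car_2_44]; decide
      · rw [car_3_47, car_3_44]; decide
    · intro j hj h
      have hj4 : j < 4 := hj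
      interval_cases j
      · rw [car_0_47, car_0_44] at h
        exact absurd h (by decide)
      · exact ⟨by simp, car_1_47, car_1_44⟩
      · exact ⟨by simp, car_2_47, car_2_44⟩
      · rw [car_3_47, car_3_44] at h
        exact absurd h (by decide)
  · -- actU
    intro r hr hpos s c
    exact act_inert _ (fun σ hσ s a => inert1 hadd hr hpos hσ s a) s c
  · -- commJ
    intro j hj hjl ρ hρ a b
    rw [Set.mem_insert_iff, Set.mem_singleton_iff] at hj
    rcases hj with rfl | rfl
    · rw [simple_1, neg_27]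
      exact ⟨inert1 hadd (by decide) (posA_of_ge (by decide) (by decide)) hρ a b,
        neg1 (by simp) hρ a b⟩
    · rw [simple_2, neg_25]
      exact ⟨inert1 hadd (by decide) (posA_of_ge (by decide) (by decide)) hρ a b,
        neg1 (by simp) hρ a b⟩
  · -- commGood
    intro r hr hpos _ ρ hρ a b
    exact inert1 hadd hr hpos hρ a b
  · -- tor
    intro cc hcc hchi i hi hiJ
    have hi4 : i < 4 := hi
    have hcar47 : ∀ i < FTabF4.fd.rank, FTabF4.fd.car i 47 = if i = 3 then 1 else 0 := by
      intro i hi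
      have hi4 : i < 4 := hi
      interval_cases i
      · exact car_0_47
      · exact car_1_47
      · exact car_2_47
      · exact car_3_47
    have hcar44 : ∀ i < FTabF4.fd.rank, FTabF4.fd.car i 44 = if i = 0 then 1 else 0 := by
      intro i hi
      have hi4 : i < 4 := hi
      interval_cases i
      · exact car_0_44
      · exact car_1_44
      · exact car_2_44
      · exact car_3_44
    interval_cases i
    · have h := hchi 44 (by simp)
      rw [Cfsg.Agent.Lib.Helper18.Cent.chi_beta (A := FTabF4.fd) (β := 44) (i₀ := 0) (by decide)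
        hcar44 (by decide) cc] at h
      exact h
    · exact absurd (by simp) hiJ
    · exact absurd (by simp) hiJ
    · have h := hchi 47 (by simp)
      rw [Cfsg.Agent.Lib.Helper18.Cent.chi_beta (A := FTabF4.fd) (β := 47) (i₀ := 3) (by decide)
        hcar47 (by decide) cc] at h
      exact h

include hadd hinj in
/-- The centralizer of the involution `x_47(1) x_44(1)` in `F₄(q)`, `q` even. -/
theorem cent_w (w : GL chevF4.Idx F)
    (hw : (w : Matrix chevF4.Idx chevF4.Idx F) = chevF4.x F 47 1 * chevF4.x F 44 1) :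
    chevF4.group F ⊓ Subgroup.centralizer {w} =
      chevF4.posUnipotent F ⊔ chevF4.rootSubgroup F 20 ⊔ chevF4.rootSubgroup F 22 := by
  have hF := CAll.cfF4.af
  have e : w = yS hF F [47, 44] (c0 F [47, 44]) := by
    have e1 : yS hF F [47, 44] (c0 F [47, 44]) = xg hF F 47 1 * xg hF F 44 1 := by
      simp [yS, prodL, c0]
    rw [e1]
    exact Units.ext (by rw [hw, Units.val_mul, coe_xg hF (by decide), coe_xg hF (by decide)])
  rw [e, cent_eq CAll.cfF4 ChainAll.rF4 UAll.uF4 (by decide) hadd hinj (setup1 hadd hinj)]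
  apply le_antisymm
  · apply sup_le
    · unfold MJ
      rw [Subgroup.closure_le]
      rintro g ⟨j, hj, hjl, c, rfl | rfl⟩
      · rw [Set.mem_insert_iff, Set.mem_singleton_iff] at hj
        rcases hj with rfl | rfl
        · rw [simple_1]
          exact Subgroup.mem_sup_left (Subgroup.mem_sup_left
            (xg_mem_posU (by decide) (posA_of_ge (by decide) (by decide)) c))
        · rw [simple_2]
          exact Subgroup.mem_sup_left (Subgroup.mem_sup_left
            (xg_mem_posU (by decide) (posA_of_ge (by decide) (by decide)) c))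
      · rw [Set.mem_insert_iff, Set.mem_singleton_iff] at hj
        rcases hj with rfl | rfl
        · rw [simple_1, neg_27]
          exact Subgroup.mem_sup_left (Subgroup.mem_sup_right
            (xg_mem_rootSubgroup hF (by decide) c))
        · rw [simple_2, neg_25]
          exact Subgroup.mem_sup_right (xg_mem_rootSubgroup hF (by decide) c)
    · exact le_trans (Ugood_le_posU _) (le_trans le_sup_left le_sup_left)
  · refine sup_le (sup_le ?_ ?_) ?_
    · exact le_trans posU_le_Ugood le_sup_right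
    · refine rootSubgroup_le hF (by decide) (fun c => ?_)
      refine Subgroup.mem_sup_left (Subgroup.subset_closure
        ⟨1, by simp, by decide, c, Or.inr ?_⟩)
      rw [simple_1, neg_27]
    · refine rootSubgroup_le hF (by decide) (fun c => ?_)
      refine Subgroup.mem_sup_left (Subgroup.subset_closure
        ⟨2, by simp, by decide, c, Or.inr ?_⟩)
      rw [simple_2, neg_25]


/-! ### The second class -/

include hadd in
/-- The positive root elements commute with the root elements of `S2` which they do not move. -/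
theorem inert2 {r : ℕ} (hr : r < 48) (hpos : PosA FTabF4.fd r) {σ : ℕ} (hσ : σ ∈ S2)
    (hne : σ ≠ mvF4 r) (a b : F) :
    Commute (xg CAll.cfF4.af F r a) (xg CAll.cfF4.af F σ b) := by
  have h := allB_imp inert2_ok r hr
  rw [Bool.or_eq_true] at h
  rcases h with h | h
  · rw [(posC_iff r).mpr hpos] at h
    exact absurd h (by decide)
  · have h2 := List.all_eq_true.mp h σ hσ
    rw [Bool.or_assoc, Bool.or_eq_true] at h2
    rcases h2 with h2 | h2
    · exact absurd (of_decide_eq_true h2) hne
    · exact comm_or hadd hr (S2_lt σ hσ) h2 a b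

include hadd in
/-- The root elements of the roots in `S2` commute. -/
theorem scomm2 : ∀ ρ ∈ S2, ∀ ρ' ∈ S2, ∀ a b : F,
    Commute (xg CAll.cfF4.af F ρ a) (xg CAll.cfF4.af F ρ' b) := by
  intro ρ hρ ρ' hρ' a b
  refine inert2 hadd (S2_lt ρ hρ) (posA_of_mem (S2_pos ρ hρ)) hρ' ?_ a b
  rw [mv_S2 ρ hρ]
  exact Nat.ne_of_lt (S2_lt ρ' hρ')

/-- The negative root elements of the Levi factor commute with `x_39` and `x_45`. -/
theorem neg2 {r : ℕ} (hr : r ∈ [14, 23]) {σ : ℕ} (hσ : σ ∈ [39, 45])
    (a b : F) : Commute (xg CAll.cfF4.af F r a) (xg CAll.cfF4.af F σ b) := by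
  have h := List.all_eq_true.mp (List.all_eq_true.mp neg2_ok r hr) σ hσ
  have hσ48 : σ < 48 := by
    simp only [List.mem_cons, List.not_mem_nil, or_false] at hσ
    rcases hσ with rfl | rfl <;> decide
  have hr48 : r < 48 := by
    simp only [List.mem_cons, List.not_mem_nil, or_false] at hr
    rcases hr with rfl | rfl <;> decide
  exact comm_of_chk _ hr48 hσ48 h a b

theorem mv27 (s a : F) :
    xg CAll.cfF4.af F 27 s * xg CAll.cfF4.af F 39 a * (xg CAll.cfF4.af F 27 s)⁻¹ =
      xg CAll.cfF4.af F 39 a * xg CAll.cfF4.af F 40 (s * a) :=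
  move_rel CAll.cfF4.af (by decide) (by decide) (by decide)
    (hcw_of_terms chevF4 (by decide) t3927 (fun a s =>
      Cfsg.Agent.Lib.Helper36.ChevCommAll.comm chevF4 hDF4 39 27 (by decide) (by decide)
        (by decide) (by decide) a s)) (mvc (by decide)) s a

theorem mv34 (s a : F) :
    xg CAll.cfF4.af F 34 s * xg CAll.cfF4.af F 39 a * (xg CAll.cfF4.af F 34 s)⁻¹ =
      xg CAll.cfF4.af F 39 a * xg CAll.cfF4.af F 44 (s * a) :=
  move_rel CAll.cfF4.af (by decide) (by decide) (by decide)
    (hcw_of_terms chevF4 (by decide) t3934 (fun a s =>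
      Cfsg.Agent.Lib.Helper36.ChevCommAll.comm chevF4 hDF4 39 34 (by decide) (by decide)
        (by decide) (by decide) a s)) (mvc (by decide)) s a

theorem mv25 (s a : F) :
    xg CAll.cfF4.af F 25 s * xg CAll.cfF4.af F 45 a * (xg CAll.cfF4.af F 25 s)⁻¹ =
      xg CAll.cfF4.af F 45 a * xg CAll.cfF4.af F 46 (s * a) :=
  move_rel CAll.cfF4.af (by decide) (by decide) (by decide)
    (hcw_of_terms chevF4 (by decide) t4525 (fun a s =>
      Cfsg.Agent.Lib.Helper36.ChevCommAll.comm chevF4 hDF4 45 25 (by decide) (by decide)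
        (by decide) (by decide) a s)) (mvc (by decide)) s a

theorem mv26 (s a : F) :
    xg CAll.cfF4.af F 26 s * xg CAll.cfF4.af F 45 a * (xg CAll.cfF4.af F 26 s)⁻¹ =
      xg CAll.cfF4.af F 45 a * xg CAll.cfF4.af F 47 (s * a) :=
  move_rel CAll.cfF4.af (by decide) (by decide) (by decide)
    (hcw_of_terms chevF4 (by decide) t4526 (fun a s =>
      Cfsg.Agent.Lib.Helper36.ChevCommAll.comm chevF4 hDF4 45 26 (by decide) (by decide)
        (by decide) (by decide) a s)) (mvc (by decide)) s a

theorem mv33 (s a : F) :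
    xg CAll.cfF4.af F 33 s * xg CAll.cfF4.af F 40 a * (xg CAll.cfF4.af F 33 s)⁻¹ =
      xg CAll.cfF4.af F 40 a * xg CAll.cfF4.af F 44 (s * a) :=
  move_rel CAll.cfF4.af (by decide) (by decide) (by decide)
    (hcw_of_terms chevF4 (by decide) t4033 (fun a s =>
      Cfsg.Agent.Lib.Helper36.ChevCommAll.comm chevF4 hDF4 40 33 (by decide) (by decide)
        (by decide) (by decide) a s)) (mvc (by decide)) s a

theorem mv24 (s a : F) :
    xg CAll.cfF4.af F 24 s * xg CAll.cfF4.af F 46 a * (xg CAll.cfF4.af F 24 s)⁻¹ =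
      xg CAll.cfF4.af F 46 a * xg CAll.cfF4.af F 47 (s * a) :=
  move_rel CAll.cfF4.af (by decide) (by decide) (by decide)
    (hcw_of_terms chevF4 (by decide) t4624 (fun a s =>
      Cfsg.Agent.Lib.Helper36.ChevCommAll.comm chevF4 hDF4 46 24 (by decide) (by decide)
        (by decide) (by decide) a s)) (mvc (by decide)) s a

include hadd in
/-- The action of the positive root elements on the products over `S2`. -/
theorem actU_F4 : ∀ r < FTabF4.fd.n, PosA FTabF4.fd r → ∀ (s : F) (c : ℕ → F),
    xg CAll.cfF4.af F r s * yS CAll.cfF4.af F S2 c * (xg CAll.cfF4.af F r s)⁻¹ =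
      yS CAll.cfF4.af F S2 (actF4 r s c) := by
  intro r hr hpos s c
  have hr48 : r < 48 := hr
  have hnd : S2.Nodup := by decide
  by_cases h27 : r = 27
  · subst h27
    have e : actF4 27 s c = Function.update c 40 (c 40 + s * c 39) := rfl
    have em : mvF4 27 = 39 := by decide
    rw [e]
    exact act_single _ hadd hnd (scomm2 hadd) (ρ := 39) (ρ' := 40) (by decide) (by decide) mv27
      (fun σ hσ hne s a => inert2 hadd hr48 hpos hσ (by rw [em]; exact hne) s a) s c
  by_cases h34 : r = 34
  · subst h34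
    have e : actF4 34 s c = Function.update c 44 (c 44 + s * c 39) := rfl
    have em : mvF4 34 = 39 := by decide
    rw [e]
    exact act_single _ hadd hnd (scomm2 hadd) (ρ := 39) (ρ' := 44) (by decide) (by decide) mv34
      (fun σ hσ hne s a => inert2 hadd hr48 hpos hσ (by rw [em]; exact hne) s a) s c
  by_cases h25 : r = 25
  · subst h25
    have e : actF4 25 s c = Function.update c 46 (c 46 + s * c 45) := rfl
    have em : mvF4 25 = 45 := by decide
    rw [e]
    exact act_single _ hadd hnd (scomm2 hadd) (ρ := 45) (ρ' := 46) (by decide) (by decide) mv25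
      (fun σ hσ hne s a => inert2 hadd hr48 hpos hσ (by rw [em]; exact hne) s a) s c
  by_cases h26 : r = 26
  · subst h26
    have e : actF4 26 s c = Function.update c 47 (c 47 + s * c 45) := rfl
    have em : mvF4 26 = 45 := by decide
    rw [e]
    exact act_single _ hadd hnd (scomm2 hadd) (ρ := 45) (ρ' := 47) (by decide) (by decide) mv26
      (fun σ hσ hne s a => inert2 hadd hr48 hpos hσ (by rw [em]; exact hne) s a) s c
  by_cases h33 : r = 33
  · subst h33
    have e : actF4 33 s c = Function.update c 44 (c 44 + s * c 40) := rfl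
    have em : mvF4 33 = 40 := by decide
    rw [e]
    exact act_single _ hadd hnd (scomm2 hadd) (ρ := 40) (ρ' := 44) (by decide) (by decide) mv33
      (fun σ hσ hne s a => inert2 hadd hr48 hpos hσ (by rw [em]; exact hne) s a) s c
  by_cases h24 : r = 24
  · subst h24
    have e : actF4 24 s c = Function.update c 47 (c 47 + s * c 46) := rfl
    have em : mvF4 24 = 46 := by decide
    rw [e]
    exact act_single _ hadd hnd (scomm2 hadd) (ρ := 46) (ρ' := 47) (by decide) (by decide) mv24
      (fun σ hσ hne s a => inert2 hadd hr48 hpos hσ (by rw [em]; exact hne) s a) s c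
  have e : actF4 r s c = c := by
    simp [actF4, h27, h34, h25, h26, h33, h24]
  have em : mvF4 r = 48 := by
    simp [mvF4, h27, h34, h25, h26, h33, h24]
  rw [e]
  refine act_inert _ (fun σ hσ s a => inert2 hadd hr48 hpos hσ ?_ s a) s c
  rw [em]
  exact Nat.ne_of_lt (S2_lt σ hσ)


/-- The positive roots of `F₄`. -/
def posL : List ℕ := [24, 25, 26, 27, 28, 29, 30, 31, 32, 33, 34, 35, 36, 37,
    38, 39, 40, 41, 42, 43, 44, 45, 46, 47]

theorem posRootsF4' : chevF4.posRoots = posL := posRootsF4

theorem chi39 (cc : ℕ → F) : chi FTabF4.fd cc 39 = (cc 1)⁻¹ * cc 2 := by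
  have h : (39 : ℕ) < FTabF4.fd.n := by decide
  unfold chi chiN
  rw [hrk4]
  simp only [Finset.prod_range_succ, Finset.prod_range_zero, carE, if_pos h, car_0_39, car_1_39,
    car_2_39, car_3_39]
  simp

theorem chi45 (cc : ℕ → F) : chi FTabF4.fd cc 45 = cc 1 * cc 1 * (cc 2)⁻¹ := by
  have h : (45 : ℕ) < FTabF4.fd.n := by decide
  unfold chi chiN
  rw [hrk4]
  simp only [Finset.prod_range_succ, Finset.prod_range_zero, carE, if_pos h, car_0_45, car_1_45,
    car_2_45, car_3_45]
  have e : cc 1 ^ (2 : ℤ) = cc 1 * cc 1 := by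
    rw [show (2 : ℤ) = ((2 : ℕ) : ℤ) from rfl, zpow_natCast, pow_two]
  rw [e]
  simp

theorem cor_27_1 : FTabF4.fd.cor 27 1 ≠ 0 := by decide +kernel

theorem cor_25_2 : FTabF4.fd.cor 25 2 ≠ 0 := by decide +kernel

theorem cor_34_1 : FTabF4.fd.cor 34 1 ≠ 0 := by decide +kernel

theorem cor_26_2 : FTabF4.fd.cor 26 2 ≠ 0 := by decide +kernel

theorem act_val (r : ℕ) (s : F) (c : ℕ → F) (ρ : ℕ) : actF4 r s c ρ =
    if r = 27 ∧ ρ = 40 then c 40 + s * c 39
    else if r = 34 ∧ ρ = 44 then c 44 + s * c 39
    else if r = 25 ∧ ρ = 46 then c 46 + s * c 45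
    else if r = 26 ∧ ρ = 47 then c 47 + s * c 45
    else if r = 33 ∧ ρ = 44 then c 44 + s * c 40
    else if r = 24 ∧ ρ = 47 then c 47 + s * c 46
    else c ρ := by
  unfold actF4
  by_cases h27 : r = 27
  · subst h27
    by_cases h : ρ = 40
    · subst h; simp
    · simp [h, Function.update]
  by_cases h34 : r = 34
  · subst h34
    by_cases h : ρ = 44
    · subst h; simp
    · simp [h, Function.update]
  by_cases h25 : r = 25
  · subst h25
    by_cases h : ρ = 46
    · subst h; simp
    · simp [h, Function.update]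
  by_cases h26 : r = 26
  · subst h26
    by_cases h : ρ = 47
    · subst h; simp
    · simp [h, Function.update]
  by_cases h33 : r = 33
  · subst h33
    by_cases h : ρ = 44
    · subst h; simp
    · simp [h, Function.update]
  by_cases h24 : r = 24
  · subst h24
    by_cases h : ρ = 47
    · subst h; simp
    · simp [h, Function.update]
  simp [h27, h34, h25, h26, h33, h24]

set_option maxRecDepth 100000 in
theorem fold_unf (t : ℕ → F) (c : ℕ → F) :
    List.foldr (fun (p : ℕ × F) c => actF4 p.1 p.2 c) c (posL.map (fun r => (r, t r))) =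
    actF4 24 (t 24) (actF4 25 (t 25) (actF4 26 (t 26) (actF4 27 (t 27) (actF4 28 (t 28)
    (actF4 29 (t 29) (actF4 30 (t 30) (actF4 31 (t 31) (actF4 32 (t 32) (actF4 33 (t 33)
    (actF4 34 (t 34) (actF4 35 (t 35) (actF4 36 (t 36) (actF4 37 (t 37) (actF4 38 (t 38)
    (actF4 39 (t 39) (actF4 40 (t 40) (actF4 41 (t 41) (actF4 42 (t 42) (actF4 43 (t 43)
    (actF4 44 (t 44) (actF4 45 (t 45) (actF4 46 (t 46) (actF4 47 (t 47) c)))))))))))))))))))))))
    := rfl

theorem fold40 (t : ℕ → F) : (List.foldr (fun (p : ℕ × F) c => actF4 p.1 p.2 c) (c0 F [39, 45])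
    (posL.map (fun r => (r, t r)))) 40 = t 27 := by
  rw [fold_unf]
  simp [act_val, c0]

theorem fold44 (t : ℕ → F) : (List.foldr (fun (p : ℕ × F) c => actF4 p.1 p.2 c) (c0 F [39, 45])
    (posL.map (fun r => (r, t r)))) 44 = t 34 := by
  rw [fold_unf]
  simp [act_val, c0]

theorem fold46 (t : ℕ → F) : (List.foldr (fun (p : ℕ × F) c => actF4 p.1 p.2 c) (c0 F [39, 45])
    (posL.map (fun r => (r, t r)))) 46 = t 25 := by
  rw [fold_unf]
  simp [act_val, c0]

theorem fold47 (t : ℕ → F) : (List.foldr (fun (p : ℕ × F) c => actF4 p.1 p.2 c) (c0 F [39, 45])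
    (posL.map (fun r => (r, t r)))) 47 = t 26 + t 24 * t 25 := by
  rw [fold_unf]
  simp [act_val, c0]


include hadd hinj in
/-- The table facts for the centralizer of `x_39(1) x_45(1)`. -/
theorem setup2 : Setup CAll.cfF4 ChainAll.rF4 UAll.uF4 (by decide) F S2 [39, 45]
    ({0, 3} : Set ℕ) (fun r => r ∈ [27, 25, 34, 26]) actF4 := by
  have hF := CAll.cfF4.af
  have hS : ∀ ρ ∈ S2, ρ < FTabF4.fd.n := S2_lt
  have hcfS : ∀ ρ ∈ S2, ∀ ρ' ∈ S2, cf FTabF4.fd ρ ρ' = true := by
    intro ρ hρ ρ' hρ'
    exact List.all_eq_true.mp (List.all_eq_true.mp cf2_ok ρ hρ) ρ' hρ'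
  have hV0 : ∀ ρ ∈ [39, 45], ρ ∈ S2 := by decide
  refine ⟨hS, hV0, by decide, hcfS, hoddF4, ?_, actU_F4 hadd, ?_, ?_, ?_, ?_, ?_, ?_⟩
  · -- weyl
    intro wd hwd hV
    have h39 := hV 39 (by simp)
    have h45 := hV 45 (by simp)
    have hl39 := wperm_inv1 CAll.cfF4.wf lenF4
      (fun i hi r hr => of_decide_eq_true (allB_imp (allB_imp len_ok i hi) r hr)) hwd
      (r := 39) (by decide)
    have hl45 := wperm_inv1 CAll.cfF4.wf lenF4
      (fun i hi r hr => of_decide_eq_true (allB_imp (allB_imp len_ok i hi) r hr)) hwd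
      (r := 45) (by decide)
    have hc2 := cf_wperm CAll.cfF4.af CAll.cfF4.wf hwd (r := FTabF4.fd.neg 39) (s := 45)
      (by decide) (by decide) orth39.2
    rw [wperm_neg CAll.cfF4.af CAll.cfF4.wf hwd (by decide)] at hc2
    have hfix : wperm WTabF4.X wd 39 = 39 ∧ wperm WTabF4.X wd 45 = 45 := by
      unfold S2 at h39 h45
      simp only [List.mem_cons, List.not_mem_nil, or_false] at h39 h45
      rcases h39 with h | h | h | h | h | h <;> rcases h45 with h' | h' | h' | h' | h' | h'
      all_goals first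
        | exact ⟨h, h'⟩
        | (rw [h] at hl39; exact absurd hl39 (by decide))
        | (rw [h'] at hl45; exact absurd hl45 (by decide))
        | (rw [h, h'] at hc2; exact absurd hc2 (by decide +kernel))
    refine weyl_of_fix CAll.cfF4 ChainAll.rF4 UAll.uF4 (by decide)
      (triv CAll.cfF4 ChainAll.rF4 UAll.uF4 (by decide) hadd hinj) (lam1 := 39) (lam2 := 45)
      (by decide) (by decide) 3 2 ({0, 3} : Set ℕ) ?_ ?_ hwd hfix.1 hfix.2
    · intro j hj
      have hj4 : j < 4 := hj
      interval_cases j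
      · rw [car_0_39, car_0_45]; decide
      · rw [car_1_39, car_1_45]; decide
      · rw [car_2_39, car_2_45]; decide
      · rw [car_3_39, car_3_45]; decide
    · intro j hj h
      have hj4 : j < 4 := hj
      interval_cases j
      · exact ⟨by simp, car_0_39, car_0_45⟩
      · rw [car_1_39, car_1_45] at h
        exact absurd h (by decide)
      · rw [car_2_39, car_2_45] at h
        exact absurd h (by decide)
      · exact ⟨by simp, car_3_39, car_3_45⟩
  · -- actV0
    intro r s c ρ hρ
    simp only [List.mem_cons, List.not_mem_nil, or_false] at hρ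
    rw [act_val]
    rcases hρ with rfl | rfl <;> simp
  · -- commJ
    intro j hj hjl ρ hρ a b
    rw [Set.mem_insert_iff, Set.mem_singleton_iff] at hj
    have hρ2 : ρ ∈ S2 := hV0 ρ hρ
    rcases hj with rfl | rfl
    · rw [simple_0, neg_33]
      refine ⟨inert2 hadd (by decide) (posA_of_ge (by decide) (by decide)) hρ2 ?_ a b,
        neg2 (by simp) hρ a b⟩
      simp only [List.mem_cons, List.not_mem_nil, or_false] at hρ
      rcases hρ with rfl | rfl <;> decide
    · rw [simple_3, neg_24]
      refine ⟨inert2 hadd (by decide) (posA_of_ge (by decide) (by decide)) hρ2 ?_ a b,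
        neg2 (by simp) hρ a b⟩
      simp only [List.mem_cons, List.not_mem_nil, or_false] at hρ
      rcases hρ with rfl | rfl <;> decide
  · -- commGood
    intro r hr hpos hbad ρ hρ a b
    refine inert2 hadd hr hpos (hV0 ρ hρ) ?_ a b
    simp only [List.mem_cons, List.not_mem_nil, or_false] at hρ hbad
    unfold mvF4
    split_ifs with h1 h2 h3 h4
    · exact absurd (by tauto) hbad
    · exact absurd (by tauto) hbad
    · rcases hρ with rfl | rfl <;> decide
    · rcases hρ with rfl | rfl <;> decide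
    · rcases hρ with rfl | rfl <;> decide
  · -- goodJ
    intro r hr hpos hJ hbad
    simp only [List.mem_cons, List.not_mem_nil, or_false] at hbad
    have h1 := hJ 1 (by decide) (by simp)
    have h2 := hJ 2 (by decide) (by simp)
    rcases hbad with rfl | rfl | rfl | rfl
    · exact cor_27_1 h1
    · exact cor_25_2 h2
    · exact cor_34_1 h1
    · exact cor_26_2 h2
  · -- centU
    intro u hu hcomm
    have hUF := Cfsg.Agent.Lib.Helper36.ChevUAll.facts (F := F) chevF4 hDF4
    obtain ⟨t, ht⟩ := Cfsg.Agent.Lib.Helper36.ChevU.exists_prod chevF4 hUF u hu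
    rw [posRootsF4'] at ht
    have hlt : ∀ r ∈ posL, r < FTabF4.fd.n := by decide
    have hposL : ∀ r ∈ posL, r ∈ List.range' 24 24 := by decide
    have hL : ∀ p ∈ posL.map (fun r => (r, t r)), p.1 < FTabF4.fd.n := by
      intro p hp
      obtain ⟨r, hr, rfl⟩ := List.mem_map.mp hp
      exact hlt r hr
    have hLpos : ∀ p ∈ posL.map (fun r => (r, t r)), PosA FTabF4.fd p.1 := by
      intro p hp
      obtain ⟨r, hr, rfl⟩ := List.mem_map.mp hp
      exact posA_of_mem (hposL r hr)
    have hu_eq : u = prodL hF F (posL.map (fun r => (r, t r))) :=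
      Units.ext (by rw [ht, coe_prodL hF _ hL])
    have hconj := conj_prodL_yS hF (S := S2) (act := actF4)
      (posL.map (fun r => (r, t r)))
      (fun p hp c => actU_F4 hadd p.1 (hL p hp) (hLpos p hp) p.2 c) (c0 F [39, 45])
    rw [← hu_eq, hcomm.eq, mul_inv_cancel_right] at hconj
    have hnd : ((S2 : List ℕ).map (fun ρ => ρ)).Nodup := by decide
    have key : ∀ ρ ∈ S2, c0 F [39, 45] ρ =
        (List.foldr (fun (p : ℕ × F) c => actF4 p.1 p.2 c) (c0 F [39, 45])
          (posL.map (fun r => (r, t r)))) ρ := by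
      intro ρ hρ
      exact coef_eq_of_prodL_eq hF (yS_lt hS _ (fun _ => rfl)) (yS_cf hcfS _ (fun _ => rfl))
        (yS_lt hS _ (fun _ => rfl)) (yS_cf hcfS _ (fun _ => rfl))
        (by rw [List.map_map]; exact hnd) (by rw [List.map_map]; exact hnd) hconj
        (List.mem_map.mpr ⟨ρ, hρ, rfl⟩) (List.mem_map.mpr ⟨ρ, hρ, rfl⟩) (hoddF4 ρ (hS ρ hρ))
    have h40 := key 40 (by decide)
    have h44 := key 44 (by decide)
    have h46 := key 46 (by decide)
    have h47 := key 47 (by decide)
    rw [fold40] at h40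
    rw [fold44] at h44
    rw [fold46] at h46
    rw [fold47] at h47
    have z40 : c0 F [39, 45] 40 = 0 := by simp [c0]
    have z44 : c0 F [39, 45] 44 = 0 := by simp [c0]
    have z46 : c0 F [39, 45] 46 = 0 := by simp [c0]
    have z47 : c0 F [39, 45] 47 = 0 := by simp [c0]
    have h27 : t 27 = 0 := by rw [← h40, z40]
    have h34 : t 34 = 0 := by rw [← h44, z44]
    have h25 : t 25 = 0 := by rw [← h46, z46]
    have h26 : t 26 = 0 := by
      rw [z47, h25, mul_zero, add_zero] at h47
      exact h47.symm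
    rw [hu_eq]
    apply CentG2.prodL_mem
    intro p hp
    obtain ⟨r, hr, rfl⟩ := List.mem_map.mp hp
    have hpos : PosA FTabF4.fd r := posA_of_mem (hposL r hr)
    by_cases hbad : r ∈ [27, 25, 34, 26]
    · simp only [List.mem_cons, List.not_mem_nil, or_false] at hbad
      rcases hbad with rfl | rfl | rfl | rfl
      · show xg hF F 27 (t 27) ∈ _
        rw [h27, xg_zero hadd]
        exact Subgroup.one_mem _
      · show xg hF F 25 (t 25) ∈ _
        rw [h25, xg_zero hadd]
        exact Subgroup.one_mem _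
      · show xg hF F 34 (t 34) ∈ _
        rw [h34, xg_zero hadd]
        exact Subgroup.one_mem _
      · show xg hF F 26 (t 26) ∈ _
        rw [h26, xg_zero hadd]
        exact Subgroup.one_mem _
    · exact Subgroup.subset_closure ⟨r, hlt r hr, hpos, hbad, t r, rfl⟩
  · -- tor
    intro cc hcc hchi i hi hiJ
    have hi4 : i < 4 := hi
    have h1 := hchi 39 (by simp)
    have h2 := hchi 45 (by simp)
    rw [chi39] at h1
    rw [chi45] at h2
    have e21 : cc 1 = cc 2 := (inv_mul_eq_one₀ (hcc 1)).mp h1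
    rw [← e21] at h2
    have e1 : cc 1 = 1 := by
      have h3 : cc 1 * cc 1 * (cc 1)⁻¹ = cc 1 := mul_inv_cancel_right₀ (hcc 1) (cc 1)
      rw [h3] at h2
      exact h2
    interval_cases i
    · exact absurd (by simp) hiJ
    · exact e1
    · rw [← e21]
      exact e1
    · exact absurd (by simp) hiJ

include hadd hinj in
/-- The centralizer of the involution `x_39(1) x_45(1)` in `F₄(q)`, `q` even. -/
theorem cent_v (v : GL chevF4.Idx F)
    (hv : (v : Matrix chevF4.Idx chevF4.Idx F) = chevF4.x F 39 1 * chevF4.x F 45 1) :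
    chevF4.group F ⊓ Subgroup.centralizer {v} =
      chevF4.rootSubgroup F 33 ⊔ chevF4.rootSubgroup F 14 ⊔ chevF4.rootSubgroup F 24 ⊔
        chevF4.rootSubgroup F 23 ⊔
      Subgroup.closure {g : GL chevF4.Idx F | ∃ (r : ℕ) (c : F), chevF4.IsPosRoot r ∧
        r ∉ [27, 25, 34, 26] ∧ (g : Matrix chevF4.Idx chevF4.Idx F) = chevF4.x F r c} := by
  have hF := CAll.cfF4.af
  have e : v = yS hF F S2 (c0 F [39, 45]) := by
    have e1 : yS hF F S2 (c0 F [39, 45]) = xg hF F 39 1 * xg hF F 45 1 := by
      simp [yS, S2, prodL, c0, xg_zero hadd hF]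
    rw [e1]
    exact Units.ext (by rw [hv, Units.val_mul, coe_xg hF (by decide), coe_xg hF (by decide)])
  rw [e, cent_eq CAll.cfF4 ChainAll.rF4 UAll.uF4 (by decide) hadd hinj (setup2 hadd hinj)]
  apply le_antisymm
  · apply sup_le
    · unfold MJ
      rw [Subgroup.closure_le]
      rintro g ⟨j, hj, hjl, c, rfl | rfl⟩
      · rw [Set.mem_insert_iff, Set.mem_singleton_iff] at hj
        rcases hj with rfl | rfl
        · rw [simple_0]
          exact Subgroup.mem_sup_left (Subgroup.mem_sup_left (Subgroup.mem_sup_left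
            (Subgroup.mem_sup_left (xg_mem_rootSubgroup hF (by decide) c))))
        · rw [simple_3]
          exact Subgroup.mem_sup_left (Subgroup.mem_sup_left (Subgroup.mem_sup_right
            (xg_mem_rootSubgroup hF (by decide) c)))
      · rw [Set.mem_insert_iff, Set.mem_singleton_iff] at hj
        rcases hj with rfl | rfl
        · rw [simple_0, neg_33]
          exact Subgroup.mem_sup_left (Subgroup.mem_sup_left (Subgroup.mem_sup_left
            (Subgroup.mem_sup_right (xg_mem_rootSubgroup hF (by decide) c))))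
        · rw [simple_3, neg_24]
          exact Subgroup.mem_sup_left (Subgroup.mem_sup_right
            (xg_mem_rootSubgroup hF (by decide) c))
    · unfold Ugood
      rw [Subgroup.closure_le]
      rintro g ⟨r, hr, hpos, hbad, c, rfl⟩
      exact Subgroup.mem_sup_right (Subgroup.subset_closure
        ⟨r, c, (posA_iff hF hr).mp hpos, hbad, coe_xg hF (lt_nroots hF hr) c⟩)
  · refine sup_le (sup_le (sup_le (sup_le ?_ ?_) ?_) ?_) ?_
    · refine rootSubgroup_le hF (by decide) (fun c => ?_)
      refine Subgroup.mem_sup_left (Subgroup.subset_closure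
        ⟨0, by simp, by decide, c, Or.inl ?_⟩)
      rw [simple_0]
    · refine rootSubgroup_le hF (by decide) (fun c => ?_)
      refine Subgroup.mem_sup_left (Subgroup.subset_closure
        ⟨0, by simp, by decide, c, Or.inr ?_⟩)
      rw [simple_0, neg_33]
    · refine rootSubgroup_le hF (by decide) (fun c => ?_)
      refine Subgroup.mem_sup_left (Subgroup.subset_closure
        ⟨3, by simp, by decide, c, Or.inl ?_⟩)
      rw [simple_3]
    · refine rootSubgroup_le hF (by decide) (fun c => ?_)
      refine Subgroup.mem_sup_left (Subgroup.subset_closure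
        ⟨3, by simp, by decide, c, Or.inr ?_⟩)
      rw [simple_3, neg_24]
    · rw [Subgroup.closure_le]
      rintro g ⟨r, c, hr, hbad, e⟩
      have hr' : r < FTabF4.fd.n := lt_n hF hr.1
      have hpos : PosA FTabF4.fd r := (posA_iff hF hr').mpr hr
      have hgx : g = xg hF F r c := Units.ext (by rw [e, coe_xg hF hr.1])
      exact Subgroup.mem_sup_right (Subgroup.subset_closure ⟨r, hr', hpos, hbad, c, hgx⟩)


end

end Cfsg.Agent.Lib.Helper36.CentF4
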