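import Mathlib
import Cfsg.Agent.Lib.Helper36.CentG2
import Cfsg.Agent.S2326

set_option autoImplicit false
set_option linter.unusedSimpArgs false
set_option linter.unusedSectionVars false
set_option linter.unusedVariables false

/-!
The conjugacy classes of involutions of `G₂(q)`, `q` even.
-/

namespace Cfsg.Agent.Lib.Helper36.InvG2

open Cfsg Cfsg.Lie Cfsg.Agent.Lib.Helper18.Fast Cfsg.Agent.Lib.Helper18.Grade
  Cfsg.Agent.Lib.Helper18.Facts Cfsg.Agent.Lib.Helper18.AllRoots Cfsg.Agent.Lib.Helper18.Loop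
  Cfsg.Agent.Lib.Helper18.Weyl Cfsg.Agent.Lib.Helper18.RootSys Cfsg.Agent.Lib.Helper18.Orbit
  Cfsg.Agent.Lib.Helper18.Units Cfsg.Agent.Lib.Helper18.Sub Cfsg.Agent.Lib.Helper18.Norm
  Cfsg.Agent.Lib.Helper18.HAll Cfsg.Agent.Lib.Helper18.Torus Cfsg.Agent.Lib.Helper18.Pos
  Cfsg.Agent.Lib.Helper18.WGroup Cfsg.Agent.Lib.Helper18.BNChev Cfsg.Agent.Lib.Helper18.Mono
  Cfsg.Agent.Lib.Helper18.BNPairC Cfsg.Agent.Lib.Helper18.UOrd Cfsg.Agent.Lib.Helper18.Cox
  Cfsg.Agent.Lib.Helper18.Long Cfsg.Agent.Lib.Helper18.Core Cfsg.Agent.Lib.Helper18.Conj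
  Cfsg.Agent.Lib.Helper18.RFact Cfsg.Agent.Lib.Helper18.BNCell Cfsg.Agent.Lib.Helper18.Vec
  Cfsg.Agent.Lib.Helper18.XMat Cfsg.Agent.Lib.Helper18.Cells Cfsg.Agent.Lib.Helper18.Cox2
  Cfsg.Agent.Lib.Helper18.Cells2 Cfsg.Agent.Lib.Helper18.Cox3 Cfsg.Agent.Lib.Helper18.HOrder
  Cfsg.Agent.Lib.Helper18.HOrderTab Cfsg.Agent.Lib.Helper18.Tri Cfsg.Agent.Lib.Helper18.Par
  Cfsg.Agent.Lib.Helper18.Par2 Cfsg.Agent.Lib.Helper18.Par3 Cfsg.Agent.Lib.Helper18.CommT
  Cfsg.Agent.Lib.Helper18.Poly2 Cfsg.Agent.Lib.Helper18.Cent Cfsg.Agent.Lib.Helper36.CentA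
  Cfsg.Agent.Lib.Helper36.CentB Cfsg.Agent.Lib.Helper36.CentC Cfsg.Agent.Lib.Helper36.CentD
  Cfsg.Agent.Lib.Helper36.CentE Cfsg.Agent.Lib.Helper18 Cfsg.Agent.Lib.Helper36.CentG2

/-- The root elements of `G₂`. -/
noncomputable def X (F : Type*) [Field F] (r : ℕ) (t : F) : GL chevG2.Idx F :=
  xg CAll.cfG2.af F r t

/-- The elements of the abelian group `X_9 X_10 X_11`. -/
noncomputable def A3 (F : Type*) [Field F] (a b c : F) : GL chevG2.Idx F :=
  X F 9 a * X F 10 b * X F 11 c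

set_option maxRecDepth 100000 in
theorem comm2_ok : [(6, 8), (8, 6), (9, 6), (11, 7), (10, 8)].all
    (fun p => chkC2 FTabG2.fd p.1 p.2) = true := by decide +kernel

theorem cc2 {r s : ℕ} (h : (r, s) ∈ [(6, 8), (8, 6), (9, 6), (11, 7), (10, 8)]) :
    chkC2 FTabG2.fd r s = true :=
  List.all_eq_true.mp comm2_ok (r, s) h

theorem t78 : chevG2.commTerms 7 8 = [(9, -2, 1, 1), (10, -3, 2, 1), (11, 3, 1, 2)] := by
  decide +kernel

theorem t76 : chevG2.commTerms 7 6 = [(8, -1, 1, 1), (9, 1, 2, 1), (10, 1, 3, 1), (11, 1, 3, 2)] := by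
  decide +kernel

theorem posA' {r : ℕ} (hr : r ∈ [6, 7, 8, 9, 10, 11]) : PosA FTabG2.fd r :=
  (posC_iff _).mp (List.all_eq_true.mp posv_ok r hr)

section

variable {F : Type*} [Field F] [CharP F 2]
  (hadd : ∀ r < chevG2.nroots, ∀ t u : F, chevG2.x F r t * chevG2.x F r u = chevG2.x F r (t + u))
  (hinj : ∀ r < chevG2.nroots, ∀ t : F, chevG2.x F r t = 1 → t = 0)

theorem cX {r : ℕ} (hr : r < 12) (t : F) :
    ((X F r t : GL chevG2.Idx F) : Matrix chevG2.Idx chevG2.Idx F) = chevG2.x F r t :=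
  coe_xg CAll.cfG2.af (lt_nroots CAll.cfG2.af hr) t

include hadd in
theorem X_add (r : ℕ) (t u : F) : X F r t * X F r u = X F r (t + u) :=
  (xg_add hadd CAll.cfG2.af r t u).symm

include hadd in
theorem X_zero (r : ℕ) : X F r 0 = 1 := xg_zero hadd CAll.cfG2.af r

include hadd in
theorem X_sq (r : ℕ) (t : F) : X F r t * X F r t = 1 := by
  rw [X_add hadd, CharTwo.add_self_eq_zero, X_zero hadd]

include hadd in
theorem X_inv (r : ℕ) (t : F) : (X F r t)⁻¹ = X F r t :=
  inv_eq_of_mul_eq_one_left (X_sq hadd r t)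

theorem X_mem {r : ℕ} (hr : r < 12) (t : F) : X F r t ∈ chevG2.group F := by
  show xg CAll.cfG2.af F r t ∈ _
  rw [xg_eq CAll.cfG2.af (lt_nroots CAll.cfG2.af hr)]
  exact xU_mem_group _ _ _ _

theorem X_comm {r s : ℕ} (hr : r < 12) (hs : s < 12) (h : chkC2 FTabG2.fd r s = true) (a b : F) :
    Commute (X F r a) (X F s b) := comm_of_chk _ hr hs h a b

theorem A3_eq_yS (a b c : F) : A3 F a b c = yS CAll.cfG2.af F [9, 10, 11]
    (fun ρ => if ρ = 9 then a else if ρ = 10 then b else c) := by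
  simp [A3, X, yS, prodL, mul_assoc]

theorem yS_eq_A3 (c : ℕ → F) : yS CAll.cfG2.af F [9, 10, 11] c = A3 F (c 9) (c 10) (c 11) := by
  simp [A3, X, yS, prodL, mul_assoc]

include hadd in
theorem c6A (s a b c : F) : X F 6 s * A3 F a b c * (X F 6 s)⁻¹ = A3 F a b (c + s * b) := by
  have h := actU_G2 hadd 6 (by decide) (posA' (by decide)) s
    (fun ρ => if ρ = 9 then a else if ρ = 10 then b else c)
  rw [A3_eq_yS]
  unfold X
  rw [h, yS_eq_A3]
  simp [actG2, Function.update]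

include hadd in
theorem c7A (s a b c : F) : X F 7 s * A3 F a b c * (X F 7 s)⁻¹ = A3 F a (b + s * a) c := by
  have h := actU_G2 hadd 7 (by decide) (posA' (by decide)) s
    (fun ρ => if ρ = 9 then a else if ρ = 10 then b else c)
  rw [A3_eq_yS]
  unfold X
  rw [h, yS_eq_A3]
  simp [actG2, Function.update]

include hadd in
theorem c8A (s a b c : F) : X F 8 s * A3 F a b c * (X F 8 s)⁻¹ = A3 F a b (c + s * a) := by
  have h := actU_G2 hadd 8 (by decide) (posA' (by decide)) s
    (fun ρ => if ρ = 9 then a else if ρ = 10 then b else c)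
  rw [A3_eq_yS]
  unfold X
  rw [h, yS_eq_A3]
  simp [actG2, Function.update]

include hadd in
theorem A3_mul (a b c a' b' c' : F) :
    A3 F a b c * A3 F a' b' c' = A3 F (a + a') (b + b') (c + c') := by
  have h1 : Commute (X F 11 c) (X F 9 a') := X_comm (by decide) (by decide) (cc (by decide)) _ _
  have h2 : Commute (X F 10 b) (X F 9 a') := X_comm (by decide) (by decide) (cc (by decide)) _ _
  have h3 : Commute (X F 11 c) (X F 10 b') := X_comm (by decide) (by decide) (cc (by decide)) _ _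
  unfold A3
  rw [← X_add hadd, ← X_add hadd, ← X_add hadd]
  calc X F 9 a * X F 10 b * X F 11 c * (X F 9 a' * X F 10 b' * X F 11 c')
      = X F 9 a * X F 10 b * (X F 11 c * X F 9 a') * X F 10 b' * X F 11 c' := by group
    _ = X F 9 a * X F 10 b * (X F 9 a' * X F 11 c) * X F 10 b' * X F 11 c' := by rw [h1.eq]
    _ = X F 9 a * (X F 10 b * X F 9 a') * (X F 11 c * X F 10 b') * X F 11 c' := by group
    _ = X F 9 a * (X F 9 a' * X F 10 b) * (X F 10 b' * X F 11 c) * X F 11 c' := by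
      rw [h2.eq, h3.eq]
    _ = _ := by group

include hadd in
theorem A3_zero : A3 F 0 0 0 = 1 := by
  unfold A3
  rw [X_zero hadd, X_zero hadd, X_zero hadd]
  simp

include hadd in
theorem A3_9 (a : F) : A3 F a 0 0 = X F 9 a := by
  unfold A3
  rw [X_zero hadd, X_zero hadd]
  simp

include hadd in
theorem A3_10 (b : F) : A3 F 0 b 0 = X F 10 b := by
  unfold A3
  rw [X_zero hadd, X_zero hadd]
  simp

include hadd in
theorem A3_11 (c : F) : A3 F 0 0 c = X F 11 c := by
  unfold A3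
  rw [X_zero hadd, X_zero hadd]
  simp

include hadd hinj in
theorem A3_inj {a b c a' b' c' : F} (h : A3 F a b c = A3 F a' b' c') :
    a = a' ∧ b = b' ∧ c = c' := by
  have T := setupG2 hadd hinj
  rw [A3_eq_yS, A3_eq_yS] at h
  have hnd : (([9, 10, 11] : List ℕ).map (fun ρ => ρ)).Nodup := by decide
  have key : ∀ ρ ∈ [9, 10, 11],
      (fun ρ => if ρ = 9 then a else if ρ = 10 then b else c) ρ =
        (fun ρ => if ρ = 9 then a' else if ρ = 10 then b' else c') ρ := by
    intro ρ hρ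
    exact coef_eq_of_prodL_eq CAll.cfG2.af (yS_lt T.hS _ (fun _ => rfl))
      (yS_cf T.cfS _ (fun _ => rfl)) (yS_lt T.hS _ (fun _ => rfl)) (yS_cf T.cfS _ (fun _ => rfl))
      (by rw [List.map_map]; exact hnd) (by rw [List.map_map]; exact hnd) h
      (List.mem_map.mpr ⟨ρ, hρ, rfl⟩) (List.mem_map.mpr ⟨ρ, hρ, rfl⟩) (T.odd ρ (T.hS ρ hρ))
  have h9 := key 9 (by simp)
  have h10 := key 10 (by simp)
  have h11 := key 11 (by simp)
  simp at h9 h10 h11
  exact ⟨h9, h10, h11⟩

include hadd hinj in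
theorem A3_eq_one {a b c : F} (h : A3 F a b c = 1) : a = 0 ∧ b = 0 ∧ c = 0 := by
  rw [← A3_zero hadd] at h
  exact A3_inj hadd hinj h

include hadd hinj in
theorem X8_ne {t a b c : F} (h : X F 8 t = A3 F a b c) : t = 0 := by
  by_contra ht
  have T := setupG2 hadd hinj
  have e1 : X F 8 t = prodL CAll.cfG2.af F [(8, t)] := by simp [X, prodL]
  have e2 : A3 F a b c = prodL CAll.cfG2.af F [(9, a), (10, b), (11, c)] := by
    simp [A3, X, prodL, mul_assoc]
  rw [e1, e2] at h
  have hm := mem_of_prodL_eq CAll.cfG2.af (L := [(8, t)]) (L' := [(9, a), (10, b), (11, c)])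
    (by simp; decide) (by simp; decide) (by simp; decide) (by simp; decide) (by simp) h (δ := 8) (c := t) (by simp) ht
    (T.odd 8 (by decide))
  simp at hm

end


section

variable {F : Type*} [Field F] [CharP F 2]
  (hadd : ∀ r < chevG2.nroots, ∀ t u : F, chevG2.x F r t * chevG2.x F r u = chevG2.x F r (t + u))
  (hinj : ∀ r < chevG2.nroots, ∀ t : F, chevG2.x F r t = 1 → t = 0)

theorem cast_m2 : (((-2 : ℤ) : ℤ) : F) = 0 := by
  push_cast
  rw [CharTwo.two_eq_zero, neg_zero]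

include hadd in
theorem rel78 (t u : F) :
    X F 8 u * X F 7 t = X F 7 t * X F 8 u * A3 F 0 (t ^ 2 * u) (t * u ^ 2) := by
  apply Units.ext
  unfold A3
  simp only [Units.val_mul]
  rw [cX (by decide), cX (by decide), cX (by decide), cX (by decide), cX (by decide)]
  rw [Cfsg.Agent.Lib.Helper36.ChevCommAll.comm chevG2 hDG2 7 8 (by decide) (by decide)
    (by decide) (by decide) t u]
  congr 1
  unfold ChevalleyDatum.commWord ChevalleyDatum.wordMat
  rw [t78]
  simp only [List.map_cons, List.map_nil, List.prod_cons, List.prod_nil, mul_one, pow_one]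
  rw [cast_m2, cast_odd_eq_one (show (-3 : ℤ) % 2 = 1 by decide),
    cast_odd_eq_one (show (3 : ℤ) % 2 = 1 by decide)]
  simp only [CharTwo.neg_eq, one_mul, zero_mul, mul_assoc]

include hadd in
theorem rel76 (t u : F) :
    X F 6 u * X F 7 t = X F 7 t * X F 6 u * (X F 8 (t * u) * A3 F (t ^ 2 * u) (t ^ 3 * u)
      (t ^ 3 * u ^ 2)) := by
  apply Units.ext
  unfold A3
  simp only [Units.val_mul]
  rw [cX (by decide), cX (by decide), cX (by decide), cX (by decide), cX (by decide),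
    cX (by decide)]
  rw [Cfsg.Agent.Lib.Helper36.ChevCommAll.comm chevG2 hDG2 7 6 (by decide) (by decide)
    (by decide) (by decide) t u]
  congr 1
  unfold ChevalleyDatum.commWord ChevalleyDatum.wordMat
  rw [t76]
  simp only [List.map_cons, List.map_nil, List.prod_cons, List.prod_nil, mul_one, pow_one]
  rw [cast_odd_eq_one (show (-1 : ℤ) % 2 = 1 by decide),
    cast_odd_eq_one (show (1 : ℤ) % 2 = 1 by decide)]
  simp only [CharTwo.neg_eq, one_mul, zero_mul, mul_assoc]

include hadd in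
/-- Conjugation of `x_7` by `x_8`. -/
theorem conj78 (t u : F) :
    X F 8 u * X F 7 t * (X F 8 u)⁻¹ = X F 7 t * A3 F 0 (t ^ 2 * u) (t * u ^ 2) := by
  rw [rel78 hadd]
  calc X F 7 t * X F 8 u * A3 F 0 (t ^ 2 * u) (t * u ^ 2) * (X F 8 u)⁻¹
      = X F 7 t * (X F 8 u * A3 F 0 (t ^ 2 * u) (t * u ^ 2) * (X F 8 u)⁻¹) := by group
    _ = _ := by rw [c8A hadd, mul_zero, add_zero]

include hadd in
/-- Conjugation of `x_8` by `x_7`. -/
theorem conj87 (s v : F) :
    X F 7 s * X F 8 v * (X F 7 s)⁻¹ = X F 8 v * A3 F 0 (s ^ 2 * v) (s * v ^ 2) := by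
  have e : (X F 8 v)⁻¹ * X F 7 s * X F 8 v = X F 7 s * A3 F 0 (s ^ 2 * v) (s * v ^ 2) := by
    have h := conj78 hadd s v
    rw [X_inv hadd] at h ⊢
    exact h
  calc X F 7 s * X F 8 v * (X F 7 s)⁻¹
      = X F 8 v * ((X F 8 v)⁻¹ * X F 7 s * X F 8 v) * (X F 7 s)⁻¹ := by group
    _ = X F 8 v * (X F 7 s * A3 F 0 (s ^ 2 * v) (s * v ^ 2) * (X F 7 s)⁻¹) := by
      rw [e]; group
    _ = _ := by rw [c7A hadd, mul_zero, add_zero]

include hadd in
/-- Conjugation of `x_7` by `x_6`. -/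
theorem conj67 (t u : F) : ∃ a b c : F,
    X F 6 u * X F 7 t * (X F 6 u)⁻¹ = X F 7 t * X F 8 (t * u) * A3 F a b c := by
  have h68 : Commute (X F 6 u) (X F 8 (t * u)) :=
    X_comm (by decide) (by decide) (cc2 (by decide)) _ _
  refine ⟨t ^ 2 * u, t ^ 3 * u, t ^ 3 * u ^ 2 + u * (t ^ 3 * u), ?_⟩
  rw [rel76 hadd]
  calc X F 7 t * X F 6 u * (X F 8 (t * u) * A3 F (t ^ 2 * u) (t ^ 3 * u) (t ^ 3 * u ^ 2)) *
        (X F 6 u)⁻¹
      = X F 7 t * (X F 6 u * X F 8 (t * u)) *
          (A3 F (t ^ 2 * u) (t ^ 3 * u) (t ^ 3 * u ^ 2) * (X F 6 u)⁻¹) := by group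
    _ = X F 7 t * (X F 8 (t * u) * X F 6 u) *
          (A3 F (t ^ 2 * u) (t ^ 3 * u) (t ^ 3 * u ^ 2) * (X F 6 u)⁻¹) := by rw [h68.eq]
    _ = X F 7 t * X F 8 (t * u) *
          (X F 6 u * A3 F (t ^ 2 * u) (t ^ 3 * u) (t ^ 3 * u ^ 2) * (X F 6 u)⁻¹) := by group
    _ = _ := by rw [c6A hadd]

include hadd in
/-- Conjugation of `x_6` by `x_7`. -/
theorem conj76 (s t : F) : ∃ a b c : F,
    X F 7 s * X F 6 t * (X F 7 s)⁻¹ = X F 6 t * X F 8 (s * t) * A3 F a b c := by
  obtain ⟨a, b, c, h⟩ := conj67 hadd s t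
  have e : (X F 6 t)⁻¹ * X F 7 s * X F 6 t = X F 7 s * X F 8 (s * t) * A3 F a b c := by
    rw [X_inv hadd] at h ⊢
    exact h
  refine ⟨0 + a, s ^ 2 * (s * t) + (b + s * a), s * (s * t) ^ 2 + c, ?_⟩
  calc X F 7 s * X F 6 t * (X F 7 s)⁻¹
      = X F 6 t * ((X F 6 t)⁻¹ * X F 7 s * X F 6 t) * (X F 7 s)⁻¹ := by group
    _ = X F 6 t * (X F 7 s * X F 8 (s * t) * (X F 7 s)⁻¹) *
          (X F 7 s * A3 F a b c * (X F 7 s)⁻¹) := by rw [e]; group
    _ = X F 6 t * X F 8 (s * t) * (A3 F 0 (s ^ 2 * (s * t)) (s * (s * t) ^ 2) *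
          A3 F a (b + s * a) c) := by rw [conj87 hadd, c7A hadd]; group
    _ = _ := by rw [A3_mul hadd]

include hadd in
/-- Reversing a move relation. -/
theorem rev_move {r ρ ρ' : ℕ}
    (hmv : ∀ s a : F, X F r s * X F ρ a * (X F r s)⁻¹ = X F ρ a * X F ρ' (s * a))
    (hc : ∀ a b : F, Commute (X F ρ a) (X F ρ' b)) (s a : F) :
    X F ρ a * X F r s * (X F ρ a)⁻¹ = X F r s * X F ρ' (s * a) := by
  have e : (X F r s)⁻¹ * X F ρ a * X F r s = X F ρ a * X F ρ' (s * a) := by
    have h := hmv s a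
    rw [X_inv hadd] at h ⊢
    exact h
  calc X F ρ a * X F r s * (X F ρ a)⁻¹
      = X F r s * ((X F r s)⁻¹ * X F ρ a * X F r s) * (X F ρ a)⁻¹ := by group
    _ = X F r s * (X F ρ a * X F ρ' (s * a)) * (X F ρ a)⁻¹ := by rw [e]
    _ = X F r s * (X F ρ' (s * a) * X F ρ a) * (X F ρ a)⁻¹ := by rw [(hc a (s * a)).eq]
    _ = _ := by group

include hadd in
theorem rev7 (s a : F) : X F 9 a * X F 7 s * (X F 9 a)⁻¹ = X F 7 s * X F 10 (s * a) :=
  rev_move hadd (fun s a => mv7 s a)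
    (fun a b => X_comm (by decide) (by decide) (cc (by decide)) a b) s a

include hadd in
theorem rev8 (s a : F) : X F 9 a * X F 8 s * (X F 9 a)⁻¹ = X F 8 s * X F 11 (s * a) :=
  rev_move hadd (fun s a => mv8 s a)
    (fun a b => X_comm (by decide) (by decide) (cc (by decide)) a b) s a

include hadd in
theorem rev6 (s a : F) : X F 10 a * X F 6 s * (X F 10 a)⁻¹ = X F 6 s * X F 11 (s * a) :=
  rev_move hadd (fun s a => mv6 s a)
    (fun a b => X_comm (by decide) (by decide) (cc (by decide)) a b) s a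

end


section

variable {F : Type*} [Field F] [CharP F 2]
  (hadd : ∀ r < chevG2.nroots, ∀ t u : F, chevG2.x F r t * chevG2.x F r u = chevG2.x F r (t + u))
  (hinj : ∀ r < chevG2.nroots, ∀ t : F, chevG2.x F r t = 1 → t = 0)

/-- The element is conjugate in the group to `x_11(1)` or to `x_9(1)`. -/
def Good (g : GL chevG2.Idx F) : Prop :=
  ∃ h ∈ chevG2.group F, h * g * h⁻¹ = X F 11 1 ∨ h * g * h⁻¹ = X F 9 1

theorem good_conj {g k : GL chevG2.Idx F} (hk : k ∈ chevG2.group F)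
    (h : Good (k * g * k⁻¹)) : Good g := by
  obtain ⟨h', hh', e⟩ := h
  refine ⟨h' * k, Subgroup.mul_mem _ hh' hk, ?_⟩
  have e' : h' * k * g * (h' * k)⁻¹ = h' * (k * g * k⁻¹) * h'⁻¹ := by group
  rw [e']
  exact e

theorem MJ_le : MJ CAll.cfG2.af F (Set.univ) ≤ chevG2.group F := by
  unfold MJ
  rw [Subgroup.closure_le]
  rintro g ⟨j, -, hjl, c, rfl | rfl⟩
  · have hj2 : j < 2 := hjl
    interval_cases j
    · rw [simple0]
      exact X_mem (r := 7) (by decide) c
    · rw [simple1]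
      exact X_mem (r := 6) (by decide) c
  · have hj2 : j < 2 := hjl
    interval_cases j
    · rw [simple0, neg7]
      exact X_mem (r := 4) (by decide) c
    · rw [simple1, neg6]
      exact X_mem (r := 5) (by decide) c

/-- Conjugation of a root element by a Weyl group element. -/
theorem weyl1 (wd : List ℕ) (hwd : ∀ i ∈ wd, i < FTabG2.fd.rank) {r r' : ℕ} (hr : r < 12)
    (hw : wperm WTabG2.X wd r = r') (t : F) :
    ∃ k ∈ chevG2.group F, ∃ e : F, e ≠ 0 ∧ k * X F r t * k⁻¹ = X F r' (e * t) := by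
  obtain ⟨ε, hε, h⟩ := nw_conj_prodL (F := F) CAll.cfG2 hwd
  have h1 := h [r] (fun _ => t) (by intro ρ hρ; rw [List.mem_singleton] at hρ; subst hρ; exact hr)
  refine ⟨nw CAll.cfG2.af F (plain wd), MJ_le (nw_mem_MJ CAll.cfG2.af
    (fun i hi => ⟨hwd i hi, Set.mem_univ i⟩)), ε r, hε r, ?_⟩
  simp only [List.map_cons, List.map_nil, prodL_cons, prodL_nil, mul_one] at h1
  rw [hw] at h1
  exact h1

/-- Conjugation of a product of two root elements by a Weyl group element. -/
theorem weyl2 (wd : List ℕ) (hwd : ∀ i ∈ wd, i < FTabG2.fd.rank) {r1 r2 r1' r2' : ℕ}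
    (hr1 : r1 < 12) (hr2 : r2 < 12) (hne : r1 ≠ r2)
    (hw1 : wperm WTabG2.X wd r1 = r1') (hw2 : wperm WTabG2.X wd r2 = r2') (t1 t2 : F) :
    ∃ k ∈ chevG2.group F, ∃ e1 e2 : F, e1 ≠ 0 ∧ e2 ≠ 0 ∧
      k * (X F r1 t1 * X F r2 t2) * k⁻¹ = X F r1' (e1 * t1) * X F r2' (e2 * t2) := by
  obtain ⟨ε, hε, h⟩ := nw_conj_prodL (F := F) CAll.cfG2 hwd
  have h1 := h [r1, r2] (fun ρ => if ρ = r1 then t1 else t2) (by
    intro ρ hρ
    simp only [List.mem_cons, List.not_mem_nil, or_false] at hρ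
    rcases hρ with rfl | rfl
    · exact hr1
    · exact hr2)
  refine ⟨nw CAll.cfG2.af F (plain wd), MJ_le (nw_mem_MJ CAll.cfG2.af
    (fun i hi => ⟨hwd i hi, Set.mem_univ i⟩)), ε r1, ε r2, hε r1, hε r2, ?_⟩
  simp only [List.map_cons, List.map_nil, prodL_cons, prodL_nil, mul_one, if_true,
    if_neg hne.symm] at h1
  rw [hw1, hw2] at h1
  exact h1

/-- Conjugation of a root element by a diagonal element. -/
theorem torus1 {r i₀ : ℕ} (hr : r < 12) (hi₀ : i₀ < 2)
    (hcar : ∀ i < FTabG2.fd.rank, FTabG2.fd.car i r = if i = i₀ then 1 else 0) {t : F}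
    (ht : t ≠ 0) : ∃ k ∈ chevG2.group F, k * X F r t * k⁻¹ = X F r 1 := by
  have hcc : ∀ i, (fun i => if i = i₀ then t⁻¹ else (1 : F)) i ≠ 0 := by
    intro i
    show (if i = i₀ then t⁻¹ else (1 : F)) ≠ 0
    split_ifs
    · exact inv_ne_zero ht
    · exact one_ne_zero
  obtain ⟨g, hg, e⟩ := torN_mem_MJ CAll.cfG2.af (J := Set.univ) hcc
    (fun i _ h => absurd (Set.mem_univ i) h) chevG2.rank le_rfl
  have hh : (g : Matrix chevG2.Idx chevG2.Idx F) =
      tor chevG2 FTabG2.fd (fun i => if i = i₀ then t⁻¹ else (1 : F)) := by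
    rw [e, tor_eq_torN]
    rfl
  have h1 := tor_conj_prodL CAll.cfG2.af hcc hh [r] (fun _ => t) (by intro ρ hρ; rw [List.mem_singleton] at hρ; subst hρ; exact hr)
  simp only [List.map_cons, List.map_nil, prodL_cons, prodL_nil, mul_one] at h1
  rw [Cfsg.Agent.Lib.Helper18.Cent.chi_beta (A := FTabG2.fd) (β := r) (i₀ := i₀) hr hcar hi₀] at h1
  refine ⟨g, MJ_le hg, ?_⟩
  rw [show X F r t = xg CAll.cfG2.af F r t from rfl, h1]
  simp only [if_true]
  rw [inv_mul_cancel₀ ht]
  rfl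

theorem car_9 : ∀ i < FTabG2.fd.rank, FTabG2.fd.car i 9 = if i = 0 then 1 else 0 := by
  intro i hi
  have hi2 : i < 2 := hi
  interval_cases i
  · exact car09
  · exact car19

theorem car_11 : ∀ i < FTabG2.fd.rank, FTabG2.fd.car i 11 = if i = 1 then 1 else 0 := by
  decide +kernel

theorem good_9 {a : F} (ha : a ≠ 0) : Good (X F 9 a) := by
  obtain ⟨k, hk, e⟩ := torus1 (r := 9) (i₀ := 0) (by decide) (by decide) car_9 ha
  exact ⟨k, hk, Or.inr e⟩

theorem good_11 {a : F} (ha : a ≠ 0) : Good (X F 11 a) := by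
  obtain ⟨k, hk, e⟩ := torus1 (r := 11) (i₀ := 1) (by decide) (by decide) car_11 ha
  exact ⟨k, hk, Or.inl e⟩

theorem w8 : wperm WTabG2.X [0] 8 = 9 := by decide +kernel

theorem w7 : wperm WTabG2.X [0, 1] 7 = 9 := by decide +kernel

theorem w10 : wperm WTabG2.X [1] 10 = 11 := by decide +kernel

theorem w6 : wperm WTabG2.X [1, 0] 6 = 11 := by decide +kernel

theorem w9' : wperm WTabG2.X [1, 0] 9 = 7 := by decide +kernel

theorem w8' : wperm WTabG2.X [1] 8 = 7 := by decide +kernel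

theorem good_8 {a : F} (ha : a ≠ 0) : Good (X F 8 a) := by
  obtain ⟨k, hk, e, he, h⟩ := weyl1 [0] (by decide) (r := 8) (by decide) w8 a
  apply good_conj hk
  rw [h]
  exact good_9 (mul_ne_zero he ha)

theorem good_7 {a : F} (ha : a ≠ 0) : Good (X F 7 a) := by
  obtain ⟨k, hk, e, he, h⟩ := weyl1 [0, 1] (by decide) (r := 7) (by decide) w7 a
  apply good_conj hk
  rw [h]
  exact good_9 (mul_ne_zero he ha)

theorem good_10 {a : F} (ha : a ≠ 0) : Good (X F 10 a) := by
  obtain ⟨k, hk, e, he, h⟩ := weyl1 [1] (by decide) (r := 10) (by decide) w10 a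
  apply good_conj hk
  rw [h]
  exact good_11 (mul_ne_zero he ha)

theorem good_6 {a : F} (ha : a ≠ 0) : Good (X F 6 a) := by
  obtain ⟨k, hk, e, he, h⟩ := weyl1 [1, 0] (by decide) (r := 6) (by decide) w6 a
  apply good_conj hk
  rw [h]
  exact good_11 (mul_ne_zero he ha)

end


theorem conj2 {G : Type*} [Group G] (k x y : G) :
    k * (x * y) * k⁻¹ = (k * x * k⁻¹) * (k * y * k⁻¹) := by group

theorem conj_sq {G : Type*} [Group G] (k g : G) (h : g * g = 1) :
    (k * g * k⁻¹) * (k * g * k⁻¹) = 1 := by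
  have e : (k * g * k⁻¹) * (k * g * k⁻¹) = k * (g * g) * k⁻¹ := by group
  rw [e, h]
  group

section

variable {F : Type*} [Field F] [CharP F 2]
  (hadd : ∀ r < chevG2.nroots, ∀ t u : F, chevG2.x F r t * chevG2.x F r u = chevG2.x F r (t + u))
  (hinj : ∀ r < chevG2.nroots, ∀ t : F, chevG2.x F r t = 1 → t = 0)

include hadd in
theorem c9A (s a b c : F) : X F 9 s * A3 F a b c * (X F 9 s)⁻¹ = A3 F a b c := by
  have h := actU_G2 hadd 9 (by decide) (posA' (by decide)) s
    (fun ρ => if ρ = 9 then a else if ρ = 10 then b else c)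
  have e : actG2 9 s (fun ρ => if ρ = 9 then a else if ρ = 10 then b else c) =
      (fun ρ => if ρ = 9 then a else if ρ = 10 then b else c) := rfl
  rw [A3_eq_yS]
  unfold X
  rw [h, e]

include hadd in
theorem c10A (s a b c : F) : X F 10 s * A3 F a b c * (X F 10 s)⁻¹ = A3 F a b c := by
  have h := actU_G2 hadd 10 (by decide) (posA' (by decide)) s
    (fun ρ => if ρ = 9 then a else if ρ = 10 then b else c)
  have e : actG2 10 s (fun ρ => if ρ = 9 then a else if ρ = 10 then b else c) =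
      (fun ρ => if ρ = 9 then a else if ρ = 10 then b else c) := rfl
  rw [A3_eq_yS]
  unfold X
  rw [h, e]

include hadd in
theorem A3_sq (a b c : F) : A3 F a b c * A3 F a b c = 1 := by
  rw [A3_mul hadd, CharTwo.add_self_eq_zero, CharTwo.add_self_eq_zero, CharTwo.add_self_eq_zero,
    A3_zero hadd]

include hadd in
theorem swapA8 (γ a b c : F) : A3 F a b c * X F 8 γ = X F 8 γ * A3 F a b (c + γ * a) := by
  have h := c8A hadd γ a b (c + γ * a)
  have e : c + γ * a + γ * a = c := by rw [add_assoc, CharTwo.add_self_eq_zero, add_zero]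
  rw [e] at h
  rw [← h]
  group

include hadd in
/-- An involution of the form `x_7 x_11` is conjugate to `x_9(1)`. -/
theorem good_7_11 [Fintype F] {α : F} (hα : α ≠ 0) (c : F) : Good (X F 7 α * A3 F 0 0 c) := by
  obtain ⟨s, hs⟩ := FiniteField.isSquare_of_char_two (ringChar.eq F 2) (c / α)
  have hs' : α * s ^ 2 = c := by
    rw [pow_two, ← hs]
    field_simp
  apply good_conj (X_mem (r := 8) (by decide) s)
  have p1 : (0 : F) + 0 = 0 := add_zero 0
  have p2 : α ^ 2 * s + 0 = α ^ 2 * s := add_zero _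
  have p3 : α * s ^ 2 + (c + s * 0) = 0 := by
    rw [mul_zero, add_zero, hs', CharTwo.add_self_eq_zero]
  rw [conj2, conj78 hadd, c8A hadd, mul_assoc, A3_mul hadd, p1, p2, p3]
  apply good_conj (X_mem (r := 9) (by decide) (α * s))
  have p4 : α * (α * s) + α ^ 2 * s = 0 := by
    rw [pow_two, mul_assoc, CharTwo.add_self_eq_zero]
  rw [conj2, rev7 hadd, c9A hadd, ← A3_10 hadd, mul_assoc, A3_mul hadd, p1, p4, A3_zero hadd,
    mul_one]
  exact good_7 hα

include hadd hinj in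
/-- An involution of the form `x_7 a`, `a ∈ X_9 X_10 X_11`. -/
theorem good_7A [Fintype F] {α : F} (hα : α ≠ 0) (a b c : F)
    (hinv : (X F 7 α * A3 F a b c) * (X F 7 α * A3 F a b c) = 1) :
    Good (X F 7 α * A3 F a b c) := by
  have e : (X F 7 α * A3 F a b c) * (X F 7 α * A3 F a b c) =
      (X F 7 α * A3 F a b c * (X F 7 α)⁻¹) * (X F 7 α * X F 7 α) * A3 F a b c := by group
  rw [e, c7A hadd, X_sq hadd, mul_one, A3_mul hadd] at hinv
  have h0 := (A3_eq_one hadd hinj hinv).2.1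
  have ha : a = 0 := by
    have h1 : α * a = 0 := by
      have : b + α * a + b = α * a := by
        rw [add_comm b, add_assoc, CharTwo.add_self_eq_zero, add_zero]
      rw [this] at h0
      exact h0
    rcases mul_eq_zero.mp h1 with h | h
    · exact absurd h hα
    · exact h
  subst ha
  apply good_conj (X_mem (r := 9) (by decide) (b / α))
  have p1 : (0 : F) + 0 = 0 := add_zero 0
  have p2 : α * (b / α) + b = 0 := by
    have : α * (b / α) = b := by field_simp
    rw [this, CharTwo.add_self_eq_zero]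
  have p3 : (0 : F) + c = c := zero_add c
  rw [conj2, rev7 hadd, c9A hadd, ← A3_10 hadd, mul_assoc, A3_mul hadd, p1, p2, p3]
  exact good_7_11 hadd hα c

include hadd hinj in
/-- An involution of the form `x_6 a`, `a ∈ X_9 X_10 X_11`. -/
theorem good_6A [Fintype F] {β : F} (hβ : β ≠ 0) (a b c : F)
    (hinv : (X F 6 β * A3 F a b c) * (X F 6 β * A3 F a b c) = 1) :
    Good (X F 6 β * A3 F a b c) := by
  have e : (X F 6 β * A3 F a b c) * (X F 6 β * A3 F a b c) =
      (X F 6 β * A3 F a b c * (X F 6 β)⁻¹) * (X F 6 β * X F 6 β) * A3 F a b c := by group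
  rw [e, c6A hadd, X_sq hadd, mul_one, A3_mul hadd] at hinv
  have h0 := (A3_eq_one hadd hinj hinv).2.2
  have hb : b = 0 := by
    have h1 : β * b = 0 := by
      have : c + β * b + c = β * b := by
        rw [add_comm c, add_assoc, CharTwo.add_self_eq_zero, add_zero]
      rw [this] at h0
      exact h0
    rcases mul_eq_zero.mp h1 with h | h
    · exact absurd h hβ
    · exact h
  subst hb
  apply good_conj (X_mem (r := 10) (by decide) (c / β))
  have p1 : (0 : F) + 0 = 0 := add_zero 0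
  have p2 : β * (c / β) + c = 0 := by
    have : β * (c / β) = c := by field_simp
    rw [this, CharTwo.add_self_eq_zero]
  have p3 : (0 : F) + a = a := zero_add a
  rw [conj2, rev6 hadd, c10A hadd, ← A3_11 hadd, mul_assoc, A3_mul hadd, p1, p2, p3, A3_9 hadd]
  by_cases ha : a = 0
  · rw [ha, X_zero hadd, mul_one]
    exact good_6 hβ
  · obtain ⟨k, hk, e1, e2, he1, he2, h⟩ := weyl2 [1, 0] (by decide) (r1 := 6) (r2 := 9)
      (by decide) (by decide) (by decide) w6 w9' β a
    apply good_conj hk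
    rw [h, (X_comm (by decide) (by decide) (cc2 (by decide)) (e1 * β) (e2 * a)).eq,
      ← A3_11 hadd]
    exact good_7_11 hadd (mul_ne_zero he2 ha) _

include hadd hinj in
/-- An involution of the form `x_8 a`, `a ∈ X_9 X_10 X_11`. -/
theorem good_8A [Fintype F] {γ : F} (hγ : γ ≠ 0) (a b c : F)
    (hinv : (X F 8 γ * A3 F a b c) * (X F 8 γ * A3 F a b c) = 1) :
    Good (X F 8 γ * A3 F a b c) := by
  have e : (X F 8 γ * A3 F a b c) * (X F 8 γ * A3 F a b c) =
      (X F 8 γ * A3 F a b c * (X F 8 γ)⁻¹) * (X F 8 γ * X F 8 γ) * A3 F a b c := by group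
  rw [e, c8A hadd, X_sq hadd, mul_one, A3_mul hadd] at hinv
  have h0 := (A3_eq_one hadd hinj hinv).2.2
  have ha : a = 0 := by
    have h1 : γ * a = 0 := by
      have : c + γ * a + c = γ * a := by
        rw [add_comm c, add_assoc, CharTwo.add_self_eq_zero, add_zero]
      rw [this] at h0
      exact h0
    rcases mul_eq_zero.mp h1 with h | h
    · exact absurd h hγ
    · exact h
  subst ha
  apply good_conj (X_mem (r := 9) (by decide) (c / γ))
  have p1 : (0 : F) + 0 = 0 := add_zero 0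
  have p2 : γ * (c / γ) + c = 0 := by
    have : γ * (c / γ) = c := by field_simp
    rw [this, CharTwo.add_self_eq_zero]
  have p3 : (0 : F) + b = b := zero_add b
  rw [conj2, rev8 hadd, c9A hadd, ← A3_11 hadd, mul_assoc, A3_mul hadd, p1, p2, p3, A3_10 hadd]
  obtain ⟨k, hk, e1, e2, he1, he2, h⟩ := weyl2 [1] (by decide) (r1 := 8) (r2 := 10)
    (by decide) (by decide) (by decide) w8' w10 γ b
  apply good_conj hk
  rw [h, ← A3_11 hadd]
  exact good_7_11 hadd (mul_ne_zero he1 hγ) _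

include hadd in
/-- A nontrivial element of `X_9 X_10 X_11`. -/
theorem good_A (a b c : F) (hne : A3 F a b c ≠ 1) : Good (A3 F a b c) := by
  by_cases ha : a = 0
  · subst ha
    by_cases hb : b = 0
    · subst hb
      have hc : c ≠ 0 := by
        intro hc
        rw [hc, A3_zero hadd] at hne
        exact hne rfl
      rw [A3_11 hadd]
      exact good_11 hc
    · apply good_conj (X_mem (r := 6) (by decide) (c / b))
      have p : c + c / b * b = 0 := by
        have : c / b * b = c := by field_simp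
        rw [this, CharTwo.add_self_eq_zero]
      rw [c6A hadd, p, A3_10 hadd]
      exact good_10 hb
  · apply good_conj (X_mem (r := 7) (by decide) (b / a))
    have p : b + b / a * a = 0 := by
      have : b / a * a = b := by field_simp
      rw [this, CharTwo.add_self_eq_zero]
    rw [c7A hadd, p]
    apply good_conj (X_mem (r := 8) (by decide) (c / a))
    have p' : c + c / a * a = 0 := by
      have : c / a * a = c := by field_simp
      rw [this, CharTwo.add_self_eq_zero]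
    rw [c8A hadd, p', A3_9 hadd]
    exact good_9 ha

end


section

variable {F : Type*} [Field F] [CharP F 2]
  (hadd : ∀ r < chevG2.nroots, ∀ t u : F, chevG2.x F r t * chevG2.x F r u = chevG2.x F r (t + u))
  (hinj : ∀ r < chevG2.nroots, ∀ t : F, chevG2.x F r t = 1 → t = 0)

/-- The elements `x_8(t) a`, `a ∈ X_9 X_10 X_11`. -/
def N8 (t : F) (g : GL chevG2.Idx F) : Prop := ∃ a b c : F, g = X F 8 t * A3 F a b c

include hadd in
theorem N8_mul {t t' : F} {g g' : GL chevG2.Idx F} (h : N8 t g) (h' : N8 t' g') :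
    N8 (t + t') (g * g') := by
  obtain ⟨a, b, c, rfl⟩ := h
  obtain ⟨a', b', c', rfl⟩ := h'
  refine ⟨a + a', b + b', c + t' * a + c', ?_⟩
  calc X F 8 t * A3 F a b c * (X F 8 t' * A3 F a' b' c')
      = X F 8 t * (A3 F a b c * X F 8 t') * A3 F a' b' c' := by group
    _ = X F 8 t * (X F 8 t' * A3 F a b (c + t' * a)) * A3 F a' b' c' := by rw [swapA8 hadd]
    _ = (X F 8 t * X F 8 t') * (A3 F a b (c + t' * a) * A3 F a' b' c') := by group
    _ = _ := by rw [X_add hadd, A3_mul hadd]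

include hadd in
theorem N8_c6 {t : F} {g : GL chevG2.Idx F} (h : N8 t g) (s : F) :
    N8 t (X F 6 s * g * (X F 6 s)⁻¹) := by
  obtain ⟨a, b, c, rfl⟩ := h
  have h68 : Commute (X F 6 s) (X F 8 t) := X_comm (by decide) (by decide) (cc2 (by decide)) _ _
  refine ⟨a, b, c + s * b, ?_⟩
  have e : X F 6 s * X F 8 t * (X F 6 s)⁻¹ = X F 8 t := by
    rw [h68.eq, mul_inv_cancel_right]
  rw [conj2, e, c6A hadd]

include hadd in
theorem N8_c7 {t : F} {g : GL chevG2.Idx F} (h : N8 t g) (s : F) :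
    N8 t (X F 7 s * g * (X F 7 s)⁻¹) := by
  obtain ⟨a, b, c, rfl⟩ := h
  refine ⟨0 + a, s ^ 2 * t + (b + s * a), s * t ^ 2 + c, ?_⟩
  rw [conj2, conj87 hadd, c7A hadd, mul_assoc, A3_mul hadd]

include hadd in
theorem N8_A (a b c : F) : N8 0 (A3 F a b c) :=
  ⟨a, b, c, by rw [X_zero hadd, one_mul]⟩

include hadd hinj in
theorem N8_one {t : F} (h : N8 t (1 : GL chevG2.Idx F)) : t = 0 := by
  obtain ⟨a, b, c, e⟩ := h
  have e1 : X F 8 t = (A3 F a b c)⁻¹ := eq_inv_of_mul_eq_one_left e.symm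
  rw [inv_eq_of_mul_eq_one_left (A3_sq hadd a b c)] at e1
  exact X8_ne hadd hinj e1

include hadd hinj in
/-- An involution of the form `x_7 x_8 a`, `a ∈ X_9 X_10 X_11`. -/
theorem good_78A [Fintype F] {α : F} (hα : α ≠ 0) (γ a b c : F)
    (hinv : (X F 7 α * X F 8 γ * A3 F a b c) * (X F 7 α * X F 8 γ * A3 F a b c) = 1) :
    Good (X F 7 α * X F 8 γ * A3 F a b c) := by
  obtain ⟨a1, b1, c1, e1⟩ := conj67 hadd α (γ / α)
  have h68 : Commute (X F 6 (γ / α)) (X F 8 γ) :=
    X_comm (by decide) (by decide) (cc2 (by decide)) _ _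
  have e2 : X F 6 (γ / α) * X F 8 γ * (X F 6 (γ / α))⁻¹ = X F 8 γ := by
    rw [h68.eq, mul_inv_cancel_right]
  have hs : α * (γ / α) + γ = 0 := by
    have : α * (γ / α) = γ := by field_simp
    rw [this, CharTwo.add_self_eq_zero]
  have key : X F 6 (γ / α) * (X F 7 α * X F 8 γ * A3 F a b c) * (X F 6 (γ / α))⁻¹ =
      X F 7 α * A3 F (a1 + a) (b1 + b) (c1 + γ * a1 + (c + γ / α * b)) := by
    have e0 : X F 6 (γ / α) * (X F 7 α * X F 8 γ * A3 F a b c) * (X F 6 (γ / α))⁻¹ =
        (X F 6 (γ / α) * X F 7 α * (X F 6 (γ / α))⁻¹) *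
          (X F 6 (γ / α) * X F 8 γ * (X F 6 (γ / α))⁻¹) *
            (X F 6 (γ / α) * A3 F a b c * (X F 6 (γ / α))⁻¹) := by group
    rw [e0, e1, e2, c6A hadd]
    calc X F 7 α * X F 8 (α * (γ / α)) * A3 F a1 b1 c1 * X F 8 γ * A3 F a b (c + γ / α * b)
        = X F 7 α * X F 8 (α * (γ / α)) * (A3 F a1 b1 c1 * X F 8 γ) *
            A3 F a b (c + γ / α * b) := by group
      _ = X F 7 α * (X F 8 (α * (γ / α)) * X F 8 γ) *
            (A3 F a1 b1 (c1 + γ * a1) * A3 F a b (c + γ / α * b)) := by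
        rw [swapA8 hadd]; group
      _ = _ := by rw [X_add hadd, hs, X_zero hadd, mul_one, A3_mul hadd]
  apply good_conj (X_mem (r := 6) (by decide) (γ / α))
  have hinv' := conj_sq (X F 6 (γ / α)) _ hinv
  rw [key] at hinv' ⊢
  exact good_7A hadd hinj hα _ _ _ hinv'

include hadd hinj in
/-- An involution of the form `x_6 x_8 a`, `a ∈ X_9 X_10 X_11`. -/
theorem good_68A [Fintype F] {β : F} (hβ : β ≠ 0) (γ a b c : F)
    (hinv : (X F 6 β * X F 8 γ * A3 F a b c) * (X F 6 β * X F 8 γ * A3 F a b c) = 1) :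
    Good (X F 6 β * X F 8 γ * A3 F a b c) := by
  obtain ⟨a1, b1, c1, e1⟩ := conj76 hadd (γ / β) β
  have hs : γ / β * β + γ = 0 := by
    have : γ / β * β = γ := by field_simp
    rw [this, CharTwo.add_self_eq_zero]
  have key : ∃ a' b' c' : F,
      X F 7 (γ / β) * (X F 6 β * X F 8 γ * A3 F a b c) * (X F 7 (γ / β))⁻¹ =
        X F 6 β * A3 F a' b' c' := by
    have e0 : X F 7 (γ / β) * (X F 6 β * X F 8 γ * A3 F a b c) * (X F 7 (γ / β))⁻¹ =
        (X F 7 (γ / β) * X F 6 β * (X F 7 (γ / β))⁻¹) *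
          (X F 7 (γ / β) * X F 8 γ * (X F 7 (γ / β))⁻¹) *
            (X F 7 (γ / β) * A3 F a b c * (X F 7 (γ / β))⁻¹) := by group
    refine ⟨a1 + (0 + a), b1 + ((γ / β) ^ 2 * γ + (b + γ / β * a)),
      c1 + γ * a1 + (γ / β * γ ^ 2 + c), ?_⟩
    rw [e0, e1, conj87 hadd, c7A hadd]
    calc X F 6 β * X F 8 (γ / β * β) * A3 F a1 b1 c1 *
          (X F 8 γ * A3 F 0 ((γ / β) ^ 2 * γ) (γ / β * γ ^ 2)) * A3 F a (b + γ / β * a) c
        = X F 6 β * X F 8 (γ / β * β) * (A3 F a1 b1 c1 * X F 8 γ) *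
            (A3 F 0 ((γ / β) ^ 2 * γ) (γ / β * γ ^ 2) * A3 F a (b + γ / β * a) c) := by group
      _ = X F 6 β * (X F 8 (γ / β * β) * X F 8 γ) * (A3 F a1 b1 (c1 + γ * a1) *
            (A3 F 0 ((γ / β) ^ 2 * γ) (γ / β * γ ^ 2) * A3 F a (b + γ / β * a) c)) := by
        rw [swapA8 hadd]; group
      _ = X F 6 β * A3 F (a1 + (0 + a)) (b1 + ((γ / β) ^ 2 * γ + (b + γ / β * a)))
            (c1 + γ * a1 + (γ / β * γ ^ 2 + c)) := by
        rw [X_add hadd, hs, X_zero hadd, mul_one, A3_mul hadd, A3_mul hadd]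
  obtain ⟨a', b', c', key⟩ := key
  apply good_conj (X_mem (r := 7) (by decide) (γ / β))
  have hinv' := conj_sq (X F 7 (γ / β)) _ hinv
  rw [key] at hinv' ⊢
  exact good_6A hadd hinj hβ _ _ _ hinv'

include hadd hinj in
/-- The square of `x_6(β) x_7(α) n`. -/
theorem sq_67 (α β : F) {γ : F} {n : GL chevG2.Idx F} (hn : N8 γ n)
    (hinv : (X F 6 β * (X F 7 α * n)) * (X F 6 β * (X F 7 α * n)) = 1) : α * β = 0 := by
  obtain ⟨a1, b1, c1, e1⟩ := conj67 hadd α β
  have hn1 : N8 γ (X F 6 β * n * (X F 6 β)⁻¹) := N8_c6 hadd hn β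
  have hm : N8 (α * β + γ) (X F 8 (α * β) * A3 F a1 b1 c1 * (X F 6 β * n * (X F 6 β)⁻¹)) :=
    N8_mul hadd ⟨a1, b1, c1, rfl⟩ hn1
  have hm' := N8_c7 hadd hm α
  have hfin := N8_mul hadd hm' hn
  have e : (X F 6 β * (X F 7 α * n)) * (X F 6 β * (X F 7 α * n)) =
      X F 7 α * (X F 8 (α * β) * A3 F a1 b1 c1 * (X F 6 β * n * (X F 6 β)⁻¹)) * (X F 7 α)⁻¹ *
        n := by
    calc (X F 6 β * (X F 7 α * n)) * (X F 6 β * (X F 7 α * n))
        = (X F 6 β * X F 7 α * (X F 6 β)⁻¹) * (X F 6 β * n * (X F 6 β)⁻¹) *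
            (X F 6 β * X F 6 β) * (X F 7 α * n) := by group
      _ = X F 7 α * X F 8 (α * β) * A3 F a1 b1 c1 * (X F 6 β * n * (X F 6 β)⁻¹) *
            (X F 7 α * n) := by rw [e1, X_sq hadd, mul_one]
      _ = X F 7 α * (X F 8 (α * β) * A3 F a1 b1 c1 * (X F 6 β * n * (X F 6 β)⁻¹)) *
            (X F 7 α)⁻¹ * ((X F 7 α * X F 7 α) * n) := by group
      _ = _ := by rw [X_sq hadd, one_mul]
  rw [e] at hinv
  rw [hinv] at hfin
  have h0 := N8_one hadd hinj hfin
  have e2 : α * β + γ + γ = α * β := by rw [add_assoc, CharTwo.add_self_eq_zero, add_zero]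
  rw [e2] at h0
  exact h0

end


section

variable {F : Type*} [Field F] [CharP F 2]
  (hadd : ∀ r < chevG2.nroots, ∀ t u : F, chevG2.x F r t * chevG2.x F r u = chevG2.x F r (t + u))
  (hinj : ∀ r < chevG2.nroots, ∀ t : F, chevG2.x F r t = 1 → t = 0)

include hadd hinj in
/-- Every involution of `U` is conjugate to `x_11(1)` or to `x_9(1)`. -/
theorem main_U [Fintype F] {u : GL chevG2.Idx F} (hu : u ∈ chevG2.posUnipotent F)
    (hinv : u * u = 1) (hne : u ≠ 1) : Good u := by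
  have hUF := Cfsg.Agent.Lib.Helper36.ChevUAll.facts (F := F) chevG2 hDG2
  obtain ⟨t, ht⟩ := Cfsg.Agent.Lib.Helper36.ChevU.exists_prod chevG2 hUF u hu
  rw [posRootsG2] at ht
  have hlt : ∀ r ∈ [6, 7, 8, 9, 10, 11], r < FTabG2.fd.n := by decide
  have hL : ∀ p ∈ [6, 7, 8, 9, 10, 11].map (fun r => (r, t r)), p.1 < FTabG2.fd.n := by
    intro p hp
    obtain ⟨r, hr, rfl⟩ := List.mem_map.mp hp
    exact hlt r hr
  have hu_eq : u = prodL CAll.cfG2.af F ([6, 7, 8, 9, 10, 11].map (fun r => (r, t r))) :=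
    Units.ext (by rw [ht, coe_prodL CAll.cfG2.af _ hL])
  have hu2 : u = X F 6 (t 6) * (X F 7 (t 7) * (X F 8 (t 8) * A3 F (t 9) (t 10) (t 11))) := by
    rw [hu_eq]
    simp [prodL, X, A3, mul_assoc]
  have hn : N8 (t 8) (X F 8 (t 8) * A3 F (t 9) (t 10) (t 11)) := ⟨_, _, _, rfl⟩
  have h67 : t 7 * t 6 = 0 := sq_67 hadd hinj (t 7) (t 6) hn (by rw [← hu2]; exact hinv)
  by_cases h6 : t 6 = 0
  · by_cases h7 : t 7 = 0
    · have hu3 : u = X F 8 (t 8) * A3 F (t 9) (t 10) (t 11) := by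
        rw [hu2, h6, h7, X_zero hadd, X_zero hadd, one_mul, one_mul]
      by_cases h8 : t 8 = 0
      · have hu4 : u = A3 F (t 9) (t 10) (t 11) := by
          rw [hu3, h8, X_zero hadd, one_mul]
        rw [hu4] at hne ⊢
        exact good_A hadd _ _ _ hne
      · rw [hu3] at hinv ⊢
        exact good_8A hadd hinj h8 _ _ _ hinv
    · have hu3 : u = X F 7 (t 7) * X F 8 (t 8) * A3 F (t 9) (t 10) (t 11) := by
        rw [hu2, h6, X_zero hadd, one_mul, mul_assoc]
      rw [hu3] at hinv ⊢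
      exact good_78A hadd hinj h7 _ _ _ _ hinv
  · have h7 : t 7 = 0 := by
      rcases mul_eq_zero.mp h67 with h | h
      · exact h
      · exact absurd h h6
    have hu3 : u = X F 6 (t 6) * X F 8 (t 8) * A3 F (t 9) (t 10) (t 11) := by
      rw [hu2, h7, X_zero hadd, one_mul, mul_assoc]
    rw [hu3] at hinv ⊢
    exact good_68A hadd hinj h6 _ _ _ _ hinv

open scoped Pointwise in
/-- Every involution of the group is conjugate into `U`. -/
theorem inv_conj_U [Fintype F] {g : GL chevG2.Idx F} (hg : g ∈ chevG2.group F)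
    (ho : orderOf g = 2) :
    ∃ k ∈ chevG2.group F, k * g * k⁻¹ ∈ chevG2.posUnipotent F := by
  have hp2 : Fact (Nat.Prime 2) := ⟨Nat.prime_two⟩
  obtain ⟨P, hP⟩ := Cfsg.Agent.S2326.result (F := F) 2 chevG2 hDG2
  have ho' : orderOf (⟨g, hg⟩ : ↥(chevG2.group F)) = 2 := by
    rw [← ho, ← Subgroup.orderOf_coe]
  have hp : IsPGroup 2 (Subgroup.zpowers (⟨g, hg⟩ : ↥(chevG2.group F))) :=
    IsPGroup.of_card (n := 1) (by rw [Nat.card_zpowers, ho', pow_one])
  obtain ⟨Q, hQ⟩ := hp.exists_le_sylow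
  obtain ⟨k, hk⟩ := MulAction.exists_smul_eq ↥(chevG2.group F) Q P
  have hgQ : (⟨g, hg⟩ : ↥(chevG2.group F)) ∈ (Q : Subgroup ↥(chevG2.group F)) :=
    hQ (Subgroup.mem_zpowers _)
  have h1 : (MulAut.conj k) • (⟨g, hg⟩ : ↥(chevG2.group F)) ∈
      (MulAut.conj k) • (Q : Subgroup ↥(chevG2.group F)) :=
    Subgroup.smul_mem_pointwise_smul _ (MulAut.conj k) _ hgQ
  rw [← Sylow.coe_subgroup_smul, hk, hP, Subgroup.mem_subgroupOf] at h1
  exact ⟨k, k.2, h1⟩

end


/-! ### The two classes are distinct -/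

/-- The codes of a coordinate subspace stable under the centralizer of `x_9(1)`. -/
def TT : List ℕ := [13, 7, 8, 9, 10, 11]

/-- All coefficients of the entries are even. -/
def evenL (L : List (ℕ × ℕ × ℤ)) : Bool := L.all (fun e => decide (e.2.2 % 2 = 0))

/-- The table check for the generator `x_ρ`. -/
def chkPP (ρ : ℕ) : Bool :=
  TT.all (fun col => (List.range 14).all (fun k =>
    (TT.contains k || evenL ((FTabG2.fd.xcol ρ col).filter (fun e => e.1 = k))) &&
    (!(k == 9) || (if col = 9 then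
        decide ((FTabG2.fd.xcol ρ col).filter (fun e => e.1 = k) = [(9, 0, 1)])
      else evenL ((FTabG2.fd.xcol ρ col).filter (fun e => e.1 = k)))))) &&
  (List.range 14).all (fun k =>
    (TT.contains k || k == 2 || evenL ((FTabG2.fd.xcol ρ 2).filter (fun e => e.1 = k))) &&
    (!(k == 2) || decide ((FTabG2.fd.xcol ρ 2).filter (fun e => e.1 = k) = [(2, 0, 1)])))

set_option maxRecDepth 100000 in
theorem chkPP_ok : [9, 10, 11, 6, 5].all chkPP = true := by decide +kernel

set_option maxRecDepth 100000 in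
theorem entry92 : (FTabG2.fd.xcol 9 2).filter (fun e => e.1 = 9) = [(9, 2, -1)] := by
  decide +kernel

/-- The index of `e_9`. -/
def i9 : chevG2.Idx := Sum.inr ⟨9, by decide⟩

/-- The index of `e_{-9}`. -/
def v0 : chevG2.Idx := Sum.inr ⟨2, by decide⟩

theorem enc_i9 : enc chevG2 i9 = 9 := rfl

theorem enc_v0 : enc chevG2 v0 = 2 := rfl

section

variable {F : Type*} [Field F]

/-- The matrices preserving the flag used to separate the classes. -/
structure PP (g : Matrix chevG2.Idx chevG2.Idx F) : Prop where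
  p1 : ∀ row col, enc chevG2 col ∈ TT → enc chevG2 row ∉ TT → g row col = 0
  p2 : ∀ row col, enc chevG2 col ∈ TT → enc chevG2 row = 9 →
    g row col = if enc chevG2 col = 9 then 1 else 0
  p3 : ∀ row col, enc chevG2 col = 2 → enc chevG2 row ∉ TT → enc chevG2 row ≠ 2 → g row col = 0
  p4 : ∀ row col, enc chevG2 col = 2 → enc chevG2 row = 2 → g row col = 1

theorem PP_one : PP (1 : Matrix chevG2.Idx chevG2.Idx F) := by
  refine ⟨?_, ?_, ?_, ?_⟩
  · intro row col hc hr
    rw [Matrix.one_apply, if_neg]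
    rintro rfl
    exact hr hc
  · intro row col hc hr
    rw [Matrix.one_apply]
    by_cases h : row = col
    · subst h
      rw [if_pos rfl, if_pos hr]
    · rw [if_neg h, if_neg]
      intro h9
      exact h (enc_injective chevG2 (hr.trans h9.symm))
  · intro row col hc hr hr2
    rw [Matrix.one_apply, if_neg]
    rintro rfl
    exact hr2 hc
  · intro row col hc hr
    rw [Matrix.one_apply, if_pos (enc_injective chevG2 (hr.trans hc.symm))]

theorem PP_mul {g h : Matrix chevG2.Idx chevG2.Idx F} (hg : PP g) (hh : PP h) :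
    PP (g * h) ∧ (g * h) i9 v0 = g i9 v0 + h i9 v0 := by
  have h9T : (9 : ℕ) ∈ TT := by decide
  have h2T : (2 : ℕ) ∉ TT := by decide
  refine ⟨⟨?_, ?_, ?_, ?_⟩, ?_⟩
  · intro row col hc hr
    rw [Matrix.mul_apply]
    apply Finset.sum_eq_zero
    intro k _
    by_cases hk : enc chevG2 k ∈ TT
    · rw [hg.p1 row k hk hr, zero_mul]
    · rw [hh.p1 k col hc hk, mul_zero]
  · intro row col hc hr
    rw [Matrix.mul_apply, Finset.sum_eq_single i9]
    · rw [hg.p2 row i9 h9T hr, if_pos enc_i9, one_mul, hh.p2 i9 col hc enc_i9]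
    · intro k _ hne
      by_cases hk : enc chevG2 k ∈ TT
      · rw [hg.p2 row k hk hr, if_neg, zero_mul]
        intro h9
        exact hne (enc_injective chevG2 (h9.trans enc_i9.symm))
      · rw [hh.p1 k col hc hk, mul_zero]
    · intro h
      exact absurd (Finset.mem_univ _) h
  · intro row col hc hr hr2
    rw [Matrix.mul_apply]
    apply Finset.sum_eq_zero
    intro k _
    by_cases hk : enc chevG2 k ∈ TT
    · rw [hg.p1 row k hk hr, zero_mul]
    · by_cases hk2 : enc chevG2 k = 2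
      · rw [hg.p3 row k hk2 hr hr2, zero_mul]
      · rw [hh.p3 k col hc hk hk2, mul_zero]
  · intro row col hc hr
    have hrT : enc chevG2 row ∉ TT := by rw [hr]; exact h2T
    rw [Matrix.mul_apply, Finset.sum_eq_single v0]
    · rw [hg.p4 row v0 enc_v0 hr, hh.p4 v0 col hc enc_v0, one_mul]
    · intro k _ hne
      by_cases hk : enc chevG2 k ∈ TT
      · rw [hg.p1 row k hk hrT, zero_mul]
      · have hk2 : enc chevG2 k ≠ 2 := fun h2 => hne (enc_injective chevG2 (h2.trans enc_v0.symm))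
        rw [hh.p3 k col hc hk hk2, mul_zero]
    · intro h
      exact absurd (Finset.mem_univ _) h
  · have hne : i9 ≠ v0 := by decide
    rw [Matrix.mul_apply, Finset.sum_eq_add i9 v0 hne]
    · rw [hg.p2 i9 i9 h9T enc_i9, if_pos enc_i9, one_mul, hh.p4 v0 v0 enc_v0 enc_v0, mul_one,
        add_comm]
    · intro k _ hk
      by_cases hkT : enc chevG2 k ∈ TT
      · rw [hg.p2 i9 k hkT enc_i9, if_neg, zero_mul]
        intro h9
        exact hk.1 (enc_injective chevG2 (h9.trans enc_i9.symm))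
      · have hk2 : enc chevG2 k ≠ 2 :=
          fun h2 => hk.2 (enc_injective chevG2 (h2.trans enc_v0.symm))
        rw [hh.p3 k v0 enc_v0 hkT hk2, mul_zero]
    · intro h
      exact absurd (Finset.mem_univ _) h
    · intro h
      exact absurd (Finset.mem_univ _) h

variable [CharP F 2]

theorem sum_even (L : List (ℕ × ℕ × ℤ)) (h : evenL L = true) (t : F) :
    (L.map (fun e => ((e.2.2 : ℤ) : F) * t ^ e.2.1)).sum = 0 := by
  induction L with
  | nil => simp
  | cons e L ih =>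
    unfold evenL at h ih
    rw [List.all_cons, Bool.and_eq_true] at h
    have he : ((e.2.2 : ℤ) : F) = 0 := by
      obtain ⟨k, hk⟩ := Int.dvd_of_emod_eq_zero (of_decide_eq_true h.1)
      rw [hk]
      push_cast
      rw [CharTwo.two_eq_zero, zero_mul]
    rw [List.map_cons, List.sum_cons, ih h.2, he, zero_mul, add_zero]

theorem entry_eq' {ρ : ℕ} (hρ : ρ < 12) (c : F) (row col : chevG2.Idx) :
    chevG2.x F ρ c row col =
      (((FTabG2.fd.xcol ρ (enc chevG2 col)).filter (fun e => e.1 = enc chevG2 row)).map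
        (fun e => ((e.2.2 : ℤ) : F) * c ^ e.2.1)).sum := by
  rw [x_eq_xMat (lt_nroots CAll.cfG2.af hρ), xMat_apply CAll.cfG2.af.agrees]

theorem enc_lt14 (b : chevG2.Idx) : enc chevG2 b < 14 := enc_lt CAll.cfG2.af.agrees b

/-- The root elements generating the centralizer of `x_9(1)` preserve the flag. -/
theorem PP_gen {ρ : ℕ} (hρ : ρ ∈ [9, 10, 11, 6, 5]) (c : F) : PP (chevG2.x F ρ c) := by
  have hρ12 : ρ < 12 := by
    simp only [List.mem_cons, List.not_mem_nil, or_false] at hρ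
    rcases hρ with rfl | rfl | rfl | rfl | rfl <;> decide
  have hchk := List.all_eq_true.mp chkPP_ok ρ hρ
  unfold chkPP at hchk
  rw [Bool.and_eq_true, List.all_eq_true, List.all_eq_true] at hchk
  obtain ⟨hA, hB⟩ := hchk
  refine ⟨?_, ?_, ?_, ?_⟩
  · intro row col hc hr
    have h := List.all_eq_true.mp (hA _ hc) (enc chevG2 row) (List.mem_range.mpr (enc_lt14 row))
    rw [Bool.and_eq_true, Bool.or_eq_true] at h
    rcases h.1 with h1 | h1
    · exact absurd (List.contains_iff_mem.mp h1) hr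
    · rw [entry_eq' hρ12]
      exact sum_even _ h1 c
  · intro row col hc hr
    have h := List.all_eq_true.mp (hA _ hc) (enc chevG2 row) (List.mem_range.mpr (enc_lt14 row))
    rw [Bool.and_eq_true] at h
    have h2 := h.2
    rw [Bool.or_eq_true] at h2
    rcases h2 with h2 | h2
    · rw [hr] at h2
      exact absurd h2 (by decide)
    · rw [entry_eq' hρ12]
      by_cases h9 : enc chevG2 col = 9
      · rw [if_pos h9] at h2 ⊢
        rw [of_decide_eq_true h2]
        simp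
      · rw [if_neg h9] at h2 ⊢
        exact sum_even _ h2 c
  · intro row col hc hr hr2
    have h := hB (enc chevG2 row) (List.mem_range.mpr (enc_lt14 row))
    rw [Bool.and_eq_true, Bool.or_eq_true, Bool.or_eq_true] at h
    rcases h.1 with (h1 | h1) | h1
    · exact absurd (List.contains_iff_mem.mp h1) hr
    · exact absurd (beq_iff_eq.mp h1) hr2
    · rw [entry_eq' hρ12, hc]
      exact sum_even _ h1 c
  · intro row col hc hr
    have h := hB (enc chevG2 row) (List.mem_range.mpr (enc_lt14 row))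
    rw [Bool.and_eq_true] at h
    have h2 := h.2
    rw [Bool.or_eq_true] at h2
    rcases h2 with h2 | h2
    · rw [hr] at h2
      exact absurd h2 (by decide)
    · rw [entry_eq' hρ12, hc, of_decide_eq_true h2]
      simp

end


section

variable {F : Type*} [Field F] [CharP F 2]
  (hadd : ∀ r < chevG2.nroots, ∀ t u : F, chevG2.x F r t * chevG2.x F r u = chevG2.x F r (t + u))
  (hinj : ∀ r < chevG2.nroots, ∀ t : F, chevG2.x F r t = 1 → t = 0)

/-- The elements preserving the flag together with their inverses. -/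
def KK (F : Type*) [Field F] : Subgroup (GL chevG2.Idx F) where
  carrier := {g | PP (g : Matrix chevG2.Idx chevG2.Idx F) ∧
    PP ((g⁻¹ : GL chevG2.Idx F) : Matrix chevG2.Idx chevG2.Idx F)}
  mul_mem' := by
    rintro a b ⟨h1, h1'⟩ ⟨h2, h2'⟩
    refine ⟨?_, ?_⟩
    · rw [Units.val_mul]
      exact (PP_mul h1 h2).1
    · rw [mul_inv_rev, Units.val_mul]
      exact (PP_mul h2' h1').1
  one_mem' := by
    refine ⟨?_, ?_⟩
    · rw [Units.val_one]
      exact PP_one
    · rw [inv_one, Units.val_one]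
      exact PP_one
  inv_mem' := by
    rintro a ⟨h1, h1'⟩
    refine ⟨h1', ?_⟩
    rw [inv_inv]
    exact h1

/-- The additive invariant. -/
def aa (g : GL chevG2.Idx F) : F := (g : Matrix chevG2.Idx chevG2.Idx F) i9 v0

theorem aa_mul {g h : GL chevG2.Idx F} (hg : g ∈ KK F) (hh : h ∈ KK F) :
    aa (g * h) = aa g + aa h := by
  unfold aa
  rw [Units.val_mul]
  exact (PP_mul hg.1 hh.1).2

theorem aa_one : aa (1 : GL chevG2.Idx F) = 0 := by
  unfold aa
  rw [Units.val_one, Matrix.one_apply, if_neg (by decide)]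

theorem aa_inv {g : GL chevG2.Idx F} (hg : g ∈ KK F) : aa g + aa g⁻¹ = 0 := by
  rw [← aa_mul hg ((KK F).inv_mem hg), mul_inv_cancel, aa_one]

theorem aa_comm {p q : GL chevG2.Idx F} (hp : p ∈ KK F) (hq : q ∈ KK F) :
    aa (q⁻¹ * p * q * p⁻¹) = 0 := by
  have hq' := (KK F).inv_mem hq
  have hp' := (KK F).inv_mem hp
  rw [aa_mul ((KK F).mul_mem ((KK F).mul_mem hq' hp) hq) hp',
    aa_mul ((KK F).mul_mem hq' hp) hq, aa_mul hq' hp]
  have h1 := aa_inv hp
  have h2 := aa_inv hq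
  calc aa q⁻¹ + aa p + aa q + aa p⁻¹ = (aa q + aa q⁻¹) + (aa p + aa p⁻¹) := by ring
    _ = 0 := by rw [h1, h2, add_zero]

include hadd in
theorem X_mem_KK {ρ : ℕ} (hρ : ρ ∈ [9, 10, 11, 6, 5]) (c : F) : X F ρ c ∈ KK F := by
  have hρ12 : ρ < 12 := by
    simp only [List.mem_cons, List.not_mem_nil, or_false] at hρ
    rcases hρ with rfl | rfl | rfl | rfl | rfl <;> decide
  refine ⟨?_, ?_⟩
  · rw [cX hρ12]
    exact PP_gen hρ c
  · rw [X_inv hadd, cX hρ12]
    exact PP_gen hρ c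

include hadd in
theorem root_le_KK {ρ : ℕ} (hρ : ρ ∈ [9, 10, 11, 6, 5]) : chevG2.rootSubgroup F ρ ≤ KK F := by
  have hρ12 : ρ < 12 := by
    simp only [List.mem_cons, List.not_mem_nil, or_false] at hρ
    rcases hρ with rfl | rfl | rfl | rfl | rfl <;> decide
  exact rootSubgroup_le CAll.cfG2.af hρ12 (fun c => X_mem_KK hadd hρ c)

theorem aa_X9 : aa (X F 9 1) ≠ 0 := by
  unfold aa
  rw [cX (by decide), entry_eq' (by decide), enc_v0, enc_i9, entry92]
  simp

include hadd hinj in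
/-- `x_11(1)` and `x_9(1)` are not conjugate. -/
theorem not_conj {h : GL chevG2.Idx F} (hh : h ∈ chevG2.group F)
    (e : h * X F 11 1 * h⁻¹ = X F 9 1) : False := by
  have hcent := cent9 hadd hinj (X F 9 1) (cX (by decide) 1)
  have hle : chevG2.group F ⊓ Subgroup.centralizer {X F 9 1} ≤ KK F := by
    rw [hcent]
    exact sup_le (sup_le (sup_le (sup_le (root_le_KK hadd (by decide))
      (root_le_KK hadd (by decide))) (root_le_KK hadd (by decide)))
      (root_le_KK hadd (by decide))) (root_le_KK hadd (by decide))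
  have hmem : ∀ r, r < 12 → Commute (X F r 1) (X F 11 1) → h * X F r 1 * h⁻¹ ∈ KK F := by
    intro r hr hc
    apply hle
    refine Subgroup.mem_inf.mpr ⟨?_, ?_⟩
    · exact Subgroup.mul_mem _ (Subgroup.mul_mem _ hh (X_mem hr 1)) (Subgroup.inv_mem _ hh)
    · rw [Subgroup.mem_centralizer_iff]
      intro z hz
      rw [Set.mem_singleton_iff] at hz
      rw [hz, ← e]
      have e1 : h * X F 11 1 * h⁻¹ * (h * X F r 1 * h⁻¹) = h * (X F 11 1 * X F r 1) * h⁻¹ := by
        group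
      have e2 : h * X F r 1 * h⁻¹ * (h * X F 11 1 * h⁻¹) = h * (X F r 1 * X F 11 1) * h⁻¹ := by
        group
      rw [e1, e2, hc.eq]
  have h6 := hmem 6 (by decide) (X_comm (by decide) (by decide) (cc (by decide)) 1 1)
  have h10 := hmem 10 (by decide) (X_comm (by decide) (by decide) (cc (by decide)) 1 1)
  have hrel : X F 11 (1 : F) = (X F 10 1)⁻¹ * X F 6 1 * X F 10 1 * (X F 6 1)⁻¹ := by
    have hm := mv6 (F := F) 1 1
    rw [mul_one] at hm
    have hm' : X F 6 (1 : F) * X F 10 1 * (X F 6 1)⁻¹ = X F 10 1 * X F 11 1 := hm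
    calc X F 11 (1 : F) = (X F 10 1)⁻¹ * (X F 10 1 * X F 11 1) := by group
      _ = _ := by rw [← hm']; group
  have hfin : X F 9 (1 : F) = (h * X F 10 1 * h⁻¹)⁻¹ * (h * X F 6 1 * h⁻¹) *
      (h * X F 10 1 * h⁻¹) * (h * X F 6 1 * h⁻¹)⁻¹ := by
    rw [← e]
    conv_lhs => rw [hrel]
    group
  have h0 := aa_comm h6 h10
  rw [← hfin] at h0
  exact aa_X9 h0

end


section

variable {F : Type*} [Field F] [CharP F 2]
  (hadd : ∀ r < chevG2.nroots, ∀ t u : F, chevG2.x F r t * chevG2.x F r u = chevG2.x F r (t + u))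
  (hinj : ∀ r < chevG2.nroots, ∀ t : F, chevG2.x F r t = 1 → t = 0)

include hadd hinj in
/-- The two representatives are involutions of the group. -/
theorem part1 (y : GL chevG2.Idx F)
    (hy : (y : Matrix chevG2.Idx chevG2.Idx F) ∈ [chevG2.x F 11 1, chevG2.x F 9 1]) :
    y ∈ chevG2.group F ∧ orderOf y = 2 := by
  have key : ∀ r, r < 12 → (y : Matrix chevG2.Idx chevG2.Idx F) = chevG2.x F r 1 →
      y ∈ chevG2.group F ∧ orderOf y = 2 := by
    intro r hr e
    have hy' : y = X F r 1 := Units.ext (by rw [e, cX hr])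
    rw [hy']
    refine ⟨X_mem hr 1, ?_⟩
    have hp : Fact (Nat.Prime 2) := ⟨Nat.prime_two⟩
    apply orderOf_eq_prime
    · rw [pow_two, X_sq hadd]
    · intro h1
      have h2 : chevG2.x F r 1 = 1 := by rw [← cX hr, h1, Units.val_one]
      exact one_ne_zero (hinj r (lt_nroots CAll.cfG2.af hr) 1 h2)
  simp only [List.mem_cons, List.not_mem_nil, or_false] at hy
  rcases hy with e | e
  · exact key 11 (by decide) e
  · exact key 9 (by decide) e

include hadd hinj in
/-- Every involution of the group is conjugate to one of the two representatives. -/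
theorem part2 [Fintype F] (g : GL chevG2.Idx F) (hg : g ∈ chevG2.group F) (ho : orderOf g = 2) :
    ∃ y ∈ chevG2.group F,
      (y : Matrix chevG2.Idx chevG2.Idx F) ∈ [chevG2.x F 11 1, chevG2.x F 9 1] ∧
        ∃ h ∈ chevG2.group F, h * g * h⁻¹ = y := by
  obtain ⟨k, hk, hu⟩ := inv_conj_U hg ho
  have hgg : g * g = 1 := by rw [← pow_two, ← ho, pow_orderOf_eq_one]
  have hg1 : g ≠ 1 := by
    intro h
    rw [h, orderOf_one] at ho
    exact absurd ho (by decide)
  have hne : k * g * k⁻¹ ≠ 1 := by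
    intro h
    apply hg1
    have e : g = k⁻¹ * (k * g * k⁻¹) * k := by group
    rw [e, h]
    group
  have hgood : Good (k * g * k⁻¹) := main_U hadd hinj hu (conj_sq k g hgg) hne
  obtain ⟨h, hh, e⟩ := good_conj hk hgood
  rcases e with e | e
  · exact ⟨X F 11 1, X_mem (by decide) 1, by rw [cX (by decide)]; simp, h, hh, e⟩
  · exact ⟨X F 9 1, X_mem (by decide) 1, by rw [cX (by decide)]; simp, h, hh, e⟩

include hadd hinj in
/-- The two representatives are not conjugate. -/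
theorem part3 (y₁ y₂ : GL chevG2.Idx F)
    (h1 : (y₁ : Matrix chevG2.Idx chevG2.Idx F) ∈ [chevG2.x F 11 1, chevG2.x F 9 1])
    (h2 : (y₂ : Matrix chevG2.Idx chevG2.Idx F) ∈ [chevG2.x F 11 1, chevG2.x F 9 1])
    (hc : ∃ h ∈ chevG2.group F, h * y₁ * h⁻¹ = y₂) :
    (y₁ : Matrix chevG2.Idx chevG2.Idx F) = (y₂ : Matrix chevG2.Idx chevG2.Idx F) := by
  obtain ⟨h, hh, e⟩ := hc
  simp only [List.mem_cons, List.not_mem_nil, or_false] at h1 h2
  rcases h1 with e1 | e1 <;> rcases h2 with e2 | e2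
  · rw [e1, e2]
  · exfalso
    have hy1 : y₁ = X F 11 1 := Units.ext (by rw [e1, cX (by decide)])
    have hy2 : y₂ = X F 9 1 := Units.ext (by rw [e2, cX (by decide)])
    rw [hy1, hy2] at e
    exact not_conj hadd hinj hh e
  · exfalso
    have hy1 : y₁ = X F 9 1 := Units.ext (by rw [e1, cX (by decide)])
    have hy2 : y₂ = X F 11 1 := Units.ext (by rw [e2, cX (by decide)])
    rw [hy1, hy2] at e
    have e' : h⁻¹ * X F 11 1 * h⁻¹⁻¹ = X F 9 1 := by
      rw [← e]
      group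
    exact not_conj hadd hinj (Subgroup.inv_mem _ hh) e'
  · rw [e1, e2]

end

end Cfsg.Agent.Lib.Helper36.InvG2
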